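import Cfsg.Agent.MCA.Def

/-!
MCA/Br.  Counting Sylow subgroups inside a subgroup.
-/

set_option autoImplicit false

namespace Cfsg.Agent.MCA

open Subgroup Cfsg.Agent.PLocal.Amb

variable {H : Type*} [Group H] [Finite H]

theorem br_dvd {G X : Type*} [Group G] [MulAction G X] [Finite X] (m : ℕ) (n : ℕ) :
    ∀ s : Set X, s.ncard = n → (∀ x ∈ s, ∀ g : G, g • x ∈ s) →
      (∀ x ∈ s, m ∣ (MulAction.orbit G x).ncard) → m ∣ n := by
  induction n using Nat.strong_induction_on with
  | _ n ih =>
    intro s hn hs h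
    rcases s.eq_empty_or_nonempty with rfl | ⟨x, hx⟩
    · rw [← hn]; simp
    · have hle : MulAction.orbit G x ⊆ s := by
        rintro _ ⟨g, rfl⟩; exact hs x hx g
      have e := Set.ncard_sdiff_add_ncard_of_subset hle
      have hpos : 0 < (MulAction.orbit G x).ncard :=
        (Set.ncard_pos (Set.toFinite _)).2 ⟨x, MulAction.mem_orbit_self x⟩
      have := ih (s \ MulAction.orbit G x).ncard (by omega) _ rfl (fun y hy g => ⟨hs y hy.1 g, fun ⟨a, ha⟩ =>
        hy.2 ⟨g⁻¹ * a, by
          have ha' : a • x = g • y := ha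
          show (g⁻¹ * a) • x = y
          rw [mul_smul, ha', inv_smul_smul]⟩⟩) (fun y hy => h y hy.1)
      rw [← hn, ← e]
      exact Nat.dvd_add this (h x hx)

/-- `Sylow.card_eq_index_normalizer` for `P.subtype hL`, `normalizer_eq_subgroupOf`. -/
theorem relIndex_eq_card_sylow (P : Sylow 5 H) {L : Subgroup H} (hL : (P : Subgroup H) ≤ L) :
    (𝐍[(P : Subgroup H)]).relIndex L = Nat.card (Sylow 5 L) := by
  rw [(P.subtype hL).card_eq_index_normalizer, Subgroup.relIndex, subgroupOf_normalizer_eq hL]
  rfl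

/-- Sylow subgroups of `L` are the Sylow subgroups of `H` inside `L` (`Sylow.subtype` is a bijection). -/
theorem card_sylow_eq_card_le (P : Sylow 5 H) {L : Subgroup H} (hL : (P : Subgroup H) ≤ L) :
    Nat.card (Sylow 5 L) = Nat.card {Q : Sylow 5 H // (Q : Subgroup H) ≤ L} := by
  symm
  refine Nat.card_eq_of_bijective (fun Q => Q.1.subtype Q.2)
    ⟨fun Q R e => Subtype.ext (Sylow.subtype_injective e), fun R => ?_⟩
  obtain ⟨g, rfl⟩ := MulAction.exists_smul_eq L (P.subtype hL) R
  refine ⟨⟨(g : H) • P, ?_⟩, ?_⟩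
  · intro x hx
    have hx' : (g : H)⁻¹ * x * (g : H) ∈ (P : Subgroup H) := by
      have := (Subgroup.mem_pointwise_smul_iff_inv_smul_mem).1 hx
      simpa using this
    have := L.mul_mem (L.mul_mem g.2 (hL hx')) (L.inv_mem g.2)
    simpa [mul_assoc] using this
  · exact (Sylow.smul_subtype hL g).symm

/-- if the number of Sylow subgroups is not 1 mod 25, two of them meet in index 5 (orbits of P on the others have length `|P : P ⊓ Q|`). -/
theorem exists_inf_index5 (P : Sylow 5 H) (h : Nat.card (Sylow 5 H) % 25 ≠ 1) :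
    ∃ Q : Sylow 5 H, Q ≠ P ∧ Nat.card (P : Subgroup H) = 5 * Nat.card ↥((P : Subgroup H) ⊓ Q) := by
  by_contra hn
  push Not at hn
  apply h
  have hP : ∀ g : (P : Subgroup H), g • P = P := fun g =>
    Sylow.smul_eq_iff_mem_normalizer.2 (le_normalizer g.2)
  have hd := br_dvd (G := (P : Subgroup H)) 25 _ ({P}ᶜ : Set (Sylow 5 H)) rfl
    (fun Q hQ g e => hQ (by
      have e' : g • Q = P := e
      show Q = P
      rw [← inv_smul_smul g Q, e', hP]))
    (fun Q hQ => by
      have hQ' : Q ≠ P := hQ
      rw [← MulAction.index_stabilizer]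
      have e : MulAction.stabilizer (P : Subgroup H) Q = (Q : Subgroup H).subgroupOf P := by
        ext g
        rw [MulAction.mem_stabilizer_iff, mem_subgroupOf]
        have h1 := P.isPGroup'.inf_normalizer_sylow Q
        constructor
        · intro hg
          have h2 : (g : H) ∈ (P : Subgroup H) ⊓ normalizer (Q : Set H) :=
            ⟨g.2, Sylow.smul_eq_iff_mem_normalizer.1 hg⟩
          rw [h1] at h2
          exact h2.2
        · intro hg
          exact Sylow.smul_eq_iff_mem_normalizer.2 (le_normalizer hg)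
      rw [e]
      obtain ⟨k, hk⟩ := P.isPGroup'.index ((Q : Subgroup H).subgroupOf P)
      have hc := ((Q : Subgroup H).subgroupOf P).index_mul_card
      have hc2 : Nat.card ((Q : Subgroup H).subgroupOf P) = Nat.card ↥((P : Subgroup H) ⊓ Q) := by
        rw [← inf_subgroupOf_left]
        exact Nat.card_congr (subgroupOfEquivOfLe inf_le_left).toEquiv
      rw [hk]
      match k, hk with
      | 0, hk =>
        exfalso
        rw [pow_zero, index_eq_one, subgroupOf_eq_top] at hk
        exact hQ' (Sylow.ext (P.is_maximal' Q.isPGroup' hk))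
      | 1, hk =>
        exfalso
        rw [hk, hc2, pow_one] at hc
        exact hn Q hQ' hc.symm
      | k + 2, _ => exact ⟨5 ^ k, by ring⟩)
  have e := Set.ncard_add_ncard_compl ({P} : Set (Sylow 5 H))
  rw [Set.ncard_singleton] at e
  omega

end Cfsg.Agent.MCA
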