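import Cfsg.Agent.MCA.Def

/-!
MCA/Cnt2.  Counting Sylow 5-subgroups modulo 125.
-/

set_option autoImplicit false

namespace Cfsg.Agent.MCA

open Subgroup Cfsg.Agent.PLocal.Amb

variable {S : Type*} [Group S] [Finite S] {P : Sylow 5 S}

theorem cnt2_free {G Ω : Type*} [Group G] [MulAction G Ω] [Finite Ω] {T : Subgroup G} {C : Set Ω}
    (hinv : ∀ t ∈ T, ∀ c ∈ C, t • c ∈ C)
    (hf : ∀ t ∈ T, ∀ c ∈ C, t • c = c → t = 1) : Nat.card T ∣ C.ncard := by
  let _ : MulAction T C :=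
    { smul := fun t c => ⟨(t : G) • c.1, hinv t t.2 c c.2⟩
      one_smul := fun c => Subtype.ext (one_smul G _)
      mul_smul := fun a b c => Subtype.ext (mul_smul (a : G) _ _) }
  rw [← Nat.card_coe_set_eq, Nat.card_congr (MulAction.selfEquivOrbitsQuotientProd (G := T) (X := C)
    fun c => (eq_bot_iff_forall _).2 fun t ht =>
      Subtype.ext (hf t t.2 c c.2 (congrArg Subtype.val ht))), Nat.card_prod]
  exact Dvd.intro_left _ rfl

theorem cnt2_nd (h : Hyp P) {r : ℕ} (hr : r.Prime) (hc' : r.Coprime 5) (bad : ¬ Adm (r * 5))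
    (h124 : ¬ r ∣ 124) : ¬ r ∣ Nat.card 𝐍[(P : Subgroup S)] := by
  intro hd
  haveI := Fact.mk hr
  obtain ⟨x, hx⟩ := exists_prime_orderOf_dvd_card' r hd
  have hx' : orderOf (ConjAct.toConjAct (x : S)) = r := by
    rw [MulEquiv.orderOf_eq, Subgroup.orderOf_coe, hx]
  have hm : ∀ t ∈ zpowers (ConjAct.toConjAct (x : S)), ConjAct.ofConjAct t ∈ 𝐍[(P : Subgroup S)] := by
    intro t ht
    obtain ⟨k, rfl⟩ := mem_zpowers_iff.1 ht
    rw [map_zpow, ConjAct.ofConjAct_toConjAct]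
    exact Subgroup.zpow_mem _ x.2 k
  have key := cnt2_free (T := zpowers (ConjAct.toConjAct (x : S)))
    (C := ((P : Subgroup S) : Set S) \ {1}) (fun t ht c hc => by
      rw [ConjAct.smul_def]
      exact ⟨(mem_normalizer_iff.1 (hm t ht) c).1 hc.1, fun e => hc.2 (by simpa using e)⟩)
    (fun t ht c hc e => by
      by_contra h1
      rw [ConjAct.smul_def, mul_inv_eq_iff_eq_mul] at e
      have o : orderOf t ∣ r := hx' ▸ orderOf_dvd_of_mem_zpowers ht
      have o' : orderOf t = r :=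
        ((Nat.dvd_prime hr).1 o).resolve_left fun e1 => h1 (orderOf_eq_one_iff.1 e1)
      exact h.no_comm (x := ConjAct.ofConjAct t) (y := c) e
        (by rw [MulEquiv.orderOf_eq, o']) (h.ord5 hc.1 hc.2) hc' bad)
  rw [Nat.card_zpowers, hx', Set.ncard_sdiff_singleton_of_mem (P : Subgroup S).one_mem,
    ← Nat.card_coe_set_eq] at key
  have e : Nat.card ((P : Subgroup S) : Set S) = 125 := h.cardP
  rw [e] at key
  exact h124 key

/-- P acts freely on the complement of X: if g ∈ P fixes Q then g ∈ 𝐍[Q] is a 5-element, so g ∈ P ⊓ Q = ⊥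
(`Char/DegVan.card_dvd_of_free`, or `J3O.l17b_free`). -/
theorem cnt2 (h : Hyp P) (X : Set (Sylow 5 S)) (hX : ∀ Q, Q ∉ X → (P : Subgroup S) ⊓ Q = ⊥)
    (hXP : ∀ g ∈ (P : Subgroup S), ∀ Q ∈ X, g • Q ∈ X) :
    Nat.card (Sylow 5 S) % 125 = Nat.card X % 125 := by
  have key := cnt2_free (T := (P : Subgroup S)) (C := Xᶜ) (fun t ht Q hQ hm => hQ (by
      have := hXP t⁻¹ ((P : Subgroup S).inv_mem ht) _ hm
      rwa [inv_smul_smul] at this))
    (fun t ht Q hQ e => by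
      have h1 : t ∈ (P : Subgroup S) ⊓ normalizer (Q : Set S) :=
        ⟨ht, Sylow.smul_eq_iff_mem_normalizer.1 e⟩
      rw [P.isPGroup'.inf_normalizer_sylow Q, hX Q hQ] at h1
      exact h1)
  rw [h.cardP] at key
  have e := Set.ncard_add_ncard_compl X
  rw [Nat.card_coe_set_eq]
  omega

/-- 7 and 11 do not divide |𝐍[P]|: an element x of order 7 (11) normalising P fixes ≡ 125 ≡ 6 mod 7 (4 mod 11) elements of P, so commutes with some
a ≠ 1 in P: order 35 (55), `Hyp.no_comm`.  |S| = 2^7 3^6 5^3 7 11, 125 ∣ |𝐍[P]| ∣ |S|, `Sylow.card_eq_index_normalizer`. -/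
theorem cnt_e (h : Hyp P) : ∃ i ≤ 7, ∃ j ≤ 6, Nat.card 𝐍[(P : Subgroup S)] = 125 * (2 ^ i * 3 ^ j) ∧
    Nat.card (Sylow 5 S) * (2 ^ i * 3 ^ j) = 7185024 := by
  have d1 : 125 ∣ Nat.card 𝐍[(P : Subgroup S)] := h.cardP ▸ card_dvd_of_le le_normalizer
  obtain ⟨m, hm⟩ := d1
  have e := (𝐍[(P : Subgroup S)]).card_mul_index
  have e2 : Nat.card (Sylow 5 S) = (𝐍[(P : Subgroup S)]).index := P.card_eq_index_normalizer
  rw [h.card, hm, ← e2] at e
  have e3 : Nat.card (Sylow 5 S) * m = 7185024 := by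
    have : 125 * (Nat.card (Sylow 5 S) * m) = 125 * 7185024 := by rw [← show _ = 125 * 7185024 from e]; ring
    omega
  have n7 : ¬ 7 ∣ m := fun d => cnt2_nd h (r := 7) (by norm_num) (by norm_num) (by decide) (by norm_num)
    (hm ▸ d.mul_left 125)
  have n11 : ¬ 11 ∣ m := fun d => cnt2_nd h (r := 11) (by norm_num) (by norm_num) (by decide) (by norm_num)
    (hm ▸ d.mul_left 125)
  have d2 : m ∣ 2 ^ 7 * 3 ^ 6 * 7 * 11 := ⟨Nat.card (Sylow 5 S), by rw [mul_comm m, e3]; norm_num⟩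
  have c7 : m.Coprime 7 := ((Nat.Prime.coprime_iff_not_dvd (by norm_num)).2 n7).symm
  have c11 : m.Coprime 11 := ((Nat.Prime.coprime_iff_not_dvd (by norm_num)).2 n11).symm
  have d3 : m ∣ 2 ^ 7 * 3 ^ 6 := c7.dvd_of_dvd_mul_right (c11.dvd_of_dvd_mul_right d2)
  obtain ⟨a, b, ha, hb, rfl⟩ := (Nat.dvd_mul).1 d3
  obtain ⟨i, hi, rfl⟩ := (Nat.dvd_prime_pow Nat.prime_two).1 ha
  obtain ⟨j, hj, rfl⟩ := (Nat.dvd_prime_pow Nat.prime_three).1 hb
  exact ⟨i, hi, j, hj, hm, e3⟩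

end Cfsg.Agent.MCA
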