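import Cfsg.Agent.PLocal.AmbSyl

/-!
MCA: a simple group of order `898128000` with element orders dividing 7, 8, 10, 11, 12, 15 or 18
cannot have abelian Sylow 5-subgroups.  Definitions and basic facts.
-/

set_option autoImplicit false

namespace Cfsg.Agent.MCA

open Subgroup Cfsg.Agent.PLocal.Amb

/-- centraliser of an element -/
abbrev Cz {S : Type*} [Group S] (x : S) : Subgroup S := centralizer ({x} : Set S)

/-- admissible element orders -/
def Adm (n : ℕ) : Prop := n ∣ 7 ∨ n ∣ 8 ∨ n ∣ 10 ∨ n ∣ 11 ∨ n ∣ 12 ∨ n ∣ 15 ∨ n ∣ 18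

instance : DecidablePred Adm := fun n => by unfold Adm; infer_instance

/-- the standing hypotheses -/
structure Hyp {S : Type*} [Group S] (P : Sylow 5 S) : Prop where
  card : Nat.card S = 898128000
  simple : IsSimpleGroup S
  ord : ∀ g : S, Adm (orderOf g)
  comm : IsMulCommutative (P : Subgroup S)

/-- the class of groups that occur as sections of centralisers of elements of order 5 -/
structure KK (H : Type*) [Group H] : Prop where
  card : Nat.card H ∣ 2 ^ 7 * 3 ^ 6 * 5 ^ 3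
  pow : ∀ g : H, g ^ 10 = 1 ∨ g ^ 15 = 1
  comm : ∀ Q : Sylow 5 H, IsMulCommutative (Q : Subgroup H)

/-- the conclusion about groups in `KK` -/
def KC (H : Type*) [Group H] : Prop :=
  (Nat.card (Sylow 5 H) = 1 ∨ Nat.card (Sylow 5 H) = 6 ∨ Nat.card (Sylow 5 H) = 16 ∨
    Nat.card (Sylow 5 H) = 81) ∧
  ∃ D : Subgroup H, ∀ Q : Sylow 5 H, D ≤ Q ∧ Nat.card Q ≤ 5 * Nat.card D

/-- the trivial-intersection case -/
structure TI {S : Type*} [Group S] (P : Sylow 5 S) : Prop where
  ti : ∀ g : S, (P : Subgroup S) ⊓ cj(g, (P : Subgroup S)) ≠ ⊥ → g ∈ 𝐍[(P : Subgroup S)]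
  card : Nat.card 𝐍[(P : Subgroup S)] = 3000

/-- the case of a special hyperplane `D` lying in six Sylow 5-subgroups -/
structure Six {S : Type*} [Group S] (P : Sylow 5 S) (D : Subgroup S) : Prop where
  le : D ≤ P
  cardD : Nat.card D = 25
  cardN : Nat.card 𝐍[(P : Subgroup S)] = 500
  nle : 𝐍[(P : Subgroup S)] ≤ 𝐍[D]
  cardND : Nat.card 𝐍[D] = 3000
  mem : ∀ a ∈ D, a ≠ 1 → ∀ Q : Sylow 5 S, a ∈ Q → D ≤ Q
  inf : ∃ Q : Sylow 5 S, (P : Subgroup S) ⊓ Q = D
  idx : ∀ a ∈ D, a ≠ 1 → (𝐍[(P : Subgroup S)]).relIndex (Cz a) = 6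
  idxD : (𝐍[(P : Subgroup S)]).relIndex 𝐂[D] = 6

/-- the number of elements of `P` commuting with `v` (the "type" of `v`: 1, 5, 25 or 125) -/
noncomputable abbrev Fx {S : Type*} [Group S] (P : Sylow 5 S) (v : S) : ℕ :=
  Nat.card ↥((P : Subgroup S) ⊓ Cz v)

variable {S : Type*} [Group S]

theorem mem_Cz {x g : S} : g ∈ Cz x ↔ Commute g x := mem_centralizer_singleton_iff

instance fact5 : Fact (Nat.Prime 5) := ⟨by norm_num⟩

namespace Hyp
variable {P : Sylow 5 S}

theorem no_comm (h : Hyp P) {x y : S} (hxy : Commute x y) {m n : ℕ} (hx : orderOf x = m)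
    (hy : orderOf y = n) (hc : m.Coprime n) (bad : ¬ Adm (m * n)) : False := by
  apply bad
  have := h.ord (x * y)
  rwa [hxy.orderOf_mul_eq_mul_orderOf_of_coprime (by rw [hx, hy]; exact hc), hx, hy] at this

theorem no20 (h : Hyp P) {a s : S} (has : Commute a s) (ha : orderOf a = 5) (hs : orderOf s = 4) :
    False := h.no_comm has ha hs (by norm_num) (by decide)

theorem no30 (h : Hyp P) {a v r : S} (hav : Commute a v) (har : Commute a r) (hvr : Commute v r)
    (ha : orderOf a = 5) (hv : orderOf v = 2) (hr : orderOf r = 3) : False := by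
  have h6 : orderOf (v * r) = 6 := by
    rw [hvr.orderOf_mul_eq_mul_orderOf_of_coprime (by rw [hv, hr]; norm_num), hv, hr]
  exact h.no_comm (hav.mul_right har) ha h6 (by norm_num) (by decide)

theorem commute (h : Hyp P) {a b : S} (ha : a ∈ (P : Subgroup S)) (hb : b ∈ (P : Subgroup S)) :
    Commute a b := by
  have := h.comm.is_comm.comm ⟨a, ha⟩ ⟨b, hb⟩
  exact congrArg Subtype.val this

variable [Finite S]

theorem cardP (h : Hyp P) : Nat.card (P : Subgroup S) = 125 := by
  have h1 := P.card_eq_multiplicity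
  rw [h.card] at h1
  have h2 : Nat.factorization 898128000 5 = 3 := by
    rw [show (898128000 : ℕ) = 5 ^ 3 * 7185024 by norm_num,
      Nat.factorization_mul (by norm_num) (by norm_num), Finsupp.add_apply,
      Nat.factorization_eq_zero_of_not_dvd (n := 7185024) (by norm_num),
      Nat.Prime.factorization_pow (by norm_num)]
    simp
  rw [h2] at h1
  exact h1

theorem conj (h : Hyp P) (Q : Sylow 5 S) : Hyp Q := by
  refine ⟨h.card, h.simple, h.ord, ?_⟩
  obtain ⟨g, rfl⟩ := MulAction.exists_smul_eq S P Q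
  refine ⟨⟨fun a b => Subtype.ext ?_⟩⟩
  have ha : g⁻¹ * a * g ∈ (P : Subgroup S) := mem_cj.1 (coe_smul_sylow g P ▸ a.2)
  have hb : g⁻¹ * b * g ∈ (P : Subgroup S) := mem_cj.1 (coe_smul_sylow g P ▸ b.2)
  have := (h.commute ha hb).eq
  have h2 : (a : S) * b = g * ((g⁻¹ * a * g) * (g⁻¹ * b * g)) * g⁻¹ := by group
  have h3 : (b : S) * a = g * ((g⁻¹ * b * g) * (g⁻¹ * a * g)) * g⁻¹ := by group
  simp only [Subgroup.coe_mul]
  rw [h2, h3, this]

theorem ord5 (h : Hyp P) {a : S} (ha : a ∈ (P : Subgroup S)) (h1 : a ≠ 1) : orderOf a = 5 := by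
  have hd : orderOf a ∣ 125 := by
    rw [← h.cardP]; exact (P : Subgroup S).orderOf_dvd_natCard ha
  have h0 := h.ord a
  have : orderOf a ∈ Nat.divisors 125 := Nat.mem_divisors.2 ⟨hd, by norm_num⟩
  have hne : orderOf a ≠ 1 := fun e => h1 (orderOf_eq_one_iff.1 e)
  have e : Nat.divisors 125 = {1, 5, 25, 125} := by decide
  rw [e] at this
  simp only [Finset.mem_insert, Finset.mem_singleton] at this
  rcases this with e | e | e | e
  · exact absurd e hne
  · exact e
  · rw [e] at h0; exact absurd h0 (by decide)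
  · rw [e] at h0; exact absurd h0 (by decide)

theorem pow5 (h : Hyp P) {a : S} (ha : a ∈ (P : Subgroup S)) : a ^ 5 = 1 := by
  by_cases h1 : a = 1
  · simp [h1]
  · rw [← h.ord5 ha h1]; exact pow_orderOf_eq_one a

omit [Finite S] in
theorem le_Cz (h : Hyp P) {a : S} (ha : a ∈ (P : Subgroup S)) : (P : Subgroup S) ≤ Cz a :=
  fun _ hb => mem_Cz.2 (h.commute hb ha)

end Hyp

end Cfsg.Agent.MCA
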