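import Cfsg.Agent.MCA.Def

/-!
MCA/G1.  Sylow counts in centralisers of elements of order 2 or 3.
-/

set_option autoImplicit false

namespace Cfsg.Agent.MCA

open Subgroup Cfsg.Agent.PLocal.Amb

variable {S : Type*} [Group S] [Finite S] {P : Sylow 5 S}

omit [Finite S] in
theorem g1_free {Ω : Type*} [MulAction S Ω] {T : Subgroup S} {C : Set Ω}
    (hinv : ∀ t ∈ T, ∀ c ∈ C, t • c ∈ C)
    (hf : ∀ t ∈ T, ∀ c ∈ C, t • c = c → t = 1) : Nat.card T ∣ C.ncard := by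
  let _ : MulAction T C :=
    { smul := fun t c => ⟨(t : S) • c.1, hinv t t.2 c c.2⟩
      one_smul := fun c => Subtype.ext (one_smul S _)
      mul_smul := fun a b c => Subtype.ext (mul_smul (a : S) _ _) }
  rw [← Nat.card_coe_set_eq, Nat.card_congr (MulAction.selfEquivOrbitsQuotientProd (G := T) (X := C)
    fun c => (eq_bot_iff_forall _).2 fun t ht =>
      Subtype.ext (hf t t.2 c c.2 (congrArg Subtype.val ht))), Nat.card_prod]
  exact Dvd.intro_left _ rfl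

theorem g1_mod {L B : Subgroup S} (hB : IsSyl 5 B L)
    (ti : ∀ g ∈ L, B ⊓ cj(g, B) ≠ ⊥ → g ∈ 𝐍[B]) :
    ∃ k, (𝐍[B]).relIndex L = Nat.card B * k + 1 := by
  have h1 : (MulAction.orbit L ((1 : S) : S ⧸ 𝐍[B])).ncard = (𝐍[B]).relIndex L :=
    (MulAction.index_stabilizer L ((1 : S) : S ⧸ 𝐍[B])).symm.trans (by
      change (MulAction.stabilizer S ((1 : S) : S ⧸ 𝐍[B])).relIndex L = _
      rw [MulAction.stabilizer_quotient])
  have hfix : ∀ t ∈ B, t • ((1 : S) : S ⧸ 𝐍[B]) = (1 : S) := fun t ht => by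
    rw [← MulAction.mem_stabilizer_iff, MulAction.stabilizer_quotient]
    exact le_normalizer ht
  obtain ⟨k, hk⟩ := g1_free (T := B)
    (C := MulAction.orbit L ((1 : S) : S ⧸ 𝐍[B]) \ {((1 : S) : S ⧸ 𝐍[B])})
    (by
      rintro t ht c ⟨⟨x, rfl⟩, hc⟩
      refine ⟨⟨⟨t, hB.le ht⟩ * x, mul_smul t (x : S) ((1 : S) : S ⧸ 𝐍[B])⟩, fun e => hc ?_⟩
      rw [Set.mem_singleton_iff] at e ⊢
      exact smul_left_cancel t (e.trans (hfix t ht).symm))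
    (by
      rintro t ht c ⟨⟨x, rfl⟩, hc⟩ e
      by_contra ht1
      apply hc
      have e' : (((x : S)⁻¹ * t * x : S)) • ((1 : S) : S ⧸ 𝐍[B]) = (1 : S) := by
        rw [mul_smul, mul_smul, inv_smul_eq_iff]; exact e
      rw [← MulAction.mem_stabilizer_iff, MulAction.stabilizer_quotient, ← mem_cj,
        ← normalizer_cj] at e'
      have h2 : zpowers t ≤ cj((x : S), B) :=
        (hB.cj_of_mem x.2).le_of_normalizes (hB.pgrp.to_le (zpowers_le.2 ht))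
          (zpowers_le.2 (hB.le ht)) (zpowers_le.2 e')
      have h3 := ti x x.2 fun hb => ht1 (by
        have : t ∈ B ⊓ cj((x : S), B) := ⟨ht, h2 (mem_zpowers t)⟩
        rwa [hb, mem_bot] at this)
      change (x : S) • ((1 : S) : S ⧸ 𝐍[B]) = (1 : S)
      rw [← MulAction.mem_stabilizer_iff, MulAction.stabilizer_quotient]
      exact h3)
  refine ⟨k, ?_⟩
  rw [← h1, ← hk, Set.ncard_sdiff_singleton_add_one (MulAction.mem_orbit_self _)]

omit [Finite S] in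
theorem g1_card (K L : Subgroup S) : Nat.card L = Nat.card ↥(K ⊓ L) * K.relIndex L := by
  rw [← relIndex_bot_left, ← relIndex_bot_left, ← inf_relIndex_right K L,
    relIndex_mul_relIndex _ _ _ bot_le inf_le_right]

theorem g1_nd (h : Hyp P) {v : S} (hv : orderOf v = 2 ∨ orderOf v = 3) {r : ℕ}
    (hr : r = 7 ∨ r = 11) : ¬ r ∣ Nat.card (Cz v) := by
  intro hd
  have : Fact r.Prime := ⟨by rcases hr with rfl | rfl <;> norm_num⟩
  obtain ⟨x, hx⟩ := exists_prime_orderOf_dvd_card' (G := Cz v) r hd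
  have hx' : orderOf (x : S) = r := by rw [Subgroup.orderOf_coe, hx]
  have hc := mem_Cz.1 x.2
  rcases hv with hv | hv <;> rcases hr with rfl | rfl <;>
    exact h.no_comm hc hx' hv (by norm_num) (by decide)

theorem g1_num {n k c : ℕ} (hc : c = 25 ∨ c = 125) (hk : n = c * k + 1) (hd : n ∣ 898128000)
    (h7 : ¬ 7 ∣ n) (h11 : ¬ 11 ∣ n) : (n = 1 ∨ n = 576 ∨ n = 7776) ∧ (c = 125 → n = 1) := by
  have h5 : ¬ 5 ∣ n := by rcases hc with rfl | rfl <;> omega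
  have c5 : Nat.Coprime n (5 ^ 3) :=
    (((Nat.Prime.coprime_iff_not_dvd (by norm_num)).2 h5).symm).pow_right 3
  have c7 : Nat.Coprime n 7 := ((Nat.Prime.coprime_iff_not_dvd (by norm_num)).2 h7).symm
  have c11 : Nat.Coprime n 11 := ((Nat.Prime.coprime_iff_not_dvd (by norm_num)).2 h11).symm
  rw [show (898128000 : ℕ) = 2 ^ 7 * 3 ^ 6 * 5 ^ 3 * 7 * 11 by norm_num] at hd
  have hd' := c5.dvd_of_dvd_mul_right (c7.dvd_of_dvd_mul_right (c11.dvd_of_dvd_mul_right hd))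
  obtain ⟨a, b, ha, hb, rfl⟩ := (Nat.dvd_mul.1 hd')
  obtain ⟨i, hi, rfl⟩ := (Nat.dvd_prime_pow (by norm_num)).1 ha
  obtain ⟨j, hj, rfl⟩ := (Nat.dvd_prime_pow (by norm_num)).1 hb
  clear hd hd' c5 c7 c11 h5 h7 h11 ha hb
  rcases hc with rfl | rfl <;> interval_cases i <;> interval_cases j <;> omega

/-- n = relIndex = number of `Cz v`-conjugates of B; B acts freely by conjugation on those ≠ B (g ∈ B normalising B' = cj(x,B) lies in B' since B' is Sylow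
in `Cz v`; B ⊓ B' = ⊥ by `ti`), so n ≡ 1 mod |B| (`J3O.l17b_free`, `Perm/SylZass.relIndex_normalizer_modEq`, or Sylows of ↥(Cz v)).
n ∣ |Cz v|, 5 ∤ n, and 7, 11 ∤ |Cz v| (orders 14, 22, 21, 33; `no_comm`), so n = 2^a 3^b, a ≤ 7, b ≤ 6: interval_cases. -/
theorem g1 (h : Hyp P) {v : S} (hv : orderOf v = 2 ∨ orderOf v = 3) {B : Subgroup S}
    (hB : IsSyl 5 B (Cz v)) (ti : ∀ g ∈ Cz v, B ⊓ cj(g, B) ≠ ⊥ → g ∈ 𝐍[B]) :
    (Nat.card B = 125 → Cz v ≤ 𝐍[B]) ∧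
    (Nat.card B = 25 → (𝐍[B]).relIndex (Cz v) = 1 ∨ (𝐍[B]).relIndex (Cz v) = 576 ∨
      (𝐍[B]).relIndex (Cz v) = 7776) := by
  obtain ⟨k, hk⟩ := g1_mod hB ti
  have hd : (𝐍[B]).relIndex (Cz v) ∣ Nat.card (Cz v) := Dvd.intro_left _ (g1_card _ _).symm
  have hS : (𝐍[B]).relIndex (Cz v) ∣ 898128000 :=
    hd.trans (h.card ▸ card_subgroup_dvd_card _)
  have h7 : ¬ 7 ∣ (𝐍[B]).relIndex (Cz v) := fun e => g1_nd h hv (Or.inl rfl) (e.trans hd)
  have h11 : ¬ 11 ∣ (𝐍[B]).relIndex (Cz v) := fun e => g1_nd h hv (Or.inr rfl) (e.trans hd)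
  exact ⟨fun e => relIndex_eq_one.1 ((g1_num (Or.inr e) hk hS h7 h11).2 e),
    fun e => (g1_num (Or.inl e) hk hS h7 h11).1⟩

/-- n · |𝐍[B] ⊓ Cz v| = |Cz v| ∣ |S|, whose 2-part is 2^7; 576 = 2^6 9, 7776 = 2^5 243. -/
theorem g1b (h : Hyp P) {v : S} (hv : orderOf v = 2 ∨ orderOf v = 3) {B : Subgroup S}
    (hB : IsSyl 5 B (Cz v)) (ti : ∀ g ∈ Cz v, B ⊓ cj(g, B) ≠ ⊥ → g ∈ 𝐍[B])
    (h25 : Nat.card B = 25) (h8 : 8 ∣ Nat.card ↥(𝐍[B] ⊓ Cz v)) : Cz v ≤ 𝐍[B] := by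
  have hS : Nat.card ↥(𝐍[B] ⊓ Cz v) * (𝐍[B]).relIndex (Cz v) ∣ 898128000 := by
    rw [← g1_card, ← h.card]; exact card_subgroup_dvd_card _
  have h9 := (Nat.mul_dvd_mul_right h8 _).trans hS
  rcases (g1 h hv hB ti).2 h25 with e | e | e
  · exact relIndex_eq_one.1 e
  · rw [e] at h9; exact absurd h9 (by norm_num)
  · rw [e] at h9; exact absurd h9 (by norm_num)

/-- as `g1b`. -/
theorem g1c (h : Hyp P) {v : S} (hv : orderOf v = 2 ∨ orderOf v = 3) {B : Subgroup S}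
    (hB : IsSyl 5 B (Cz v)) (ti : ∀ g ∈ Cz v, B ⊓ cj(g, B) ≠ ⊥ → g ∈ 𝐍[B])
    (h25 : Nat.card B = 25) (h4 : 4 ∣ Nat.card ↥(𝐍[B] ⊓ Cz v)) :
    Cz v ≤ 𝐍[B] ∨ (𝐍[B]).relIndex (Cz v) = 7776 := by
  have hS : Nat.card ↥(𝐍[B] ⊓ Cz v) * (𝐍[B]).relIndex (Cz v) ∣ 898128000 := by
    rw [← g1_card, ← h.card]; exact card_subgroup_dvd_card _
  have h9 := (Nat.mul_dvd_mul_right h4 _).trans hS
  rcases (g1 h hv hB ti).2 h25 with e | e | e
  · exact Or.inl (relIndex_eq_one.1 e)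
  · rw [e] at h9; exact absurd h9 (by norm_num)
  · exact Or.inr e

end Cfsg.Agent.MCA
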