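import Cfsg.Agent.MCA.Def

/-!
MCA/K0.  Closure properties of `KK`.
-/

set_option autoImplicit false
set_option linter.unusedSectionVars false

namespace Cfsg.Agent.MCA

open Subgroup Cfsg.Agent.PLocal.Amb

variable {H : Type*} [Group H] [Finite H]

omit [Finite H] in
theorem k0_comm (h : ∀ Q : Sylow 5 H, IsMulCommutative (Q : Subgroup H)) (A : Subgroup H)
    (Q : Sylow 5 A) : IsMulCommutative (Q : Subgroup A) := by
  obtain ⟨R, hR⟩ := (Q.isPGroup'.map A.subtype).exists_le_sylow
  refine ⟨⟨fun a b => Subtype.ext (Subtype.ext ?_)⟩⟩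
  exact congrArg (fun z : (R : Subgroup H) => (z : H))
    ((h R).is_comm.comm ⟨a.1.1, hR ⟨a.1, a.2, rfl⟩⟩ ⟨b.1.1, hR ⟨b.1, b.2, rfl⟩⟩)

theorem k0_adm {n : ℕ} (h : Adm n) (h5 : 5 ∣ n) : n ∣ 10 ∨ n ∣ 15 := by
  rcases h with h | h | h | h | h | h | h
  all_goals first | exact .inl h | exact .inr h | exact absurd (h5.trans h) (by norm_num)

omit [Finite H] in
theorem KK.ord30 (h : KK H) (x : H) : orderOf x ∣ 30 := by
  rcases h.pow x with e | e <;> exact (orderOf_dvd_of_pow_eq_one e).trans (by norm_num)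

/-- subgroups -/
theorem KK.sub (h : KK H) (A : Subgroup H) : KK A := by
  exact ⟨(card_subgroup_dvd_card A).trans h.card,
    fun g => (h.pow g).imp (fun e => Subtype.ext e) fun e => Subtype.ext e, k0_comm h.comm A⟩

/-- quotients -/
theorem KK.surj {K : Type*} [Group K] (h : KK H) (f : H →* K) (hf : Function.Surjective f) :
    KK K := by
  refine ⟨(card_dvd_of_surjective f hf).trans h.card, fun g => ?_, fun Q => ?_⟩
  · obtain ⟨x, rfl⟩ := hf g
    exact (h.pow x).imp (fun e => by rw [← map_pow, e, map_one]) fun e => by rw [← map_pow, e, map_one]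
  · obtain ⟨P, rfl⟩ := Sylow.mapSurjective_surjective hf 5 Q
    refine ⟨⟨?_⟩⟩
    rintro ⟨_, a, ha, rfl⟩ ⟨_, b, hb, rfl⟩
    refine Subtype.ext ?_
    change f a * f b = f b * f a
    rw [← map_mul, ← map_mul]
    exact congrArg (fun z : (P : Subgroup H) => f z) ((h.comm P).is_comm.comm ⟨a, ha⟩ ⟨b, hb⟩)

/-- no element of order 6 -/
theorem KK.no6 (h : KK H) {x y : H} (hxy : Commute x y) (hx : orderOf x = 2) (hy : orderOf y = 3) :
    False := by
  have h6 : orderOf (x * y) = 6 := by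
    rw [hxy.orderOf_mul_eq_mul_orderOf_of_coprime (by rw [hx, hy]; norm_num), hx, hy]
  rcases h.pow (x * y) with e | e <;>
    exact absurd (h6 ▸ orderOf_dvd_of_pow_eq_one e) (by norm_num)

/-- 2-elements are involutions -/
theorem KK.sq (h : KK H) {x : H} {k : ℕ} (hx : x ^ 2 ^ k = 1) : x ^ 2 = 1 := by
  refine orderOf_dvd_iff_pow_eq_one.1 (Nat.Coprime.dvd_of_dvd_mul_right (k := orderOf x) (n := 15)
    (Nat.Coprime.coprime_dvd_left (orderOf_dvd_of_pow_eq_one hx) (Nat.Coprime.pow_left k (by norm_num)))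
    (h.ord30 x))

/-- 3-elements have order 3 -/
theorem KK.cube (h : KK H) {x : H} {k : ℕ} (hx : x ^ 3 ^ k = 1) : x ^ 3 = 1 := by
  refine orderOf_dvd_iff_pow_eq_one.1 (Nat.Coprime.dvd_of_dvd_mul_right (k := orderOf x) (n := 10)
    (Nat.Coprime.coprime_dvd_left (orderOf_dvd_of_pow_eq_one hx) (Nat.Coprime.pow_left k (by norm_num)))
    (h.ord30 x))

/-- centralisers of elements of order 5 -/
theorem Hyp.kk {S : Type*} [Group S] [Finite S] {P : Sylow 5 S} (h : Hyp P) {a : S}
    (ha : orderOf a = 5) : KK (Cz a) := by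
  have np : ∀ r : ℕ, r.Prime → r.Coprime 5 → ¬ Adm (r * 5) → (Nat.card (Cz a)).Coprime r :=
    fun r hr c bad => ((Nat.Prime.coprime_iff_not_dvd hr).2 fun d => by
      have := Fact.mk hr
      obtain ⟨g, hg⟩ := exists_prime_orderOf_dvd_card' r d
      exact h.no_comm (mem_Cz.1 g.2) ((orderOf_coe g).trans hg) ha c bad).symm
  refine ⟨?_, fun g => ?_, k0_comm (fun Q => (h.conj Q).comm) _⟩
  · refine ((np 7 (by norm_num) (by norm_num) (by decide)).mul_right
      (np 11 (by norm_num) (by norm_num) (by decide))).dvd_of_dvd_mul_right ?_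
    have := card_subgroup_dvd_card (Cz a)
    rwa [h.card] at this
  · rw [← orderOf_dvd_iff_pow_eq_one, ← orderOf_dvd_iff_pow_eq_one, ← orderOf_coe g]
    by_cases c : 5 ∣ orderOf (g : S)
    · exact k0_adm (h.ord _) c
    · have c' : (orderOf (g : S)).Coprime (orderOf a) := by
        rw [ha]
        exact ((Nat.Prime.coprime_iff_not_dvd (by norm_num)).2 c).symm
      have := h.ord (g * a)
      rw [(mem_Cz.1 g.2).orderOf_mul_eq_mul_orderOf_of_coprime c', ha] at this
      exact (k0_adm this (dvd_mul_left _ _)).imp (dvd_trans (dvd_mul_right _ _))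
        (dvd_trans (dvd_mul_right _ _))

end Cfsg.Agent.MCA
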