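import Cfsg.Agent.MCA.K0
import Cfsg.Agent.Char.Burnside
import Cfsg.Agent.Grp.Fitting
import Cfsg.Agent.Solv.Coprime3

/-!
MCA/K2a.  Groups all of whose elements have order 1, 2 or 3.
-/

set_option autoImplicit false

namespace Cfsg.Agent.MCA

open Subgroup Cfsg.Agent.PLocal.Amb

variable {H : Type*} [Group H] [Finite H]

omit [Finite H] in
theorem k2a_no6 (h : ∀ g : H, g ^ 2 = 1 ∨ g ^ 3 = 1) {x y : H} (hx : x ^ 2 = 1) (hy : y ^ 3 = 1)
    (c : Commute x y) : x = 1 ∨ y = 1 := by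
  rcases h (x * y) with e | e
  · right
    rw [c.mul_pow, hx, one_mul] at e
    rw [pow_succ, e, one_mul] at hy
    exact hy
  · left
    rw [c.mul_pow, hy, mul_one, pow_succ, hx, one_mul] at e
    exact e

omit [Finite H] in
theorem k2a_two (h : ∀ g : H, g ^ 2 = 1 ∨ g ^ 3 = 1) {x : H} {k : ℕ} (hx : x ^ 2 ^ k = 1) : x ^ 2 = 1 := by
  rcases h x with e | e
  · exact e
  · have : x = 1 := by
      have := (pow_gcd_eq_one (a := x)).2 ⟨hx, e⟩
      rwa [Nat.Coprime.gcd_eq_one (Nat.Coprime.pow_left k (by norm_num)), pow_one] at this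
    rw [this, one_pow]

omit [Finite H] in
theorem k2a_three (h : ∀ g : H, g ^ 2 = 1 ∨ g ^ 3 = 1) {x : H} {k : ℕ} (hx : x ^ 3 ^ k = 1) : x ^ 3 = 1 := by
  rcases h x with e | e
  · have : x = 1 := by
      have := (pow_gcd_eq_one (a := x)).2 ⟨hx, e⟩
      rwa [Nat.Coprime.gcd_eq_one (Nat.Coprime.pow_left k (by norm_num)), pow_one] at this
    rw [this, one_pow]
  · exact e

theorem k2a_prime (h : ∀ g : H, g ^ 2 = 1 ∨ g ^ 3 = 1) {p : ℕ} (hp : p.Prime) (hd : p ∣ Nat.card H) :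
    p = 2 ∨ p = 3 := by
  haveI := Fact.mk hp
  obtain ⟨g, hg⟩ := exists_prime_orderOf_dvd_card' p hd
  rcases h g with e | e
  · exact Or.inl ((Nat.prime_dvd_prime_iff_eq hp Nat.prime_two).1 (hg ▸ orderOf_dvd_of_pow_eq_one e))
  · exact Or.inr ((Nat.prime_dvd_prime_iff_eq hp Nat.prime_three).1 (hg ▸ orderOf_dvd_of_pow_eq_one e))

theorem k2a_index (h : ∀ g : H, g ^ 2 = 1 ∨ g ^ 3 = 1) {r s : ℕ} [Fact r.Prime]
    (hrs : (r = 2 ∧ s = 3) ∨ (r = 3 ∧ s = 2)) (S : Sylow r H) : ∃ b, (S : Subgroup H).index = s ^ b := by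
  refine ⟨_, Nat.eq_prime_pow_of_unique_prime_dvd Subgroup.index_ne_zero_of_finite fun {d} hd hdd => ?_⟩
  have h1 := k2a_prime h hd (hdd.trans (Subgroup.index_dvd_card _))
  have h2 : d ≠ r := fun e => S.not_dvd_index (e ▸ hdd)
  omega

theorem k2a_sq (h : ∀ g : H, g ^ 2 = 1 ∨ g ^ 3 = 1) {r s : ℕ} [Fact r.Prime] [Fact s.Prime]
    (hrs : (r = 2 ∧ s = 3) ∨ (r = 3 ∧ s = 2)) (hR : pCore r H ≠ ⊥) : ¬ s ^ 2 ∣ Nat.card H := by
  intro hd
  obtain ⟨A, hA⟩ := Sylow.exists_subgroup_card_pow_prime s hd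
  haveI : IsMulCommutative A := IsPGroup.isMulCommutative_of_card_eq_prime_sq hA
  have hAs : ∀ a ∈ A, a ^ s ^ 2 = 1 := fun a ha => by
    have := pow_card_eq_one' (x := (⟨a, ha⟩ : A))
    rw [hA] at this
    exact congrArg Subtype.val this
  have hnc : ¬ IsCyclic A := fun hc => by
    obtain ⟨g, hg⟩ := IsCyclic.exists_ofOrder_eq_natCard (α := A)
    rw [hA, ← Subgroup.orderOf_coe] at hg
    rcases h g with e | e
    · have := Nat.le_of_dvd (by norm_num) (hg ▸ orderOf_dvd_of_pow_eq_one e)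
      rcases hrs with ⟨_, rfl⟩ | ⟨_, rfl⟩ <;> omega
    · have := Nat.le_of_dvd (by norm_num) (hg ▸ orderOf_dvd_of_pow_eq_one e)
      rcases hrs with ⟨_, rfl⟩ | ⟨_, rfl⟩ <;> omega
  obtain ⟨n, hn⟩ := IsPGroup.iff_card.1 (Grp.pCore_isPGroup r H)
  apply hR
  rw [eq_bot_iff]
  refine Solv.le_of_centralizers_le A _ hnc ?_ ?_ ⊥ fun a ha ha1 x hx => ?_
  · rw [normalizer_eq_top]; exact le_top
  · rw [hA, hn]
    refine Nat.Coprime.pow _ _ ?_
    rcases hrs with ⟨rfl, rfl⟩ | ⟨rfl, rfl⟩ <;> norm_num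
  · obtain ⟨k, hk⟩ := Grp.pCore_isPGroup r H ⟨x, hx.1⟩
    have hk' : x ^ r ^ k = 1 := congrArg Subtype.val hk
    have c : Commute a x := mem_centralizer_iff.1 hx.2 a rfl
    rw [mem_bot]
    rcases hrs with ⟨rfl, rfl⟩ | ⟨rfl, rfl⟩
    · exact (k2a_no6 h (k2a_two h hk') (k2a_three h (hAs a ha)) c.symm).resolve_right ha1
    · exact (k2a_no6 h (k2a_two h (hAs a ha)) (k2a_three h hk') c).resolve_left ha1

theorem k2a_le (h : ∀ g : H, g ^ 2 = 1 ∨ g ^ 3 = 1) {r s : ℕ} [Fact r.Prime] [Fact s.Prime]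
    (hrs : (r = 2 ∧ s = 3) ∨ (r = 3 ∧ s = 2)) (hR : pCore r H ≠ ⊥) (S : Sylow r H) :
    (S : Subgroup H).index = 1 ∨ (S : Subgroup H).index = s := by
  obtain ⟨b, hb⟩ := k2a_index h hrs S
  have h1 := k2a_sq h hrs hR
  have h2 : b < 2 := by
    by_contra h3
    exact h1 ((pow_dvd_pow s (by omega)).trans (hb ▸ Subgroup.index_dvd_card _))
  interval_cases b
  · left; simpa using hb
  · right; simpa using hb

/-- `H` is a {2,3}-group (Cauchy), solvable (`Char/Burnside.isSolvable_of_card_dvd_pow_mul_pow`).  Trivial: R = ⊤.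
Otherwise `R = pCore r H ≠ ⊥` for r = 2 or 3 (a minimal normal subgroup is a p-group); s the other prime.
No commuting elements of orders 2 and 3.  So `C(R)` is a normal r-subgroup, `C(R) ≤ R`.  A Sylow s-subgroup T has order ≤ s:
otherwise it has a subgroup A of order s², abelian of exponent s, noncyclic, and some `a ≠ 1` in A centralises some `x ≠ 1` in R
(coprime action of a noncyclic abelian group; grep `noncyclic`/`iSup_centralizer`/`not_isCyclic` in the library) -- order 6.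
r = 2: a Sylow 2-subgroup has exponent 2, is abelian, contains R, so lies in C(R) ≤ R; index = |T| ≤ 3.
r = 3: Sylow 2 of order ≤ 2 is cyclic, normal 2-complement (`IsCyclic.isComplement'`) is a normal 3-subgroup ≤ R; index ≤ 2. -/
theorem k2a (h : ∀ g : H, g ^ 2 = 1 ∨ g ^ 3 = 1) :
    ∃ r : ℕ, (r = 2 ∨ r = 3) ∧ ∃ R : Subgroup H, R.Characteristic ∧ IsPGroup r R ∧ R.index ≤ 3 := by
  haveI := Fact.mk Nat.prime_two
  haveI := Fact.mk Nat.prime_three
  rcases subsingleton_or_nontrivial H with hs | hs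
  · refine ⟨2, Or.inl rfl, ⊥, inferInstance, IsPGroup.of_bot, ?_⟩
    rw [index_bot, Nat.card_of_subsingleton (1 : H)]
    norm_num
  obtain ⟨S⟩ : Nonempty (Sylow 2 H) := inferInstance
  obtain ⟨T⟩ : Nonempty (Sylow 3 H) := inferInstance
  haveI : Group.IsSolvable H := by
    obtain ⟨b, hb⟩ := k2a_index h (Or.inl ⟨rfl, rfl⟩) S
    obtain ⟨a, ha⟩ := IsPGroup.iff_card.1 S.isPGroup'
    refine Char.isSolvable_of_card_dvd_pow_mul_pow (a := a) (b := b) Nat.prime_two Nat.prime_three H ?_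
    rw [← ha, ← hb, Subgroup.card_mul_index]
  obtain ⟨r, hr, hR⟩ := Grp.exists_pCore_ne_bot H
  have hr' : r = 2 ∨ r = 3 := by
    haveI := Fact.mk hr
    refine k2a_prime h hr (dvd_trans ?_ (Subgroup.card_subgroup_dvd_card (pCore r H)))
    obtain ⟨n, hn⟩ := IsPGroup.iff_card.1 (Grp.pCore_isPGroup r H)
    rw [hn]
    refine dvd_pow_self r fun e => hR ?_
    rw [e, pow_zero] at hn
    exact Subgroup.card_eq_one.1 hn
  refine ⟨r, hr', pCore r H, inferInstance, Grp.pCore_isPGroup r H, ?_⟩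
  rcases hr' with rfl | rfl
  · have hi := k2a_le h (Or.inl ⟨rfl, rfl⟩) hR S
    obtain ⟨x, hx, hx1⟩ := (pCore 2 H).bot_or_exists_ne_one.resolve_left hR
    have sq : ∀ {Q : Subgroup H}, IsPGroup 2 Q → ∀ y ∈ Q, y ^ 2 = 1 := fun hQ y hy => by
      obtain ⟨k, hk⟩ := hQ ⟨y, hy⟩
      exact k2a_two h (k := k) (congrArg Subtype.val hk)
    have hC : centralizer (pCore 2 H : Set H) ≤ pCore 2 H := by
      refine Grp.le_pCore inferInstance fun c => ⟨1, Subtype.ext ?_⟩
      show (c : H) ^ 2 ^ 1 = 1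
      rw [pow_one]
      rcases h c with e | e
      · exact e
      · have c1 : Commute x c := mem_centralizer_iff.1 c.2 x hx
        rw [(k2a_no6 h (sq (Grp.pCore_isPGroup 2 H) x hx) e c1).resolve_left hx1, one_pow]
    have hRS : pCore 2 H ≤ S := (Grp.pCore_isPGroup 2 H).le_sylow_of_normal S
    have hS : (S : Subgroup H) ≤ pCore 2 H := by
      refine le_trans (fun y hy => mem_centralizer_iff.2 fun z hz => ?_) hC
      have e1 := sq S.isPGroup' y hy
      have e2 := sq S.isPGroup' z (hRS hz)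
      have e3 := sq S.isPGroup' (z * y) (mul_mem (hRS hz) hy)
      rw [pow_two] at e1 e2 e3
      calc z * y = (z * y)⁻¹ := (inv_eq_of_mul_eq_one_right e3).symm
        _ = y * z := by rw [mul_inv_rev, inv_eq_of_mul_eq_one_right e1, inv_eq_of_mul_eq_one_right e2]
    have := Nat.le_of_dvd (by omega) (index_dvd_of_le hS)
    omega
  · have hi := k2a_le h (Or.inr ⟨rfl, rfl⟩) hR T
    have hn : (T : Subgroup H).Normal := by
      rcases hi with e | e
      · rw [index_eq_one.1 e]; infer_instance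
      · exact normal_of_index_eq_two e
    have := Nat.le_of_dvd (by omega) (index_dvd_of_le (Grp.le_pCore hn T.isPGroup'))
    omega

end Cfsg.Agent.MCA
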