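import Cfsg.Agent.MCA.K2a
import Cfsg.Agent.Grp.Fitting

/-!
MCA/K2b.  Solvable groups in `KK`.
-/

set_option autoImplicit false

namespace Cfsg.Agent.MCA

open Subgroup Cfsg.Agent.PLocal.Amb

variable {H : Type*} [Group H] [Finite H]

/-- `O = O_{5'}(H)`.  In `H/O` (solvable, `O_{5'} = 1`) `C(O_5) ≤ O_5` (Hall-Higman / Fitting self-centralising; grep `pPrimeCore`,
`centralizer_pCore_le`), the abelian Sylow 5-subgroup centralises `O_5`, so equals it: `L = P ⊔ O` is normal and contains every Sylow Q.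
Elements of O have order prime to 5, so g² = 1 or g³ = 1; `k2a` gives R₀ char in O, `R = R₀.map subtype` normal in H, `|O : R| ≤ 3`.
`P ⊔ R` has index ≤ 3 in L, so its normal core in L has index dividing 3! = 6 and contains every 5-element of L. -/
theorem k2b (h : KK H) (hs : IsSolvable H) :
    ∃ r : ℕ, (r = 2 ∨ r = 3) ∧ ∃ R : Subgroup H, R.Normal ∧ IsPGroup r R ∧
      ∀ P Q : Sylow 5 H, (Q : Subgroup H) ≤ (P : Subgroup H) ⊔ R := by
  classical
  have hs' : Group.IsSolvable H := hs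
  have hO : ∀ g : pPrimeCore 5 H, g ^ 2 = 1 ∨ g ^ 3 = 1 := by
    intro g
    have hc := Grp.orderOf_coprime_of_mem_pPrimeCore g.2
    rcases h.pow g with e | e
    · refine Or.inl (Subtype.ext (orderOf_dvd_iff_pow_eq_one.1 ?_))
      exact hc.dvd_of_dvd_mul_right (orderOf_dvd_iff_pow_eq_one.2 e)
    · refine Or.inr (Subtype.ext (orderOf_dvd_iff_pow_eq_one.1 ?_))
      exact hc.dvd_of_dvd_mul_right (orderOf_dvd_iff_pow_eq_one.2 e)
  obtain ⟨r, hr, R, hR1, hR2, hR3⟩ := k2a hO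
  refine ⟨r, hr, R.map (pPrimeCore 5 H).subtype, inferInstance, hR2.map _, fun P Q q hq => ?_⟩
  have hf := QuotientGroup.mk'_surjective (pPrimeCore 5 H)
  have key : ∀ T : Sylow 5 H, (T : Subgroup H).map (QuotientGroup.mk' (pPrimeCore 5 H)) =
      pCore 5 (H ⧸ pPrimeCore 5 H) := by
    intro T
    have h1 := Grp.pCore_le_sylow (T.mapSurjective hf)
    have h2 := (h.surj _ hf).comm (T.mapSurjective hf)
    refine le_antisymm (fun a ha => Grp.centralizer_pCore_le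
      (Grp.pPrimeCore_quotient_pPrimeCore 5 H) (mem_centralizer_iff.2 fun b hb => ?_)) h1
    exact congrArg Subtype.val (h2.is_comm.comm ⟨b, h1 hb⟩ ⟨a, ha⟩)
  have h1 : ∀ i : ℕ, ∃ p ∈ (P : Subgroup H), q ^ i * p⁻¹ ∈ pPrimeCore 5 H := by
    intro i
    have : QuotientGroup.mk' (pPrimeCore 5 H) (q ^ i) ∈
        (P : Subgroup H).map (QuotientGroup.mk' (pPrimeCore 5 H)) := by
      rw [key P, ← key Q]
      exact mem_map_of_mem _ (pow_mem hq i)
    obtain ⟨p, hp, e⟩ := this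
    refine ⟨p, hp, (QuotientGroup.eq_one_iff _).1 ?_⟩
    change QuotientGroup.mk' (pPrimeCore 5 H) (q ^ i * p⁻¹) = 1
    rw [map_mul, map_inv, e, mul_inv_cancel]
  choose p hp1 hp2 using h1
  have := Fintype.ofFinite (pPrimeCore 5 H ⧸ R)
  obtain ⟨i, j, hij, e⟩ := Fintype.exists_ne_map_eq_of_card_lt
    (fun i : Fin 4 => (QuotientGroup.mk ⟨_, hp2 i⟩ : pPrimeCore 5 H ⧸ R)) (by
      rw [← Nat.card_eq_fintype_card, Fintype.card_fin]
      exact Nat.lt_succ_of_le hR3)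
  have h2 : (q ^ (i : ℕ) * (p i)⁻¹)⁻¹ * (q ^ (j : ℕ) * (p j)⁻¹) ∈ R.map (pPrimeCore 5 H).subtype :=
    mem_map_of_mem _ (QuotientGroup.eq.1 e)
  have h3 : q ^ (((j : ℕ) : ℤ) - (i : ℕ)) ∈ (P : Subgroup H) ⊔ R.map (pPrimeCore 5 H).subtype := by
    have := mul_mem (mul_mem (mem_sup_left (inv_mem (hp1 i))) (mem_sup_right h2)) (mem_sup_left (hp1 j))
    convert this using 1
    group
  have h4 : ∀ i j : Fin 4, i ≠ j → (((j : ℕ) : ℤ) - (i : ℕ)) ∣ 6 := by decide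
  obtain ⟨k, hk⟩ := h4 i j hij
  have h5 := zpow_mem h3 k
  rw [← zpow_mul, ← hk] at h5
  have h6 : q ^ 5 = 1 := by
    obtain ⟨n, hn⟩ := Q.isPGroup' ⟨q, hq⟩
    have hn' : orderOf q ∣ 5 ^ n := orderOf_dvd_iff_pow_eq_one.2 (congrArg Subtype.val hn)
    rw [← orderOf_dvd_iff_pow_eq_one]
    rcases h.pow q with e | e
    · exact (Nat.Coprime.coprime_dvd_left hn' (Nat.Coprime.pow_left n (by norm_num : Nat.Coprime 5 2))).dvd_of_dvd_mul_right
        (orderOf_dvd_iff_pow_eq_one.2 e)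
    · exact (Nat.Coprime.coprime_dvd_left hn' (Nat.Coprime.pow_left n (by norm_num : Nat.Coprime 5 3))).dvd_of_dvd_mul_right
        (orderOf_dvd_iff_pow_eq_one.2 e)
  rwa [show (6 : ℤ) = ((5 + 1 : ℕ) : ℤ) by norm_num, zpow_natCast, pow_succ, h6, one_mul] at h5

end Cfsg.Agent.MCA
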