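import Cfsg.Agent.MCA.K0
import Cfsg.Agent.MCA.Br

/-!
MCA/K2c.  From the normal r-subgroup to `KC`.
-/

set_option autoImplicit false

namespace Cfsg.Agent.MCA

open Subgroup Cfsg.Agent.PLocal.Amb

variable {H : Type*} [Group H] [Finite H]

theorem k2c_pow (h : KK H) {r : ℕ} (hr : r.Prime) (R : Subgroup H) [R.Normal] (hR : IsPGroup r R)
    (hQ : ∀ P Q : Sylow 5 H, (Q : Subgroup H) ≤ (P : Subgroup H) ⊔ R) (P : Sylow 5 H)
    {L : Subgroup H} (hL : (P : Subgroup H) ≤ L) :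
    ∃ c, Nat.card {Q : Sylow 5 H // (Q : Subgroup H) ≤ L} = r ^ c ∧ r ^ c % 5 = 1 ∧
      r ^ c ∣ 2 ^ 7 * 3 ^ 6 * 5 ^ 3 := by
  have := Fact.mk hr
  have hL' : (P : Subgroup H) ≤ L ⊓ ((P : Subgroup H) ⊔ R) := le_inf hL le_sup_left
  have e : Nat.card {Q : Sylow 5 H // (Q : Subgroup H) ≤ L} =
      Nat.card (Sylow 5 ↥(L ⊓ ((P : Subgroup H) ⊔ R))) := by
    rw [card_sylow_eq_card_le P hL']
    exact Nat.card_congr (Equiv.subtypeEquivRight fun Q =>
      ⟨fun a => le_inf a (hQ P Q), fun a => a.trans inf_le_left⟩)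
  have d1 := (Sylow.card_dvd_index (P.subtype hL')).trans (Subgroup.index_dvd_card _)
  have m5 : Nat.card (Sylow 5 ↥(L ⊓ ((P : Subgroup H) ⊔ R))) % 5 = 1 := card_sylow_modEq_one 5 _
  rw [← e] at d1 m5
  obtain ⟨a, ha⟩ := P.isPGroup'.exists_card_eq
  obtain ⟨b, hb⟩ := hR.exists_card_eq
  have d2 : Nat.card ↥((P : Subgroup H) ⊔ R) ∣ 5 ^ a * r ^ b := by
    rw [← (R.subgroupOf ((P : Subgroup H) ⊔ R)).index_mul_card,
      Nat.card_congr (subgroupOfEquivOfLe le_sup_right).toEquiv, hb, ← ha]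
    refine Nat.mul_dvd_mul_right ?_ _
    have := relIndex_sup_right (P : Subgroup H) R
    rw [relIndex] at this
    rw [this]
    exact relIndex_dvd_card _ _
  have d3 := (d1.trans (card_dvd_of_le inf_le_right)).trans d2
  have c5 : (Nat.card {Q : Sylow 5 H // (Q : Subgroup H) ≤ L}).Coprime (5 ^ a) :=
    Nat.Coprime.pow_right _ (Nat.Coprime.symm ((Nat.Prime.coprime_iff_not_dvd (by norm_num)).2
      (by omega)))
  obtain ⟨c, -, hc⟩ := (Nat.dvd_prime_pow hr).1 (c5.dvd_of_dvd_mul_left d3)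
  exact ⟨c, hc, hc ▸ m5, hc ▸ (d1.trans (card_subgroup_dvd_card _)).trans h.card⟩

theorem k2c_num {r c : ℕ} (hr : r = 2 ∨ r = 3) (h1 : r ^ c % 5 = 1)
    (h2 : r ^ c ∣ 2 ^ 7 * 3 ^ 6 * 5 ^ 3) : r ^ c = 1 ∨ r ^ c = r ^ 4 := by
  have : c < 8 := by
    by_contra n
    have := (pow_dvd_pow r (not_lt.1 n)).trans h2
    rcases hr with rfl | rfl <;> norm_num at this
  rcases hr with rfl | rfl <;> interval_cases c <;> simp_all

/-- For `L ≥ P`, `m(L) = (𝐍[P]).relIndex L` (= number of Sylow 5-subgroups inside L, `Br`) is a power of r: all Sylows inside L lie in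
`L ⊓ (P ⊔ R) = P ⊔ (L ⊓ R) =: L'` so m(L) = m(L'), which divides `|L' : P|`, a power of r.  m ≡ 1 mod 5 and m ∣ |H|, so
m ∈ {1,16} (r = 2), {1,81} (r = 3).  n = m(⊤).  n = 1: D = P.  Otherwise `exists_inf_index5` gives Q ≠ P, D = P ⊓ Q, L = 𝐂[D] ≥ P, Q
(abelian), m(L) ≠ 1 so m(L) = n, every Sylow Q' lies in 𝐂[D], so D normalises Q' and D ≤ Q' (`IsSyl.le_of_normalizes`). -/
theorem k2c (h : KK H) {r : ℕ} (hr : r = 2 ∨ r = 3) (R : Subgroup H) [R.Normal] (hR : IsPGroup r R)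
    (hQ : ∀ P Q : Sylow 5 H, (Q : Subgroup H) ≤ (P : Subgroup H) ⊔ R) : KC H := by
  have key : ∀ (P : Sylow 5 H) (L : Subgroup H), (P : Subgroup H) ≤ L →
      Nat.card {Q : Sylow 5 H // (Q : Subgroup H) ≤ L} = 1 ∨
        Nat.card {Q : Sylow 5 H // (Q : Subgroup H) ≤ L} = r ^ 4 := fun P L hL => by
    obtain ⟨c, e, h1, h2⟩ := k2c_pow h (by rcases hr with rfl | rfl <;> norm_num) R hR hQ P hL
    rw [e]
    exact k2c_num hr h1 h2
  obtain ⟨P⟩ : Nonempty (Sylow 5 H) := inferInstance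
  have hc : ∀ Q : Sylow 5 H, Nat.card (Q : Subgroup H) = Nat.card (P : Subgroup H) := fun Q => by
    rw [Q.card_eq_multiplicity, P.card_eq_multiplicity]
  have n := key P ⊤ le_top
  rw [Nat.card_congr (Equiv.subtypeUnivEquiv fun _ => le_top)] at n
  rcases n with n | n
  · refine ⟨Or.inl n, P, fun Q => ?_⟩
    have := (Nat.card_eq_one_iff_unique.1 n).1
    obtain rfl : Q = P := Subsingleton.elim _ _
    exact ⟨le_rfl, Nat.le_mul_of_pos_left _ (by norm_num)⟩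
  refine ⟨by rcases hr with rfl | rfl <;> simp [n], ?_⟩
  obtain ⟨Q, hne, hi⟩ := exists_inf_index5 P (by rcases hr with rfl | rfl <;> simp [n])
  have cm : ∀ T : Sylow 5 H, (P : Subgroup H) ⊓ Q ≤ T →
      (T : Subgroup H) ≤ 𝐂[(P : Subgroup H) ⊓ Q] := fun T hT g hg =>
    mem_centralizer_iff.2 fun d hd =>
      congrArg Subtype.val ((h.comm T).is_comm.comm ⟨d, hT hd⟩ ⟨g, hg⟩)
  have all : ∀ T : Sylow 5 H, (T : Subgroup H) ≤ 𝐂[(P : Subgroup H) ⊓ Q] := by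
    rcases key P _ (cm P inf_le_left) with e | e
    · have := (Nat.card_eq_one_iff_unique.1 e).1
      exact absurd (congrArg Subtype.val (Subsingleton.elim
        (⟨Q, cm Q inf_le_right⟩ : {T : Sylow 5 H // (T : Subgroup H) ≤ 𝐂[(P : Subgroup H) ⊓ Q]})
        ⟨P, cm P inf_le_left⟩)) hne
    · intro T
      obtain ⟨T', rfl⟩ := ((Nat.bijective_iff_injective_and_card _).2
        ⟨Subtype.val_injective, e.trans n.symm⟩).2 T
      exact T'.2
  refine ⟨(P : Subgroup H) ⊓ Q, fun T => ⟨?_, (hc T).le.trans hi.le⟩⟩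
  have := (P.isPGroup'.to_le (inf_le_left (b := (Q : Subgroup H)))).inf_normalizer_sylow T
  exact (le_inf le_rfl ((le_centralizer_iff.1 (all T)).trans (centralizer_le_normalizer _))).trans
    (this.le.trans inf_le_right)

end Cfsg.Agent.MCA
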