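import Cfsg.Agent.MCA.K0
import Cfsg.Agent.Char.Burnside

/-!
MCA/K3a.  Nonsolvable groups in `KK` have no normal 2- or 3-subgroup.
-/

set_option autoImplicit false

namespace Cfsg.Agent.MCA

open Subgroup Cfsg.Agent.PLocal.Amb

variable {H : Type*} [Group H] [Finite H]

theorem k3a_solv {X : Type*} [Group X] [Finite X] (h : Nat.card X ∣ Nat.card H) (k : KK H)
    (h2 : ¬ 2 ∣ Nat.card X ∨ ¬ 3 ∣ Nat.card X) : Group.IsSolvable X := by
  have c := h.trans k.card
  rcases h2 with h2 | h2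
  · refine Char.isSolvable_of_card_dvd_pow_mul_pow (a := 6) (b := 3) Nat.prime_three Nat.prime_five X
      ((((Nat.prime_two.coprime_iff_not_dvd.2 h2).pow_left 7).symm).dvd_of_dvd_mul_left ?_)
    rwa [← mul_assoc]
  · refine Char.isSolvable_of_card_dvd_pow_mul_pow (a := 7) (b := 3) Nat.prime_two Nat.prime_five X
      ((((Nat.prime_three.coprime_iff_not_dvd.2 h2).pow_left 6).symm).dvd_of_dvd_mul_left ?_)
    rwa [← mul_assoc, mul_comm (3 ^ 6)]

theorem k3a_sq (h : KK H) {T : Subgroup H} (hT : IsPGroup 2 T) {x : H} (hx : x ∈ T) : x * x = 1 := by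
  obtain ⟨k, hk⟩ := hT ⟨x, hx⟩
  rw [← pow_two]
  exact h.sq (k := k) (congrArg Subtype.val hk)

theorem k3a_cm (h : KK H) {T : Subgroup H} (hT : IsPGroup 2 T) {x y : H} (hx : x ∈ T) (hy : y ∈ T) :
    x * y = y * x := by
  rw [← inv_eq_of_mul_eq_one_right (k3a_sq h hT (mul_mem hx hy)), mul_inv_rev,
    inv_eq_of_mul_eq_one_right (k3a_sq h hT hx), inv_eq_of_mul_eq_one_right (k3a_sq h hT hy)]

/-- Suppose N ≠ ⊥.  Burnside: `Char/Burnside.isSolvable_of_card_dvd_pow_mul_pow`.
r = 2: C = 𝐂[N] is normal, contains a Sylow 2-subgroup (exponent 2, abelian, ≥ N), so |H/C| ∣ 3^6 5^3 solvable; C has no element of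
order 3 (`no6`), so |C| ∣ 2^7 5^3 solvable; H solvable.
r = 3: a Sylow 2-subgroup T is elementary abelian; if cyclic (order ≤ 2) H has a normal 2-complement of order 3^a 5^b, H solvable;
otherwise T is noncyclic abelian acting coprimely on N, so some involution centralises some x ≠ 1 in N (x³ = 1 by `cube`): `no6`.
(Elementary: for commuting involutions u ≠ v acting on the 3-group Z(N) or N with no fixed points, u and v invert, so uv centralises.) -/
theorem k3a (h : KK H) (hs : ¬ IsSolvable H) {r : ℕ} (hr : r = 2 ∨ r = 3) (N : Subgroup H) [N.Normal]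
    (hN : IsPGroup r N) : N = ⊥ := by
  have := Fact.mk Nat.prime_two
  have := Fact.mk Nat.prime_three
  by_contra hn
  obtain ⟨⟨x, hx⟩, x1⟩ := (ne_bot_iff_exists_ne_one).1 hn
  replace x1 : x ≠ 1 := fun e => x1 (Subtype.ext e)
  refine hs ?_
  rcases hr with rfl | rfl
  · obtain ⟨T, hT⟩ := hN.exists_le_sylow
    have TC : (T : Subgroup H) ≤ 𝐂[N] := fun t ht =>
      mem_centralizer_iff.2 fun n hn => k3a_cm h T.2 (hT hn) ht
    have s1 : Group.IsSolvable (H ⧸ 𝐂[N]) := k3a_solv (card_quotient_dvd_card _) h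
      (.inl fun e => T.not_dvd_index (e.trans (index_dvd_of_le TC)))
    have s2 : Group.IsSolvable 𝐂[N] := k3a_solv (card_subgroup_dvd_card _) h (.inr fun e => by
      obtain ⟨y, hy⟩ := exists_prime_orderOf_dvd_card' 3 e
      exact h.no6 (mem_centralizer_iff.1 y.2 x hx)
        (orderOf_eq_prime (by rw [pow_two]; exact k3a_sq h hN hx) x1) ((orderOf_coe y).trans hy))
    exact Group.isSolvable_of_ker_le_range (𝐂[N]).subtype (QuotientGroup.mk' 𝐂[N]) (by simp)
  by_cases e : 2 ∣ Nat.card H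
  swap
  · exact k3a_solv dvd_rfl h (.inl e)
  have o3 : ∀ y ∈ N, y ≠ 1 → orderOf y = 3 := fun y hy y1 => by
    obtain ⟨k, hk⟩ := hN ⟨y, hy⟩
    exact orderOf_eq_prime (h.cube (k := k) (congrArg Subtype.val hk)) y1
  have iv : ∀ u : H, u * u = 1 → u ≠ 1 → ∀ y ∈ N, u * y * u⁻¹ = y⁻¹ := fun u uu u1 y hy => by
    have f : MonoidHom.FixedPointFree (MulAut.conjNormal (H := N) u) := fun g hg => by_contra fun g1 =>
      h.no6 (mul_inv_eq_iff_eq_mul.1 (congrArg Subtype.val hg)) (orderOf_eq_prime (by rwa [pow_two]) u1)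
        (o3 g g.2 fun e => g1 (Subtype.ext e))
    have := f.coe_eq_inv_of_involutive fun g => by
      rw [← MulAut.mul_apply, ← map_mul, uu, map_one, MulAut.one_apply]
    exact congrArg Subtype.val (congrFun this ⟨y, hy⟩)
  obtain ⟨T⟩ := (inferInstance : Nonempty (Sylow 2 H))
  have un : ∀ u ∈ (T : Subgroup H), ∀ v ∈ (T : Subgroup H), u ≠ 1 → v ≠ 1 → u = v := fun u hu v hv u1 v1 => by
    by_contra uv
    have a := k3a_sq h T.2 hv
    refine h.no6 (x := u * v) (y := x) (mul_inv_eq_iff_eq_mul.1 ?_) (orderOf_eq_prime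
      (by rw [pow_two]; exact k3a_sq h T.2 (mul_mem hu hv)) fun k => uv ?_) (o3 x hx x1)
    · rw [show u * v * x * (u * v)⁻¹ = u * (v * x * v⁻¹) * u⁻¹ by group, iv v a v1 x hx,
        iv u (k3a_sq h T.2 hu) u1 _ (inv_mem hx), inv_inv]
    · rw [eq_inv_of_mul_eq_one_left k, inv_eq_of_mul_eq_one_right a]
  have cy : IsCyclic T := by
    by_cases t : ∃ u : T, u ≠ 1
    · obtain ⟨u, u1⟩ := t
      refine ⟨u, fun v => ?_⟩
      by_cases v1 : v = 1
      · exact v1 ▸ one_mem (zpowers u)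
      · exact (Subtype.ext (un _ u.2 _ v.2 (fun k => u1 (Subtype.ext k)) fun k => v1 (Subtype.ext k)) : u = v) ▸
          mem_zpowers u
    · push Not at t
      exact ⟨1, fun v => ⟨0, by rw [t v]; exact zpow_zero _⟩⟩
  have mf : (Nat.card H).minFac = 2 := (Nat.minFac_eq_two_iff _).2 e
  have c := cy.isComplement' mf
  have s1 := k3a_solv (card_subgroup_dvd_card _) h (.inl (c.index_eq_card ▸ T.not_dvd_index))
  have s2 : Group.IsSolvable T := Group.isSolvable_of_comm fun a b => Subtype.ext (k3a_cm h T.2 a.2 b.2)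
  exact Group.isSolvable_of_ker_le_range (Subgroup.subtype _)
    (MonoidHom.transferSylow T (cy.normalizer_le_centralizer mf)) (range_subtype _).ge

end Cfsg.Agent.MCA
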