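import Cfsg.Agent.MCA.Def

/-!
MCA/Six1.  Groups of order 750 or 1500 with six Sylow 5-subgroups.
-/

set_option autoImplicit false

namespace Cfsg.Agent.MCA

open Subgroup Cfsg.Agent.PLocal.Amb

variable {H : Type*} [Group H] [Finite H]

theorem six1_card {p k : ℕ} [hp : Fact p.Prime] (Q : Sylow p H) (h1 : p ^ k ∣ Nat.card H)
    (h2 : ¬ p ^ (k + 1) ∣ Nat.card H) : Nat.card (Q : Subgroup H) = p ^ k := by
  rw [Q.card_eq_multiplicity]
  congr 1
  have h0 : Nat.card H ≠ 0 := Nat.card_pos.ne'
  have h3 := (hp.out.pow_dvd_iff_le_factorization h0).1 h1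
  have h4 := mt (hp.out.pow_dvd_iff_le_factorization h0).2 h2
  omega

omit [Finite H] in
theorem six1_comm {x r : H} (hr : orderOf r = 3) (hx : x ^ 125 = 1)
    (h : x * r * x⁻¹ ∈ zpowers r) : x * r = r * x := by
  classical
  have hf : IsOfFinOrder r := orderOf_pos_iff.1 (by omega)
  rw [← hf.mem_powers_iff_mem_zpowers, hf.mem_powers_iff_mem_range_orderOf, hr,
    Finset.mem_image] at h
  obtain ⟨k, hk, h⟩ := h
  have h3 : r ^ 3 = 1 := hr ▸ pow_orderOf_eq_one r
  rw [Finset.mem_range] at hk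
  interval_cases k
  · rw [pow_zero, eq_comm, conj_eq_one_iff] at h
    simp [h]
  · rw [pow_one, eq_mul_inv_iff_mul_eq] at h
    exact h.symm
  · have h1 : (x * x) * r * (x * x)⁻¹ = r := by
      calc (x * x) * r * (x * x)⁻¹ = x * (x * r * x⁻¹) * x⁻¹ := by group
        _ = (x * r * x⁻¹) ^ 2 := by rw [conj_pow, h]
        _ = r ^ 3 * r := by rw [← h]; group
        _ = r := by rw [h3, one_mul]
    have h2 : Commute (x * x) r := mul_inv_eq_iff_eq_mul.1 h1
    have h4 : (x * x) ^ 63 = x := by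
      rw [← sq, ← pow_mul, show 2 * 63 = 125 + 1 by norm_num, pow_succ, hx, one_mul]
    exact h4 ▸ (h2.pow_left 63).eq

/-- Burnside (`MonoidHom.ker_transferSylow_isComplement'`): normal complement K of order 6 or 12.  R Sylow 3 of K, order 3.  Frattini H = K 𝐍[R], so
125 ∣ |𝐍[R]| and 𝐍[R] contains a Sylow 5-subgroup Q' of H, which centralises R (|Aut R| = 2, or: x of 5-power order permutes the two
generators).  So R ≤ 𝐍[Q'], of order |H|/6 ∈ {125, 250}, prime to 3. -/
theorem six1 (hc : Nat.card H = 750 ∨ Nat.card H = 1500) (Q : Sylow 5 H)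
    (hN : 𝐍[(Q : Subgroup H)] ≤ 𝐂[(Q : Subgroup H)]) (hi : (𝐍[(Q : Subgroup H)]).index = 6) : False := by
  have : Fact (Nat.Prime 3) := ⟨by norm_num⟩
  have hK := MonoidHom.ker_transferSylow_isComplement' Q hN
  generalize hK' : (MonoidHom.transferSylow Q hN).ker = K at hK
  have : K.Normal := hK' ▸ inferInstance
  have hS : ∀ Q' : Sylow 5 H, Nat.card (Q' : Subgroup H) = 5 ^ 3 := fun Q' =>
    six1_card Q' (by rcases hc with h | h <;> rw [h] <;> norm_num)
      (by rcases hc with h | h <;> rw [h] <;> norm_num)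
  have h1 : K.index = 5 ^ 3 := hK.symm.index_eq_card.trans (hS Q)
  have h2 := K.card_mul_index
  rw [h1] at h2
  obtain ⟨R⟩ : Nonempty (Sylow 3 K) := inferInstance
  have h3 : Nat.card (R : Subgroup K) = 3 ^ 1 := six1_card R (by omega) (by omega)
  have h4 := Sylow.normalizer_sup_eq_top R
  have h5 : Nat.card ((R : Subgroup K).map K.subtype) = 3 := by
    rw [card_map_of_injective K.subtype_injective, h3, pow_one]
  generalize (R : Subgroup K).map K.subtype = R' at h4 h5
  obtain ⟨r, hr⟩ := exists_prime_orderOf_dvd_card' (G := R') 3 (by rw [h5])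
  rw [← orderOf_coe] at hr
  have h6 : zpowers (r : H) = R' :=
    eq_of_le_of_card_ge (zpowers_le.2 r.2) (by rw [Nat.card_zpowers, hr, h5])
  have h7 : 5 ^ 3 ∣ Nat.card (normalizer (R' : Set H)) := by
    rw [← h1, ← relIndex_top_right, ← h4, relIndex_sup_right]
    exact relIndex_dvd_card _ _
  obtain ⟨Q0⟩ : Nonempty (Sylow 5 (normalizer (R' : Set H))) := inferInstance
  have h8 : Nat.card (Q0 : Subgroup (normalizer (R' : Set H))) = 5 ^ 3 := six1_card Q0 h7 fun h =>
    absurd (h.trans (card_subgroup_dvd_card _)) (by rcases hc with h | h <;> rw [h] <;> norm_num)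
  obtain ⟨Q', hQ'⟩ := (Q0.2.map (normalizer (R' : Set H)).subtype).exists_le_sylow
  have h9 := eq_of_le_of_card_ge hQ' (by
    rw [card_map_of_injective (subtype_injective _), h8, hS])
  have h10 : (r : H) ∈ normalizer ((Q' : Subgroup H) : Set H) := by
    refine centralizer_le_normalizer _ fun x hx => six1_comm hr ?_ ?_
    · exact orderOf_dvd_iff_pow_eq_one.1 (by
        have := (Q' : Subgroup H).orderOf_dvd_natCard hx
        rwa [hS] at this)
    · rw [← h9] at hx
      obtain ⟨y, -, rfl⟩ := hx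
      rw [h6]
      exact (mem_normalizer_iff.1 y.2 r).1 r.2
  have h11 := (normalizer ((Q' : Subgroup H) : Set H)).orderOf_dvd_natCard h10
  have h12 := (normalizer ((Q' : Subgroup H) : Set H)).card_mul_index
  have h13 : (normalizer ((Q' : Subgroup H) : Set H)).index = 6 :=
    Q'.card_eq_index_normalizer.symm.trans (Q.card_eq_index_normalizer.trans hi)
  rw [h13] at h12
  rw [hr] at h11
  omega

end Cfsg.Agent.MCA
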