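import Cfsg.Agent.MCA.Tr
import Cfsg.Agent.MCA.Six1

/-!
MCA/Six2.  Structure in the case `Six`.
-/

set_option autoImplicit false

namespace Cfsg.Agent.MCA

open Subgroup Cfsg.Agent.PLocal.Amb

variable {S : Type*} [Group S] [Finite S] {P : Sylow 5 S}

omit [Finite S] in
theorem six2_card (N C : Subgroup S) : Nat.card ↥(N ⊓ C) * N.relIndex C = Nat.card C := by
  rw [← inf_relIndex_right N C, ← relIndex_bot_left, ← relIndex_bot_left]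
  exact relIndex_mul_relIndex ⊥ _ _ bot_le inf_le_right

theorem six2_amb {C : Subgroup S} (Q : Sylow 5 S) (hQ : (Q : Subgroup S) ≤ C)
    (hc : Nat.card C = 750 ∨ Nat.card C = 1500) (hN : 𝐍[(Q : Subgroup S)] ⊓ C ≤ 𝐂[(Q : Subgroup S)])
    (hi : (𝐍[(Q : Subgroup S)]).relIndex C = 6) : False := by
  have e : 𝐍[((Q.subtype hQ : Sylow 5 C) : Subgroup C)] = (𝐍[(Q : Subgroup S)]).subgroupOf C := by
    rw [Sylow.coe_subtype, subgroupOf_normalizer_eq hQ]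
  refine six1 hc (Q.subtype hQ) (fun x hx => ?_) (by rw [e]; exact hi)
  rw [e] at hx
  rw [mem_centralizer_iff]
  intro y hy
  exact Subtype.ext (mem_centralizer_iff.1 (hN ⟨hx, x.2⟩) y hy)

omit [Finite S] in
theorem six2_le (h : Hyp P) {D : Subgroup S} (hD : D ≤ P) : (P : Subgroup S) ≤ 𝐂[D] :=
  fun _ ha => mem_centralizer_iff.2 fun _ hb => (h.commute (hD hb) ha).eq

/-- C = 𝐂[D] ≥ P, |C| = 6 |𝐍[P] ⊓ C|, |𝐍[P] ⊓ C| = 125 k, k ∣ 4.  k = 4: 𝐍[P] centralises D, `not_central`.  k = 1: in ↥C the normaliser of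
`P.subtype` is P, abelian: `six1` with |C| = 750. -/
theorem six2a (h : Hyp P) {D : Subgroup S} (s : Six P D) : Nat.card 𝐂[D] = 1500 := by
  have e := six2_card 𝐍[(P : Subgroup S)] 𝐂[D]
  rw [s.idxD] at e
  have l1 : (P : Subgroup S) ≤ 𝐍[(P : Subgroup S)] ⊓ 𝐂[D] := le_inf le_normalizer (six2_le h s.le)
  have d1 := card_dvd_of_le l1
  have d2 := card_dvd_of_le (inf_le_left : 𝐍[(P : Subgroup S)] ⊓ 𝐂[D] ≤ _)
  rw [h.cardP] at d1
  rw [s.cardN] at d2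
  obtain ⟨k, hk⟩ := d1
  have d3 : k ∣ 4 := Nat.dvd_of_mul_dvd_mul_left (by norm_num : 0 < 125) (hk ▸ d2)
  have k4 := Nat.le_of_dvd (by norm_num) d3
  interval_cases k
  · omega
  · have e2 := eq_of_le_of_card_ge l1 (by rw [hk, h.cardP])
    exact (six2_amb P (six2_le h s.le) (Or.inl (by omega)) (e2 ▸ six2_le h le_rfl) s.idxD).elim
  · omega
  · omega
  · have e2 := eq_of_le_of_card_ge (inf_le_left : 𝐍[(P : Subgroup S)] ⊓ 𝐂[D] ≤ _)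
      (by rw [hk, s.cardN])
    have hD : D ≠ ⊥ := fun e0 => by simpa [e0] using s.cardD
    obtain ⟨⟨a, ha⟩, a1⟩ := ne_bot_iff_exists_ne_one.1 hD
    refine (h.not_central (s.le ha) (fun e0 => a1 (Subtype.ext e0)) fun x hx => ?_).elim
    have hx' : x ∈ 𝐂[D] := (e2.ge hx).2
    exact mem_Cz.2 (mem_centralizer_iff.1 hx' a ha).symm

/-- 1 ≠ a ∈ D ⊓ cj(g,D): every Sylow Q ∋ a contains cj(g,D) (apply `mem` to g⁻¹ a g ∈ g⁻¹ • Q); take Q = P and the Q₀ of `inf`: cj(g,D) ≤ D. -/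
theorem six2b (h : Hyp P) {D : Subgroup S} (s : Six P D) (g : S) (hg : D ⊓ cj(g, D) ≠ ⊥) : g ∈ 𝐍[D] := by
  obtain ⟨⟨a, ha, ha'⟩, a1⟩ := ne_bot_iff_exists_ne_one.1 hg
  have a1' : a ≠ 1 := fun e0 => a1 (Subtype.ext e0)
  have key : ∀ Q : Sylow 5 S, a ∈ (Q : Subgroup S) → cj(g, D) ≤ Q := fun Q hQ => by
    rw [cj_le_iff, ← coe_smul_sylow]
    refine s.mem _ (mem_cj.1 ha') (fun e0 => a1' ?_) _ ?_
    · rwa [mul_assoc, inv_mul_eq_one, eq_comm, mul_eq_right] at e0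
    · have := conj_mem_cj g⁻¹ hQ
      rwa [inv_inv] at this
  obtain ⟨Q, hQ⟩ := s.inf
  refine mem_normalizer_of_cj_le (le_trans ?_ hQ.le)
  exact le_inf (key P (s.le ha)) (key Q (hQ.ge ha).2)

/-- If D < R ≤ Cz w with R a 5-group, |R| = 125, R = Q is Sylow in S, abelian, so Q ≤ C = 𝐂[D].  In ↥C (order 1500, 6 Sylows by `idxD`) the normaliser of Q has
order 250, contains Q and w, so is Q ⊔ zpowers w, which centralises Q: `six1`. -/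
theorem six2c (h : Hyp P) {D : Subgroup S} (s : Six P D) {w : S} (hw : w ∈ 𝐂[D]) (h2 : orderOf w = 2) :
    IsSyl 5 D (Cz w) := by
  refine ⟨fun d hd => mem_Cz.2 (mem_centralizer_iff.1 hw d hd), P.isPGroup'.to_le s.le,
    fun R hR h3 h4 => ?_⟩
  by_contra h5
  obtain ⟨Q, hQ⟩ := hR.exists_le_sylow
  have hq := h.conj Q
  have d1 := card_dvd_of_le h3
  have d2 := card_dvd_of_le hQ
  rw [s.cardD] at d1
  rw [hq.cardP] at d2
  obtain ⟨k, hk⟩ := d1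
  have d3 : k ∣ 5 := Nat.dvd_of_mul_dvd_mul_left (by norm_num : 0 < 25) (hk ▸ d2)
  rcases (Nat.dvd_prime (by norm_num)).1 d3 with rfl | rfl
  · exact h5 (eq_of_le_of_card_ge h3 (by rw [hk, s.cardD])).ge
  have e1 : R = Q := eq_of_le_of_card_ge hQ (by rw [hk, hq.cardP])
  have QC := six2_le hq (h3.trans hQ)
  obtain ⟨g, hg, e2⟩ := (isSyl_of_le Q QC).exists_cj_eq (isSyl_of_le P (six2_le h s.le))
  have c0 := six2a h s
  have c1 := six2_card 𝐍[(P : Subgroup S)] 𝐂[D]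
  have c2 := six2_card 𝐍[(Q : Subgroup S)] 𝐂[D]
  have c3 : Nat.card ↥(𝐍[(Q : Subgroup S)] ⊓ 𝐂[D]) = 250 := by
    rw [← e2, normalizer_cj, ← cj_of_mem hg, ← cj_inf, card_cj]
    rw [s.idxD] at c1
    omega
  have wQ : w ∈ 𝐂[(Q : Subgroup S)] :=
    mem_centralizer_iff.2 fun y hy => (mem_Cz.1 (h4 (e1.ge hy))).eq
  have d4 : 125 ∣ Nat.card ↥(𝐍[(Q : Subgroup S)] ⊓ 𝐂[D] ⊓ 𝐂[(Q : Subgroup S)]) :=
    hq.cardP ▸ card_dvd_of_le (le_inf (le_inf le_normalizer QC) (six2_le hq le_rfl))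
  have d5 : 2 ∣ Nat.card ↥(𝐍[(Q : Subgroup S)] ⊓ 𝐂[D] ⊓ 𝐂[(Q : Subgroup S)]) :=
    h2 ▸ Subgroup.orderOf_dvd_natCard _ ⟨⟨centralizer_le_normalizer' _ wQ, hw⟩, wQ⟩
  have d6 := Nat.le_of_dvd Nat.card_pos (Nat.Coprime.mul_dvd_of_dvd_of_dvd (by norm_num) d4 d5)
  have e3 := eq_of_le_of_card_ge
    (inf_le_left : 𝐍[(Q : Subgroup S)] ⊓ 𝐂[D] ⊓ 𝐂[(Q : Subgroup S)] ≤ _) (by omega)
  exact six2_amb Q QC (Or.inr c0) (e3.ge.trans inf_le_right) (by rw [c3] at c2; omega)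

end Cfsg.Agent.MCA
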