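import Cfsg.Agent.MCA.Six2
import Cfsg.Agent.MCA.G1

/-!
MCA/Six3.  The case `Six` is impossible.
-/

set_option autoImplicit false

namespace Cfsg.Agent.MCA

open Subgroup Cfsg.Agent.PLocal.Amb

variable {S : Type*} [Group S] [Finite S] {P : Sylow 5 S}

theorem six3_card {T L : Subgroup S} (h : IsSyl 2 T L) {k m : ℕ} (hc : Nat.card L = 2 ^ k * m) (hm : ¬ 2 ∣ m) :
    Nat.card T = 2 ^ k := by
  rw [h.card_eq_pow, hc, Nat.factorization_mul (by positivity) (by rintro rfl; simp at hm), Finsupp.add_apply,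
    Nat.factorization_eq_zero_of_not_dvd hm, Nat.prime_two.factorization_pow]
  simp

/-- M = 𝐍[D] (3000), T Sylow 2 in M (order 8), W = T ⊓ 𝐂[D] Sylow 2 in 𝐂[D] (`IsSyl.inf_of_le`, order 4), elements of W have order ≤ 2 (`no20`).
(A) w ∈ W, w ≠ 1, T ≤ Cz w ⇒ Cz w ≤ M (`g1b` with `six2b`, `six2c`).  U Sylow 2 of S above T (order 128), g ∈ U ⊓ 𝐍[T], g ∉ T (`lt_inf_normalizer`), g ∉ M.
(B) such w has w' = g w g⁻¹ ∉ W: else w' is such an element too, D and cj(g,D) are Sylow in Cz w' ≤ 𝐍[D] (`IsSyl.cj`, `centralizer_singleton_conj`),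
so cj(g,D) = D, g ∈ M.  W ⊓ 𝐂[T] ≠ ⊥ (`inf_centralizer_ne_bot`) gives one w; T = W ⊔ zpowers w' with W abelian, w' central: T abelian.
So (B) holds for all 1 ≠ w ∈ W, but W ⊓ cj(g,W) ≠ ⊥ (orders 4, 4 inside 8). -/
theorem six3 (h : Hyp P) {D : Subgroup S} (s : Six P D) : False := by
  obtain ⟨T, hT⟩ := exists_isSyl 2 𝐍[D]
  have hW := hT.inf_of_le (centralizer_le_normalizer' D) (normalizer_le_normalizer_centralizer D)
  have cT : Nat.card T = 2 ^ 3 := six3_card hT (m := 375) s.cardND (by norm_num)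
  have cW : Nat.card ↥(T ⊓ 𝐂[D]) = 2 ^ 2 := six3_card hW (m := 375) (six2a h s) (by norm_num)
  obtain ⟨⟨a, ha⟩, a1⟩ := ne_bot_iff_exists_ne_one.1 (show D ≠ ⊥ from fun e => by
    have := s.cardD
    rw [e, card_bot] at this
    omega)
  have o2 : ∀ w ∈ T ⊓ 𝐂[D], w ≠ 1 → orderOf w = 2 := fun w hw w1 => by
    obtain ⟨k, hk, e⟩ := (Nat.dvd_prime_pow Nat.prime_two).1 (cW ▸ orderOf_dvd_natCard _ hw)
    interval_cases k
    · exact absurd (orderOf_eq_one_iff.1 e) w1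
    · exact e
    · exact (h.no20 (hw.2 a ha) (h.ord5 (s.le ha) fun e => a1 (Subtype.ext e)) e).elim
  have sq : ∀ w ∈ T ⊓ 𝐂[D], w * w = 1 := fun w hw => by
    by_cases w1 : w = 1
    · rw [w1, mul_one]
    · rw [← pow_two, ← o2 w hw w1, pow_orderOf_eq_one]
  have ab : ∀ v ∈ T ⊓ 𝐂[D], ∀ w ∈ T ⊓ 𝐂[D], Commute v w := fun v hv w hw => by
    have := sq _ (mul_mem hv hw)
    rw [mul_eq_one_iff_eq_inv, mul_inv_rev, inv_eq_of_mul_eq_one_left (sq v hv),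
      inv_eq_of_mul_eq_one_left (sq w hw)] at this
    exact this
  have A : ∀ w ∈ T ⊓ 𝐂[D], w ≠ 1 → T ≤ Cz w → Cz w ≤ 𝐍[D] := fun w hw w1 hc =>
    g1b h (.inl (o2 w hw w1)) (six2c h s hw.2 (o2 w hw w1)) (fun g _ hg => six2b h s g hg) s.cardD
      (cT ▸ card_dvd_of_le (le_inf hT.le hc) : 2 ^ 3 ∣ _)
  obtain ⟨U, hU, TU⟩ := exists_isSyl_ge hT.pgrp (le_top (a := T))
  have cU : Nat.card U = 2 ^ 7 := six3_card hU (m := 7016625) (by rw [card_top, h.card]; norm_num) (by norm_num)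
  obtain ⟨g, ⟨g1, g2⟩, g3⟩ := SetLike.exists_of_lt (lt_inf_normalizer hU.pgrp (TU.lt_of_ne fun e => by
    rw [e, cU] at cT
    omega))
  have g4 : g ∉ 𝐍[D] := fun c => g3 (hT.max (U ⊓ 𝐍[D]) (hU.pgrp.to_le inf_le_left) (le_inf TU hT.le) inf_le_right
    (mem_inf.2 ⟨g1, c⟩))
  have C : ∀ w, T ≤ Cz w → T ≤ Cz (g * w * g⁻¹) := fun w hc => by
    rw [Cz, centralizer_singleton_conj, ← cj_of_mem_normalizer g2]
    exact cj_mono g hc
  have B : ∀ w ∈ T ⊓ 𝐂[D], w ≠ 1 → T ≤ Cz w → g * w * g⁻¹ ∉ T ⊓ 𝐂[D] := fun w hw w1 hc hw' => by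
    have w1' : g * w * g⁻¹ ≠ 1 := by simpa using w1
    have k := (six2c h s hw.2 (o2 w hw w1)).cj g
    rw [Cz, ← centralizer_singleton_conj] at k
    exact g4 (mem_normalizer_of_cj_le ((six2c h s hw'.2 (o2 _ hw' w1')).le_of_normalizes k.pgrp k.le
      (k.le.trans (A _ hw' w1' (C w hc)))))
  have i2 : ((T ⊓ 𝐂[D]).subgroupOf T).index = 2 := by
    have := ((T ⊓ 𝐂[D]).subgroupOf T).card_mul_index
    rw [Nat.card_congr (subgroupOfEquivOfLe inf_le_left).toEquiv, cW, cT] at this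
    omega
  have m2 : ∀ x ∈ T, ∀ y ∈ T, x ∉ T ⊓ 𝐂[D] → y ∉ T ⊓ 𝐂[D] → x * y ∈ T ⊓ 𝐂[D] := fun x hx y hy c d =>
    (mul_mem_iff_of_index_two i2 (a := ⟨x, hx⟩) (b := ⟨y, hy⟩)).2 (iff_of_false c d)
  obtain ⟨⟨w, hw, hw'⟩, w1⟩ := ne_bot_iff_exists_ne_one.1 (inf_centralizer_ne_bot hT.pgrp hW.pgrp
    (fun t ht => mem_normalizer_of_cj_le (cj_le_iff_forall.2 fun x hx => mem_inf.2
      ⟨mul_mem (mul_mem ht hx.1) (inv_mem ht),
        conj_mem_of_mem_normalizer (normalizer_le_normalizer_centralizer D (hT.le ht)) hx.2⟩)) fun e => by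
    rw [e, card_bot] at cW
    omega)
  replace w1 : w ≠ 1 := fun e => w1 (Subtype.ext e)
  have hc : T ≤ Cz w := fun t ht => mem_Cz.2 (hw' t ht)
  have gT : ∀ x ∈ T, g * x * g⁻¹ ∈ T := fun x => conj_mem_of_mem_normalizer g2
  have all : ∀ v ∈ T ⊓ 𝐂[D], T ≤ Cz v := fun v hv t ht => mem_Cz.2 (by
    by_cases c : t ∈ T ⊓ 𝐂[D]
    · exact ab t c v hv
    · have k := ab _ (m2 t ht _ (gT w hw.1) c (B w hw w1 hc)) v hv
      have k' := (mem_Cz.1 (C w hc hv.1)).symm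
      have := k.mul_left k'.inv_left
      rwa [mul_inv_cancel_right] at this)
  obtain ⟨v, hv, v1⟩ := SetLike.not_le_iff_exists.1 (show ¬ T ⊓ 𝐂[D] ≤ zpowers w from fun c => by
    have := card_le_of_le c
    rw [cW, Nat.card_zpowers, o2 w hw w1] at this
    omega)
  refine B (w * v) (mul_mem hw hv) (fun e => v1 ?_) (all _ (mul_mem hw hv)) ?_
  · rw [eq_inv_of_mul_eq_one_right e]
    exact inv_mem (mem_zpowers w)
  · rw [← conj_mul]
    exact m2 _ (gT w hw.1) _ (gT v hv.1) (B w hw w1 hc) (B v hv (fun e => v1 (e ▸ one_mem _)) (all v hv))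

end Cfsg.Agent.MCA
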