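import Cfsg.Agent.MCA.Def

/-!
MCA/T0a.  Basic facts in the TI case.
-/

set_option autoImplicit false

namespace Cfsg.Agent.MCA

open Subgroup Cfsg.Agent.PLocal.Amb

variable {S : Type*} [Group S] [Finite S] {P : Sylow 5 S}

/-- g ∈ Cz a ⇒ a ∈ P ⊓ cj(g,P). -/
theorem ti_cz (t : TI P) {a : S} (ha : a ∈ (P : Subgroup S)) (h1 : a ≠ 1) : Cz a ≤ 𝐍[(P : Subgroup S)] := by
  intro g hg
  refine t.ti g fun e => h1 ?_
  have : a ∈ (P : Subgroup S) ⊓ cj(g, (P : Subgroup S)) := ⟨ha, mem_cj.2 (by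
    rwa [mul_assoc, ← (mem_Cz.1 hg).eq, inv_mul_cancel_left])⟩
  rwa [e, mem_bot] at this

/-- `IsSyl.le_of_normalizes`. -/
theorem mem_of_pow5 {x : S} (hx : x ∈ 𝐍[(P : Subgroup S)]) (h5 : x ^ 5 = 1) : x ∈ (P : Subgroup S) := by
  exact (isSyl_top P).le_of_normalizes (isPGroup_zpowers ⟨1, by rw [pow_one, h5]⟩) le_top
    (zpowers_le.2 hx) (mem_zpowers x)

/-- divisors of 125. -/
theorem fx_cases (h : Hyp P) (v : S) : Fx P v = 1 ∨ Fx P v = 5 ∨ Fx P v = 25 ∨ Fx P v = 125 := by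
  have hd : Fx P v ∣ 125 := h.cardP ▸ card_dvd_of_le inf_le_left
  have : Fx P v ∈ Nat.divisors 125 := Nat.mem_divisors.2 ⟨hd, by norm_num⟩
  have e : Nat.divisors 125 = {1, 5, 25, 125} := by decide
  rw [e] at this
  simpa only [Finset.mem_insert, Finset.mem_singleton] using this

/-- a = b c with b = (a · v a v⁻¹)^3, c = (a · (v a v⁻¹)⁻¹)^3 (P abelian of exponent 5, a^6 = a). -/
theorem inv_dec (h : Hyp P) {v : S} (hv : v ∈ 𝐍[(P : Subgroup S)]) (h2 : orderOf v = 2) {a : S}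
    (ha : a ∈ (P : Subgroup S)) : ∃ b ∈ (P : Subgroup S), ∃ c ∈ (P : Subgroup S),
      a = b * c ∧ Commute b v ∧ v * c * v⁻¹ = c⁻¹ := by
  have vv : v * v = 1 := by rw [← sq, ← h2, pow_orderOf_eq_one]
  have ha' : v * a * v⁻¹ ∈ (P : Subgroup S) := conj_mem_of_mem_normalizer hv ha
  have e2 : v * (v * a * v⁻¹) * v⁻¹ = a := by
    calc _ = (v * v) * a * (v * v)⁻¹ := by group
      _ = a := by rw [vv]; group
  generalize hb : v * a * v⁻¹ = b at ha' e2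
  have c := h.commute ha ha'
  refine ⟨(a * b) ^ 3, pow_mem (mul_mem ha ha') 3, (a * b⁻¹) ^ 3, pow_mem (mul_mem ha (inv_mem ha')) 3,
    ?_, ?_, ?_⟩
  · rw [← (h.commute (mul_mem ha ha') (mul_mem ha (inv_mem ha'))).mul_pow,
      show a * b * (a * b⁻¹) = a * (b * a) * b⁻¹ by group, ← c.eq,
      show a * (a * b) * b⁻¹ = a ^ 2 by rw [sq]; group, ← pow_mul, show 2 * 3 = 5 + 1 from rfl, pow_succ, h.pow5 ha, one_mul]
  · refine Commute.pow_left ?_ 3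
    have : v * (a * b) * v⁻¹ = a * b := by
      rw [show v * (a * b) * v⁻¹ = (v * a * v⁻¹) * (v * b * v⁻¹) by group, hb, e2, c.eq]
    rw [Commute, SemiconjBy]
    calc a * b * v = v * (a * b) * v⁻¹ * v := by rw [this]
      _ = _ := by group
  · rw [← conj_pow, ← inv_pow, show v * (a * b⁻¹) * v⁻¹ = (v * a * v⁻¹) * (v * b * v⁻¹)⁻¹ by group,
      hb, e2, mul_inv_rev, inv_inv]

/-- `inv_dec` with b = 1. -/
theorem inv_of_fx1 (h : Hyp P) {v : S} (hv : v ∈ 𝐍[(P : Subgroup S)]) (h2 : orderOf v = 2) (h1 : Fx P v = 1)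
    {a : S} (ha : a ∈ (P : Subgroup S)) : v * a * v⁻¹ = a⁻¹ := by
  obtain ⟨b, hb, c, -, rfl, e1, e2⟩ := inv_dec h hv h2 ha
  have : b ∈ (P : Subgroup S) ⊓ Cz v := ⟨hb, mem_Cz.2 e1⟩
  rw [card_eq_one.1 h1, mem_bot] at this
  rw [this, one_mul, e2]

/-- two commuting involutions of 𝐍[P] of type 5 with the same fixed line ℓ: write a = b c for v (`inv_dec`), b ∈ ℓ; c' = c · w c w⁻¹ is fixed by w, so lies in ℓ, and is
inverted by v, so c' = 1: w inverts c too. -/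
theorem f1 (h : Hyp P) {v w : S} (hv : v ∈ 𝐍[(P : Subgroup S)]) (hw : w ∈ 𝐍[(P : Subgroup S)]) (hv2 : orderOf v = 2)
    (hw2 : orderOf w = 2) (hvw : Commute v w)
    (he : (P : Subgroup S) ⊓ Cz v = (P : Subgroup S) ⊓ Cz w) : v * w ∈ 𝐂[(P : Subgroup S)] := by
  rw [mem_centralizer_iff]
  intro a ha
  obtain ⟨b, hb, c, hc, rfl, e1, e2⟩ := inv_dec h hv hv2 ha
  have ww : w * w = 1 := by rw [← sq, ← hw2, pow_orderOf_eq_one]
  have bw : Commute b w := by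
    have : b ∈ (P : Subgroup S) ⊓ Cz w := he ▸ ⟨hb, mem_Cz.2 e1⟩
    exact mem_Cz.1 this.2
  have hd : w * c * w⁻¹ ∈ (P : Subgroup S) := conj_mem_of_mem_normalizer hw hc
  have e3 : w * (w * c * w⁻¹) * w⁻¹ = c := by
    calc _ = (w * w) * c * (w * w)⁻¹ := by group
      _ = c := by rw [ww]; group
  have e4 : v * (w * c * w⁻¹) * v⁻¹ = (w * c * w⁻¹)⁻¹ := by
    calc _ = (v * w) * c * (v * w)⁻¹ := by group
      _ = w * (v * c * v⁻¹) * w⁻¹ := by rw [hvw.eq]; group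
      _ = _ := by rw [e2]; group
  generalize hd' : w * c * w⁻¹ = d at hd e3 e4
  have cd := h.commute hc hd
  have e5 : Commute (c * d) w := by
    have : w * (c * d) * w⁻¹ = c * d := by
      rw [show w * (c * d) * w⁻¹ = (w * c * w⁻¹) * (w * d * w⁻¹) by group, hd', e3, cd.eq]
    rw [Commute, SemiconjBy]
    calc c * d * w = w * (c * d) * w⁻¹ * w := by rw [this]
      _ = _ := by group
  have e6 : Commute (c * d) v := by
    have : c * d ∈ (P : Subgroup S) ⊓ Cz v := he ▸ ⟨mul_mem hc hd, mem_Cz.2 e5⟩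
    exact mem_Cz.1 this.2
  have e7 : c * d = (c * d)⁻¹ := by
    calc c * d = v * (c * d) * v⁻¹ := by rw [← e6.eq]; group
      _ = (v * c * v⁻¹) * (v * d * v⁻¹) := by group
      _ = _ := by rw [e2, e4, ← mul_inv_rev, ← cd.eq]
  have e8 : c * d = 1 := by
    have h5 := h.pow5 (mul_mem hc hd)
    generalize c * d = x at e7 h5
    have : x * x = 1 := by nth_rewrite 2 [e7]; exact mul_inv_cancel x
    rw [← h5, show x ^ 5 = (x * x) * (x * x) * x by simp only [pow_succ, pow_zero, one_mul, mul_assoc], this, one_mul, one_mul]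
  have e9 : v * w * c * (v * w)⁻¹ = c := by
    calc _ = v * (w * c * w⁻¹) * v⁻¹ := by group
      _ = c := by rw [hd', e4, eq_inv_of_mul_eq_one_left e8]
  have e10 : Commute c (v * w) := by
    rw [Commute, SemiconjBy]
    calc c * (v * w) = v * w * c * (v * w)⁻¹ * (v * w) := by rw [e9]
      _ = _ := by group
  exact ((e1.mul_right bw).mul_left e10).eq

/-- 1 ≠ a ∈ P commuting with g v g⁻¹: g⁻¹ a g ∈ Cz v ≤ 𝐍[P] has order 5, so lies in P (`mem_of_pow5`), a ∈ P ⊓ cj(g,P), g ∈ 𝐍[P]. -/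
theorem conj0 (h : Hyp P) (t : TI P) {v g : S} (hv : Cz v ≤ 𝐍[(P : Subgroup S)]) (hg : g ∉ 𝐍[(P : Subgroup S)]) :
    Fx P (g * v * g⁻¹) = 1 := by
  refine card_eq_one.2 (eq_bot_iff.2 fun a ha => ?_)
  have e1 : g⁻¹ * a * g ∈ Cz v := mem_Cz.2 (by
    have := (mem_Cz.1 ha.2).eq
    rw [Commute, SemiconjBy]
    calc g⁻¹ * a * g * v = g⁻¹ * (a * (g * v * g⁻¹)) * g := by group
      _ = _ := by rw [this]; group)
  have e2 : g⁻¹ * a * g ∈ (P : Subgroup S) := mem_of_pow5 (hv e1) (by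
    have := conj_pow (i := 5) (a := g⁻¹) (b := a)
    rw [inv_inv] at this
    rw [this, h.pow5 ha.1]; group)
  by_contra hn
  refine hg (t.ti g fun e => hn ?_)
  rw [← e]
  exact ⟨ha.1, mem_cj.2 e2⟩

/-- `IsSyl.card_eq_pow` (|𝐍[P]| = 3000); U Sylow 2 of S above T has order 128, `lt_inf_normalizer`; g ∈ 𝐍[P] would make T ⊔ zpowers g ≤ U ⊓ 𝐍[P] a larger 2-subgroup. -/
theorem exists_g (h : Hyp P) (t : TI P) {T : Subgroup S} (hT : IsSyl 2 T 𝐍[(P : Subgroup S)]) :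
    Nat.card T = 8 ∧ ∃ g ∈ 𝐍[T], g ∉ 𝐍[(P : Subgroup S)] := by
  haveI : Fact (Nat.Prime 2) := ⟨Nat.prime_two⟩
  have c8 : Nat.card T = 8 := by
    rw [hT.card_eq_pow, t.card, show (3000 : ℕ) = 2 ^ 3 * 375 by norm_num,
      Nat.factorization_mul (by norm_num) (by norm_num), Finsupp.add_apply,
      Nat.factorization_eq_zero_of_not_dvd (n := 375) (by norm_num),
      Nat.Prime.factorization_pow (by norm_num)]
    simp
  refine ⟨c8, ?_⟩
  obtain ⟨U, hU, hle⟩ := exists_isSyl_ge hT.pgrp (le_top : T ≤ ⊤)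
  have hne : T ≠ U := by
    rintro rfl
    apply hU.not_dvd_relIndex
    have := T.card_mul_index
    rw [c8, h.card] at this
    rw [relIndex_top_right]
    omega
  obtain ⟨g, hg, hgT⟩ := SetLike.exists_of_lt (lt_inf_normalizer hU.pgrp (lt_of_le_of_ne hle hne))
  refine ⟨g, hg.2, fun hn => hgT ?_⟩
  exact hT.max (U ⊓ 𝐍[(P : Subgroup S)]) (hU.pgrp.to_le inf_le_left) (le_inf hle hT.le) inf_le_right
    ⟨hg.1, hn⟩

/-- D = P ⊓ Cz v ≠ ⊥ : a 5-group R with D ≤ R ≤ Cz v lies in a Sylow cj(x,P) meeting P, so in P.  TI: g with D ⊓ cj(g,D) ≠ ⊥ normalises P, and if g ∈ Cz v also D. -/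
theorem isSyl_fx (h : Hyp P) (t : TI P) {v : S} (h1 : Fx P v ≠ 1) :
    IsSyl 5 ((P : Subgroup S) ⊓ Cz v) (Cz v) ∧ 𝐍[(P : Subgroup S) ⊓ Cz v] ≤ 𝐍[(P : Subgroup S)] ∧
    ∀ g ∈ Cz v, ((P : Subgroup S) ⊓ Cz v) ⊓ cj(g, (P : Subgroup S) ⊓ Cz v) ≠ ⊥ →
      g ∈ 𝐍[(P : Subgroup S) ⊓ Cz v] := by
  have hD : (P : Subgroup S) ⊓ Cz v ≠ ⊥ := fun e => h1 (card_eq_one.2 e)
  refine ⟨⟨inf_le_right, P.isPGroup'.to_le inf_le_left, fun R hR h2 h3 => le_inf ?_ h3⟩,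
    fun g hg => t.ti g fun e => hD (eq_bot_iff.2 ?_), fun g hg hne => ?_⟩
  · obtain ⟨g, -, hg⟩ := (isSyl_top P).exists_le_cj hR le_top
    have : g ∈ 𝐍[(P : Subgroup S)] := t.ti g fun e => hD (eq_bot_iff.2 (by
      rw [← e]; exact le_inf inf_le_left (h2.trans hg)))
    rwa [cj_of_mem_normalizer this] at hg
  · rw [← e]
    refine le_inf inf_le_left ?_
    rw [← cj_of_mem_normalizer hg]
    exact cj_mono g inf_le_left
  · have : g ∈ 𝐍[(P : Subgroup S)] := t.ti g fun e => hne (eq_bot_iff.2 (by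
      rw [← e]; exact inf_le_inf inf_le_left (cj_mono g inf_le_left)))
    rw [← cj_eq_iff, cj_inf, cj_of_mem_normalizer this, cj_of_mem_normalizer (le_normalizer hg)]

end Cfsg.Agent.MCA
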