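import Cfsg.Agent.MCA.T0a
import Cfsg.Agent.MCA.G1

/-!
MCA/T0b.  Elements of order 3 in 𝐍[P].
-/

set_option autoImplicit false

namespace Cfsg.Agent.MCA

open Subgroup Cfsg.Agent.PLocal.Amb

variable {S : Type*} [Group S] [Finite S] {P : Sylow 5 S}

theorem t0b_fix (B : Subgroup S) {r : S} (hr : r ∈ 𝐍[B]) (h3 : orderOf r = 3) :
    Nat.card B ≡ Nat.card ↥(B ⊓ Cz r) [MOD 3] := by
  haveI : Fact (Nat.Prime 3) := ⟨Nat.prime_three⟩
  have hle : zpowers r ≤ 𝐍[B] := zpowers_le.2 hr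
  letI : MulAction (zpowers r) B :=
    MulAction.compHom B (B.normalizerMonoidHom.comp (Subgroup.inclusion hle))
  have hp : IsPGroup 3 (zpowers r) := IsPGroup.of_card (n := 1) (by rw [Nat.card_zpowers, h3, pow_one])
  have h1 := hp.card_modEq_card_fixedPoints B
  have h2 : Nat.card (MulAction.fixedPoints (zpowers r) B) = Nat.card ↥(B ⊓ Cz r) := by
    refine Nat.card_congr ⟨fun x => ⟨x.1.1, x.1.2, ?_⟩, fun x => ⟨⟨x.1, x.2.1⟩, fun g => ?_⟩,
      fun _ => rfl, fun _ => rfl⟩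
    · have h4 : r * x.1.1 * r⁻¹ = x.1.1 := congrArg Subtype.val (x.2 ⟨r, mem_zpowers r⟩)
      exact mem_Cz.2 (mul_inv_eq_iff_eq_mul.1 h4).symm
    · refine Subtype.ext ?_
      change g.1 * x.1 * g.1⁻¹ = x.1
      obtain ⟨k, hk⟩ := mem_zpowers_iff.1 g.2
      rw [mul_inv_eq_iff_eq_mul, ← hk]
      exact ((mem_Cz.1 x.2.2).symm.zpow_left k).eq
  rwa [h2] at h1

/-- Fx ≡ 125 ≡ 2 mod 3 (`IsPGroup.card_modEq_card_fixedPoints` for zpowers r acting on P), so 5 or 125.  125: P ≤ Cz r, `g1`+`isSyl_fx` give Cz r ≤ 𝐍[P] of order 3000,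
but 9 ∣ |Cz r| (r lies in a Sylow 3-subgroup R of order 729; zpowers r ⊔ zpowers z for 1 ≠ z central of order 3, or R itself, or a subgroup of order 9 containing r). -/
theorem t0 (h : Hyp P) (t : TI P) {r : S} (hr : r ∈ 𝐍[(P : Subgroup S)]) (h3 : orderOf r = 3) : Fx P r = 5 := by
  haveI : Fact (Nat.Prime 3) := ⟨Nat.prime_three⟩
  have h1 := t0b_fix (P : Subgroup S) hr h3
  rw [h.cardP] at h1
  change 125 ≡ Fx P r [MOD 3] at h1
  unfold Nat.ModEq at h1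
  rcases fx_cases h r with e | e | e | e
  · omega
  · exact e
  · omega
  exfalso
  obtain ⟨a1, a2, a3⟩ := isSyl_fx h t (v := r) (by omega)
  have h4 := ((g1 h (Or.inr h3) a1 a3).1 e).trans a2
  have h5 := card_dvd_of_le h4
  rw [t.card] at h5
  obtain ⟨K, hK, hrK⟩ := Sylow.exists_subgroup_card_pow_succ (G := S) (p := 3) (n := 1)
    (by rw [h.card]; norm_num) (H := zpowers r) (by rw [Nat.card_zpowers, h3, pow_one])
  have hKc : K ≤ Cz r := fun k hk => mem_Cz.2 (congrArg Subtype.val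
    ((IsPGroup.isMulCommutative_of_card_eq_prime_sq (p := 3) hK).is_comm.comm ⟨k, hk⟩
      ⟨r, hrK (mem_zpowers r)⟩))
  have h6 := (card_dvd_of_le hKc).trans h5
  rw [hK] at h6
  omega

/-- r normalises ℓ = P ⊓ Cz z of order 5 and fixes ≡ 5 ≡ 2 mod 3 of its elements, so some a ≠ 1: `no30`. -/
theorem f2 (h : Hyp P) {z r : S} (h2 : orderOf z = 2) (hz5 : Fx P z = 5) (hr : r ∈ 𝐍[(P : Subgroup S)])
    (h3 : orderOf r = 3) (hc : Commute z r) : False := by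
  have hn : r ∈ 𝐍[(P : Subgroup S) ⊓ Cz z] := by
    rw [mem_normalizer_iff]
    intro a
    have e : a ∈ Cz z ↔ r * a * r⁻¹ ∈ Cz z := by
      rw [mem_Cz, mem_Cz]
      constructor
      · intro ha
        exact (hc.symm.mul_left ha).mul_left hc.symm.inv_left
      · intro ha
        have := (hc.symm.inv_left.mul_left ha).mul_left hc.symm
        simpa [mul_assoc] using this
    exact and_congr (mem_normalizer_iff.1 hr a) e
  have h1 := t0b_fix _ hn h3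
  have hz5' : Nat.card ↥((P : Subgroup S) ⊓ Cz z) = 5 := hz5
  rw [hz5'] at h1
  have hne : ((P : Subgroup S) ⊓ Cz z) ⊓ Cz r ≠ ⊥ := by
    intro e
    rw [e, card_bot] at h1
    exact absurd h1 (by decide)
  obtain ⟨⟨a, ha⟩, ha1⟩ := Subgroup.ne_bot_iff_exists_ne_one.1 hne
  exact h.no30 (mem_Cz.1 ha.1.2) (mem_Cz.1 ha.2) hc
    (h.ord5 ha.1.1 fun e => ha1 (Subtype.ext e)) h2 h3

/-- x = z r ∈ 𝐍[P]; modulo P (quotient of ↥𝐍[P], or by hand) x has order 6, x^6 ∈ P, x^30 = 1, order 6 or 30, so 6.  z' = x^3 ∈ z P has order 2 and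
P ⊓ Cz z' = P ⊓ Cz z (P abelian); r' = x^2 has order 3; `f2`. -/
theorem f2' (h : Hyp P) {z r : S} (hz : z ∈ 𝐍[(P : Subgroup S)]) (h2 : orderOf z = 2) (hz5 : Fx P z = 5)
    (hr : r ∈ 𝐍[(P : Subgroup S)]) (h3 : orderOf r = 3) (hc : z * r * z⁻¹ * r⁻¹ ∈ (P : Subgroup S)) : False := by
  set N := 𝐍[(P : Subgroup S)] with hN
  let π := QuotientGroup.mk' ((P : Subgroup S).subgroupOf N)
  have hker : ∀ g : N, π g = 1 ↔ (g : S) ∈ (P : Subgroup S) := fun g =>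
    (QuotientGroup.eq_one_iff g).trans mem_subgroupOf
  have hcm : Commute (π ⟨z, hz⟩) (π ⟨r, hr⟩) := by
    have := (hker (⟨z, hz⟩ * ⟨r, hr⟩ * ⟨z, hz⟩⁻¹ * ⟨r, hr⟩⁻¹)).2 hc
    simp only [map_mul, map_inv] at this
    rw [mul_inv_eq_one, mul_inv_eq_iff_eq_mul] at this
    exact this
  have hz2 : π ⟨z, hz⟩ ^ 2 = 1 := by
    rw [← map_pow, show (⟨z, hz⟩ : N) ^ 2 = 1 from Subtype.ext (by
      rw [SubgroupClass.coe_pow, ← h2]; exact pow_orderOf_eq_one z), map_one]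
  have hr3 : π ⟨r, hr⟩ ^ 3 = 1 := by
    rw [← map_pow, show (⟨r, hr⟩ : N) ^ 3 = 1 from Subtype.ext (by
      rw [SubgroupClass.coe_pow, ← h3]; exact pow_orderOf_eq_one r), map_one]
  have hpw : ∀ k : ℕ, π ((⟨z, hz⟩ * ⟨r, hr⟩) ^ k) = π ⟨z, hz⟩ ^ (k % 2) * π ⟨r, hr⟩ ^ (k % 3) := by
    intro k
    rw [map_pow, map_mul, hcm.mul_pow, ← pow_eq_pow_mod k hz2, ← pow_eq_pow_mod k hr3]
  have hco : ∀ k : ℕ, (((⟨z, hz⟩ * ⟨r, hr⟩ : N) ^ k : N) : S) = (z * r) ^ k := fun k => by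
    rw [SubgroupClass.coe_pow]; rfl
  have h6 : (z * r) ^ 6 ∈ (P : Subgroup S) := by
    rw [← hco, ← hker, hpw]; simp
  have h30 : orderOf (z * r) ∣ 30 := orderOf_dvd_of_pow_eq_one (by
    rw [show 30 = 6 * 5 by norm_num, pow_mul]; exact h.pow5 h6)
  have h15 : ¬ orderOf (z * r) ∣ 15 := fun e => by
    have e1 := hpw 15
    rw [show (⟨z, hz⟩ * ⟨r, hr⟩ : N) ^ 15 = 1 from
      Subtype.ext ((hco 15).trans (orderOf_dvd_iff_pow_eq_one.1 e)), map_one] at e1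
    have e2 : π ⟨z, hz⟩ = 1 := by simpa using e1.symm
    have e3 := orderOf_dvd_of_pow_eq_one (h.pow5 ((hker _).1 e2))
    change orderOf z ∣ 5 at e3
    rw [h2] at e3
    omega
  have h10 : ¬ orderOf (z * r) ∣ 10 := fun e => by
    have e1 := hpw 10
    rw [show (⟨z, hz⟩ * ⟨r, hr⟩ : N) ^ 10 = 1 from
      Subtype.ext ((hco 10).trans (orderOf_dvd_iff_pow_eq_one.1 e)), map_one] at e1
    have e2 : π ⟨r, hr⟩ = 1 := by simpa using e1.symm
    have e3 := orderOf_dvd_of_pow_eq_one (h.pow5 ((hker _).1 e2))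
    change orderOf r ∣ 5 at e3
    rw [h3] at e3
    omega
  have hx6 : orderOf (z * r) = 6 := by
    have e1 := h.ord (z * r)
    have e2 := Nat.le_of_dvd (by norm_num) h30
    generalize orderOf (z * r) = n at *
    interval_cases n <;> first | rfl | omega | exact absurd e1 (by decide)
  have hp : z⁻¹ * (z * r) ^ 3 ∈ (P : Subgroup S) := by
    have := (hker ((⟨z, hz⟩ : N)⁻¹ * (⟨z, hz⟩ * ⟨r, hr⟩) ^ 3)).1 (by
      rw [map_mul, map_inv, hpw]; simp)
    rwa [Subgroup.coe_mul, hco] at this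
  have heq : (P : Subgroup S) ⊓ Cz ((z * r) ^ 3) = (P : Subgroup S) ⊓ Cz z := by
    ext a
    simp only [mem_inf, mem_Cz]
    refine and_congr_right fun ha => ?_
    have e1 := h.commute ha hp
    constructor
    · intro e2
      have := e2.mul_right e1.inv_right
      simpa [mul_assoc] using this
    · intro e2
      have := e2.mul_right e1
      simpa [mul_assoc] using this
  refine f2 h (z := (z * r) ^ 3) (r := (z * r) ^ 2) ?_ ?_ (pow_mem (mul_mem hz hr) 2) ?_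
    ((Commute.refl _).pow_pow 3 2)
  · rw [orderOf_pow_of_dvd (by norm_num) (by rw [hx6]; norm_num), hx6]
  · change Nat.card ↥((P : Subgroup S) ⊓ Cz ((z * r) ^ 3)) = 5
    rw [heq]; exact hz5
  · rw [orderOf_pow_of_dvd (by norm_num) (by rw [hx6]; norm_num), hx6]

end Cfsg.Agent.MCA
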