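import Cfsg.Agent.MCA.T0b

/-!
MCA/T1.  P is self-centralising.
-/

set_option autoImplicit false

namespace Cfsg.Agent.MCA

open Subgroup Cfsg.Agent.PLocal.Amb

variable {S : Type*} [Group S] [Finite S] {P : Sylow 5 S}

theorem t1_mem {x : S} : x ∈ 𝐂[(P : Subgroup S)] ↔ ∀ a ∈ (P : Subgroup S), a * x = x * a := by
  rw [mem_centralizer_iff]; rfl

theorem t1_inf {x : S} (hx : x ∈ 𝐂[(P : Subgroup S)]) : (P : Subgroup S) ⊓ Cz x = P :=
  inf_eq_left.2 fun a ha => mem_Cz.2 (t1_mem.1 hx a ha)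

theorem t1_ex (h : Hyp P) : ∃ a ∈ (P : Subgroup S), a ≠ 1 := by
  by_contra c
  push Not at c
  have := h.cardP
  rw [(eq_bot_iff_forall _).2 c, card_bot] at this
  omega

theorem t1_no3 (h : Hyp P) (t : TI P) {x : S} (hx : x ∈ 𝐂[(P : Subgroup S)]) : orderOf x ≠ 3 := fun e => by
  have := t0 h t (centralizer_le_normalizer' _ hx) e
  unfold Fx at this
  rw [t1_inf hx, h.cardP] at this
  omega

theorem t1_pow (h : Hyp P) (t : TI P) {x : S} (hx : x ∈ 𝐂[(P : Subgroup S)]) : x ^ 10 = 1 := by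
  have key : ∀ n ≤ 18, Adm n → (n ∣ 10 ∨ n = 15 ∨ n = 3 ∨ (Nat.Coprime 5 n ∧ ¬ Adm (5 * n))) := by decide
  have h0 := h.ord x
  have h1 : orderOf x ≤ 18 := by
    rcases h0 with e | e | e | e | e | e | e <;> exact (Nat.le_of_dvd (by norm_num) e).trans (by norm_num)
  obtain ⟨a, ha, a1⟩ := t1_ex h
  rcases key _ h1 h0 with e | e | e | ⟨e1, e2⟩
  · exact orderOf_dvd_iff_pow_eq_one.1 e
  · refine absurd ?_ (t1_no3 h t (pow_mem hx 5))
    rw [orderOf_pow' _ (by norm_num), e]; norm_num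
  · exact absurd e (t1_no3 h t hx)
  · exact (h.no_comm (t1_mem.1 hx a ha) (h.ord5 ha a1) rfl e1 e2).elim

theorem t1_com (h : Hyp P) (t : TI P) {v w : S} (hv : v ∈ 𝐂[(P : Subgroup S)]) (hw : w ∈ 𝐂[(P : Subgroup S)])
    (v2 : v * v = 1) (w2 : w * w = 1) : v * w * (v * w) = 1 := by
  have hx := mul_mem hv hw
  have e10 := t1_pow h t hx
  have m : (v * w) ^ 2 ∈ (P : Subgroup S) :=
    mem_of_pow5 (centralizer_le_normalizer' _ (pow_mem hx 2)) (by rw [← pow_mul]; exact e10)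
  have c := t1_mem.1 hv _ m
  have vi : v⁻¹ = v := inv_eq_of_mul_eq_one_left v2
  have wi : w⁻¹ = w := inv_eq_of_mul_eq_one_left w2
  have e : v * (v * w) * v⁻¹ = (v * w)⁻¹ := by
    rw [← mul_assoc, v2, one_mul, mul_inv_rev, wi]
  have e2 : v * (v * w) ^ 2 * v⁻¹ = ((v * w) ^ 2)⁻¹ := by rw [← conj_pow, e, inv_pow]
  rw [← c, mul_inv_cancel_right, eq_inv_iff_mul_eq_one, ← pow_add] at e2
  rw [← sq]
  calc (v * w) ^ 2 = (v * w) ^ 10 * (((v * w) ^ (2 + 2)) ^ 2)⁻¹ := by group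
    _ = 1 := by rw [e10, e2]; simp

theorem t1_uq (h : Hyp P) (t : TI P) {v w : S} (hv : v ∈ 𝐂[(P : Subgroup S)]) (hw : w ∈ 𝐂[(P : Subgroup S)])
    (v2 : v * v = 1) (w2 : w * w = 1) (v1 : v ≠ 1) (w1 : w ≠ 1) : v = w := by
  let Y : Subgroup S :=
    { carrier := {x | x ∈ 𝐂[(P : Subgroup S)] ∧ x * x = 1}
      one_mem' := ⟨one_mem _, one_mul _⟩
      mul_mem' := fun ha hb => ⟨mul_mem ha.1 hb.1, t1_com h t ha.1 hb.1 ha.2 hb.2⟩
      inv_mem' := fun ha => ⟨inv_mem ha.1, by rw [← mul_inv_rev, ha.2, inv_one]⟩ }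
  obtain ⟨T, hT, YT⟩ := exists_isSyl_ge (p := 2) (R := Y) (L := 𝐍[(P : Subgroup S)])
    (isPGroup_iff.2 fun x hx => ⟨1, by rw [pow_one, sq]; exact hx.2⟩)
    (fun x hx => centralizer_le_normalizer' _ hx.1)
  obtain ⟨-, g, hg, gN⟩ := exists_g h t hT
  have inv : ∀ y ∈ Y, y ≠ 1 → ∀ a ∈ (P : Subgroup S), g * y * g⁻¹ * a * (g * y * g⁻¹)⁻¹ = a⁻¹ := by
    intro y hy y1 a ha
    have o2 : orderOf y = 2 := orderOf_eq_prime (by rw [sq]; exact hy.2) y1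
    have f : Fx P y = 125 := by unfold Fx; rw [t1_inf hy.1, h.cardP]
    obtain ⟨s1, s2, s3⟩ := isSyl_fx h t (v := y) (by omega)
    have c := ((g1 h (Or.inl o2) s1 s3).1 f).trans s2
    exact inv_of_fx1 h (hT.le (conj_mem_of_mem_normalizer hg (YT hy))) (by rw [orderOf_conj', o2])
      (conj0 h t c gN) ha
  by_contra c
  have vw : v * w ≠ 1 := fun e => c (by rw [← mul_one v, ← w2, ← mul_assoc, e, one_mul])
  obtain ⟨a, ha, a1⟩ := t1_ex h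
  have e1 := inv v ⟨hv, v2⟩ v1 _ (inv_mem ha)
  have e2 := inv w ⟨hw, w2⟩ w1 a ha
  have e3 := inv _ (Y.mul_mem ⟨hv, v2⟩ ⟨hw, w2⟩) vw a ha
  rw [show g * (v * w) * g⁻¹ * a * (g * (v * w) * g⁻¹)⁻¹ =
    g * v * g⁻¹ * (g * w * g⁻¹ * a * (g * w * g⁻¹)⁻¹) * (g * v * g⁻¹)⁻¹ by group, e2, e1, inv_inv,
    eq_inv_iff_mul_eq_one, ← sq, ← orderOf_dvd_iff_pow_eq_one, h.ord5 ha a1] at e3
  omega

/-- C = 𝐂[P], P ≤ C ≤ N = 𝐍[P], C normal in N.  3 ∤ |C| (`t0`).  If C ≠ P, 2 ∣ |C|; T Sylow 2 of N, Y = T ⊓ C ≠ ⊥ Sylow 2 in C, C = P ⊔ Y so C normalises Y,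
Y is the only Sylow 2 of C and N normalises Y.  Elements of Y have order ≤ 2 (`no20`).  g from `exists_g`.  For 1 ≠ v ∈ Y: Fx = 125, Cz v ≤ N (`g1`, `isSyl_fx`), so
v' = g v g⁻¹ ∈ T has Fx = 1 (`conj0`), inverts P (`inv_of_fx1`).  For two such v, w: v' w' centralises P, lies in Y, and is (v w)', so v w = 1.
So Y = {1, v}, v central in N; r ∈ N of order 3 (Cauchy), 1 ≠ b ∈ P ⊓ Cz r (`t0`): `no30`. -/
theorem t1 (h : Hyp P) (t : TI P) : 𝐂[(P : Subgroup S)] ≤ P := by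
  intro c hc
  by_contra cP
  have c5 : c ^ 5 ≠ 1 := fun e => cP (mem_of_pow5 (centralizer_le_normalizer' _ hc) e)
  have v2 : c ^ 5 * c ^ 5 = 1 := by rw [← pow_add]; exact t1_pow h t hc
  have hv := pow_mem hc 5
  generalize c ^ 5 = v at c5 v2 hv
  haveI : Fact (Nat.Prime 3) := ⟨by norm_num⟩
  obtain ⟨r, hr⟩ := exists_prime_orderOf_dvd_card' (G := 𝐍[(P : Subgroup S)]) 3 (by rw [t.card]; norm_num)
  have r3 : orderOf (r : S) = 3 := by rw [orderOf_coe, hr]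
  have f := t0 h t r.2 r3
  have e : (r : S) * v * (r : S)⁻¹ = v := t1_uq h t
    (conj_mem_of_mem_normalizer (normalizer_le_normalizer_centralizer _ r.2) hv) hv
    (by rw [show (r : S) * v * (r : S)⁻¹ * (r * v * (r : S)⁻¹) = r * (v * v) * (r : S)⁻¹ by group, v2]; simp) v2
    (fun e => c5 (conj_eq_one_iff.1 e)) c5
  obtain ⟨b, hb, b1⟩ : ∃ b ∈ (P : Subgroup S) ⊓ Cz (r : S), b ≠ 1 := by
    by_contra k
    push Not at k
    unfold Fx at f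
    rw [(eq_bot_iff_forall _).2 k, card_bot] at f
    omega
  exact h.no30 (t1_mem.1 hv b hb.1) (mem_Cz.1 hb.2) (mul_inv_eq_iff_eq_mul.1 e).symm (h.ord5 hb.1 b1)
    (orderOf_eq_prime (by rw [sq]; exact v2) c5) r3

end Cfsg.Agent.MCA
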