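import Cfsg.Agent.MCA.T1

/-!
MCA/T2.  Central involutions of a Sylow 2-subgroup of 𝐍[P] are not of type 25.
-/

set_option autoImplicit false

namespace Cfsg.Agent.MCA

open Subgroup Cfsg.Agent.PLocal.Amb

variable {S : Type*} [Group S] [Finite S] {P : Sylow 5 S}

/-- if the involution `w` inverts `P` then `𝐍[P] = P (𝐍[P] ⊓ Cz w)` -/
theorem t2_dec (h : Hyp P) (t : TI P) {w : S} (h2 : w * w = 1)
    (hi : ∀ a ∈ (P : Subgroup S), w * a * w⁻¹ = a⁻¹) {n : S} (hn : n ∈ 𝐍[(P : Subgroup S)]) :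
    ∃ q ∈ (P : Subgroup S), q⁻¹ * n ∈ Cz w := by
  have hu : n * w * n⁻¹ * w ∈ (P : Subgroup S) := t1 h t fun a ha => by
    have e1 := hi a ha
    have e2 := hi _ (inv_conj_mem_of_mem_normalizer hn (inv_mem ha))
    have : n * w * n⁻¹ * w * a * (n * w * n⁻¹ * w)⁻¹ = a :=
      calc _ = n * (w * (n⁻¹ * (w * a * w⁻¹) * n) * w⁻¹) * n⁻¹ := by group
        _ = a := by rw [e1, e2]; group
    exact (mul_inv_eq_iff_eq_mul.1 this).symm
  obtain ⟨u, e⟩ : ∃ u, n * w * n⁻¹ * w = u := ⟨_, rfl⟩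
  rw [e] at hu
  have e1 : u ^ 3 * u ^ 3 = u := by
    rw [← pow_add, show 3 + 3 = 5 + 1 by rfl, pow_succ, h.pow5 hu, one_mul]
  have e2 := hi _ (pow_mem hu 3)
  refine ⟨u ^ 3, pow_mem hu 3, mem_Cz.2 ?_⟩
  rw [← e1] at e
  generalize u ^ 3 = q at e e2
  show q⁻¹ * n * w = w * (q⁻¹ * n)
  calc q⁻¹ * n * w = q⁻¹ * (n * w * n⁻¹ * w) * w⁻¹ * n := by group
    _ = w * w * q * w⁻¹ * n := by rw [e, h2]; group
    _ = w * (w * q * w⁻¹ * n) := by group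
    _ = _ := by rw [e2]

theorem t2_three (h : Hyp P) (t : TI P) {w : S} (h2 : w * w = 1)
    (hi : ∀ a ∈ (P : Subgroup S), w * a * w⁻¹ = a⁻¹) (hb : ∀ a ∈ (P : Subgroup S), a ∈ Cz w → a = 1)
    {r : S} (hr : r ∈ 𝐍[(P : Subgroup S)]) (h3 : orderOf r = 3) :
    ∃ q ∈ (P : Subgroup S), q⁻¹ * r ∈ Cz w ∧ orderOf (q⁻¹ * r) = 3 := by
  obtain ⟨q, hq, hc⟩ := t2_dec h t h2 hi hr
  have r3 : r ^ 3 = 1 := h3 ▸ pow_orderOf_eq_one r
  haveI : Fact (Nat.Prime 3) := ⟨by norm_num⟩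
  refine ⟨q, hq, hc, orderOf_eq_prime (hb _ ?_ (pow_mem hc 3)) fun e => ?_⟩
  · rw [show (q⁻¹ * r) ^ 3 = q⁻¹ * (r * q⁻¹ * r⁻¹) * (r * (r * q⁻¹ * r⁻¹) * r⁻¹) * r ^ 3 by
      simp only [pow_succ, pow_zero]; group, r3, mul_one]
    have m := conj_mem_of_mem_normalizer hr (inv_mem hq)
    exact mul_mem (mul_mem (inv_mem hq) m) (conj_mem_of_mem_normalizer hr m)
  · rw [inv_mul_eq_one] at e
    have := orderOf_dvd_of_pow_eq_one (h.pow5 hq)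
    rw [e, h3] at this
    norm_num at this

/-- D = P ⊓ Cz v; `g1b` (T ≤ 𝐍[D] ⊓ Cz v) and `isSyl_fx`: Cz v ≤ N.  v' = g v g⁻¹ ∈ T (`exists_g`) is central in T and inverts P (`conj0`, `inv_of_fx1`).
For n ∈ N, n v' n⁻¹ v' centralises P so lies in P (`t1`), = q² with q ∈ P, and q⁻¹ n commutes with v': N = P K, K = N ⊓ Cz v', P ⊓ K = ⊥, |K| = 24.
So 3 ∣ |Cz v'| = |Cz v|: r₀ ∈ Cz v ≤ N of order 3, r₀ = q k; k v k⁻¹ v⁻¹ ∈ P ⊓ K = ⊥ (v ∈ K), k³ ∈ P ⊓ K, k ≠ 1: k has order 3 and commutes with v, v'.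
ℓ = P ⊓ Cz k has order 5 (`t0`), normalised by v: some 1 ≠ b ∈ ℓ is fixed or inverted by v (`inv_dec`, components stay in ℓ; or v b v⁻¹ b).
Fixed: `no30` b v k.  Inverted: v v' is an involution (v ≠ v', types differ) fixing b: `no30` b (v v') k. -/
theorem t2 (h : Hyp P) (t : TI P) {T : Subgroup S} (hT : IsSyl 2 T 𝐍[(P : Subgroup S)]) {v : S} (hv : v ∈ T)
    (h2 : orderOf v = 2) (hc : T ≤ Cz v) : Fx P v ≠ 25 := by
  intro h25
  haveI : Fact (Nat.Prime 2) := Nat.fact_prime_two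
  haveI : Fact (Nat.Prime 3) := ⟨by norm_num⟩
  obtain ⟨h8, g, hg, gN⟩ := exists_g h t hT
  obtain ⟨s1, s2, s3⟩ := isSyl_fx h t (v := v) (by rw [h25]; norm_num)
  have vN := hT.le hv
  have CN : Cz v ≤ 𝐍[(P : Subgroup S)] :=
    (g1b h (Or.inl h2) s1 s3 h25 (h8 ▸ card_dvd_of_le
      (le_inf (le_normalizer_inf hT.le (hc.trans le_normalizer)) hc))).trans s2
  have f1 := conj0 h t CN gN
  have wT : g * v * g⁻¹ ∈ T := conj_mem_of_mem_normalizer hg hv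
  have w2 : orderOf (g * v * g⁻¹) = 2 := (orderOf_conj' g v).trans h2
  have cw : ∀ x, x ∈ Cz (g * v * g⁻¹) ↔ g⁻¹ * x * g ∈ Cz v := fun x => by
    rw [Cz, centralizer_singleton_conj, mem_cj]
  have vw : v ∈ Cz (g * v * g⁻¹) := (cw v).2 (hc (inv_conj_mem_of_mem_normalizer hg hv))
  have back : ∀ x ∈ Cz (g * v * g⁻¹), orderOf x = 3 → ∃ y ∈ Cz v, orderOf y = 3 := fun x hx x3 =>
    ⟨_, (cw x).1 hx, by
      have := orderOf_conj' g⁻¹ x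
      rwa [inv_inv, x3] at this⟩
  generalize g * v * g⁻¹ = w at f1 wT w2 vw back
  have ww : w * w = 1 := by rw [← pow_two, ← w2, pow_orderOf_eq_one]
  have vv : v * v = 1 := by rw [← pow_two, ← h2, pow_orderOf_eq_one]
  have hi : ∀ a ∈ (P : Subgroup S), w * a * w⁻¹ = a⁻¹ := fun a ha =>
    inv_of_fx1 h (hT.le wT) w2 f1 ha
  have hb : ∀ a ∈ (P : Subgroup S), a ∈ Cz w → a = 1 := fun a ha hc =>
    mem_bot.1 ((card_eq_one.1 f1).le ⟨ha, hc⟩)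
  obtain ⟨r, hr⟩ := exists_prime_orderOf_dvd_card' (G := 𝐍[(P : Subgroup S)]) 3
    (by rw [t.card]; norm_num)
  obtain ⟨q₀, -, a1, a2⟩ := t2_three h t ww hi hb r.2 ((Subgroup.orderOf_coe r).trans hr)
  obtain ⟨r₀, b1, b2⟩ := back _ a1 a2
  obtain ⟨q, hq, kw, k3⟩ := t2_three h t ww hi hb (CN b1) b2
  have kN : q⁻¹ * r₀ ∈ 𝐍[(P : Subgroup S)] := mul_mem (inv_mem (le_normalizer hq)) (CN b1)
  have kv : Commute v (q⁻¹ * r₀) := by
    have e := hb (q⁻¹ * r₀ * v * (q⁻¹ * r₀)⁻¹ * v⁻¹) (by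
      rw [show q⁻¹ * r₀ * v * (q⁻¹ * r₀)⁻¹ * v⁻¹ = q⁻¹ * (r₀ * v) * r₀⁻¹ * q * v⁻¹ by group,
        (mem_Cz.1 b1).eq, show q⁻¹ * (v * r₀) * r₀⁻¹ * q * v⁻¹ = q⁻¹ * (v * q * v⁻¹) by group]
      exact mul_mem (inv_mem hq) (conj_mem_of_mem_normalizer vN hq))
      (mul_mem (mul_mem (mul_mem kw vw) (inv_mem kw)) (inv_mem vw))
    rw [mul_inv_eq_one, mul_inv_eq_iff_eq_mul] at e
    exact e.symm
  generalize q⁻¹ * r₀ = k at kw k3 kN kv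
  have f5 := t0 h t kN k3
  obtain ⟨a, ha, a1⟩ := ((P : Subgroup S) ⊓ Cz k).bot_or_exists_ne_one.resolve_left fun e => by
    rw [Fx, e, card_bot] at f5
    norm_num at f5
  have m1 := conj_mem_of_mem_normalizer vN ha.1
  have vk : v ∈ Cz k := mem_Cz.2 kv
  by_cases c : a * (v * a * v⁻¹) = 1
  · refine h.no30 (a := a) (v := v * w) (r := k) ?_ (mem_Cz.1 ha.2) (kv.mul_left (mem_Cz.1 kw).symm)
      (h.ord5 ha.1 a1) (orderOf_eq_prime ?_ fun e => ?_) k3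
    · have : v * w * a * (v * w)⁻¹ = a :=
        calc _ = v * (w * a * w⁻¹) * v⁻¹ := by group
          _ = (a * (v * a * v⁻¹))⁻¹ * a := by rw [hi a ha.1]; group
          _ = a := by rw [c, inv_one, one_mul]
      exact (mul_inv_eq_iff_eq_mul.1 this).symm
    · rw [(mem_Cz.1 vw).mul_pow, pow_two, pow_two, vv, ww, one_mul]
    · rw [← mul_left_cancel (vv.trans e.symm), h25] at f1
      norm_num at f1
  · refine h.no30 (a := a * (v * a * v⁻¹)) (v := v) (r := k) ?_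
      (mem_Cz.1 (mul_mem ha.2 (mul_mem (mul_mem vk ha.2) (inv_mem vk)))) kv
      (h.ord5 (mul_mem ha.1 m1) c) h2 k3
    have : v * (a * (v * a * v⁻¹)) * v⁻¹ = a * (v * a * v⁻¹) :=
      calc _ = v * a * v⁻¹ * (v * v * a * (v * v)⁻¹) := by group
        _ = _ := by rw [vv, inv_one, one_mul, mul_one, (h.commute ha.1 m1).eq]
    exact (mul_inv_eq_iff_eq_mul.1 this).symm

end Cfsg.Agent.MCA
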