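import Cfsg.Agent.MCA.T2

/-!
MCA/T3.  A central involution of type 5.
-/

set_option autoImplicit false

namespace Cfsg.Agent.MCA

open Subgroup Cfsg.Agent.PLocal.Amb

variable {S : Type*} [Group S] [Finite S] {P : Sylow 5 S}

/-- |T| = 8.  Central involutions have Fx ∈ {1,5} (`t2`; 125 contradicts `t1`, P ⊓ T = ⊥).  Suppose all have Fx = 1: they invert P, the product of two centralises P, so
there is exactly one, z.  T does not act freely on the 124 elements a ≠ 1 of P (8 ∤ 124): some 1 ≠ u ∈ T fixes some a ≠ 1; u has order 2 (`no20`, 40), Fx u ≠ 1, so u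
is not central: s u s⁻¹ ≠ u, s ∈ T.  T/Z(T) has order ≤ 4, abelian, so s u s⁻¹ = u c with c central, c² = 1, c = z.  But Fx (s u s⁻¹) = Fx u while
Fx u · Fx (u z) = 125 is not a square (P ⊓ Cz (u z) = elements inverted by u, `inv_dec`). -/
theorem t3 (h : Hyp P) (t : TI P) {T : Subgroup S} (hT : IsSyl 2 T 𝐍[(P : Subgroup S)]) :
    ∃ z ∈ T, orderOf z = 2 ∧ T ≤ Cz z ∧ Fx P z = 5 := by
  classical
  have := Fact.mk Nat.prime_two
  have c8 := (exists_g h t hT).1
  have cP : ∀ v ∈ T, (P : Subgroup S) ≤ Cz v → v = 1 := fun v hv c => orderOf_eq_one_iff.1 (Nat.eq_one_of_dvd_coprimes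
    (show Nat.Coprime 8 125 by norm_num) (c8 ▸ T.orderOf_dvd_natCard hv) (h.cardP ▸ (P : Subgroup S).orderOf_dvd_natCard
      (t1 h t fun a ha => (mem_Cz.1 (c ha)).eq)))
  have : Nontrivial T := Finite.one_lt_card_iff_nontrivial.1 (by omega)
  have := hT.pgrp.center_nontrivial
  obtain ⟨n, hn, e⟩ := (hT.pgrp.to_subgroup (center T)).nontrivial_iff_card.1 inferInstance
  obtain ⟨⟨z, hz⟩, z2⟩ := exists_prime_orderOf_dvd_card' (G := center T) 2 (e ▸ dvd_pow_self 2 hn.ne')
  rw [← orderOf_coe] at z2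
  replace z2 : orderOf z = 2 := z2
  have cen : ∀ v ∈ T, orderOf v = 2 → T ≤ Cz v → Fx P v = 5 ∨ Fx P v = 1 := fun v hv v2 c => by
    rcases fx_cases h v with k | k | k | k
    · exact Or.inr k
    · exact Or.inl k
    · exact absurd k (t2 h t hT hv v2 c)
    · rw [cP v hv (inf_eq_left.1 (eq_of_le_of_card_ge inf_le_left (h.cardP.trans k.symm).le)), orderOf_one] at v2
      omega
  by_contra hc
  push Not at hc
  replace cen : ∀ v ∈ T, orderOf v = 2 → T ≤ Cz v → Fx P v = 1 := fun v hv v2 c =>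
    (cen v hv v2 c).resolve_left (hc v hv v2 c)
  have zc : T ≤ Cz (z : S) := fun x hx => mem_Cz.2 (congrArg Subtype.val (mem_center_iff.1 hz ⟨x, hx⟩))
  have z2' : orderOf (z : S) = 2 := (orderOf_coe z).trans z2
  have z1 := cen z z.2 z2' zc
  obtain ⟨u, u1, a, a1, ua⟩ : ∃ u : T, u ≠ 1 ∧ ∃ a : (P : Subgroup S), a ≠ 1 ∧ Commute (a : S) u := by
    by_contra! k
    let _ := MulAction.compHom (P : Subgroup S) ((P : Subgroup S).normalizerMonoidHom.comp (inclusion hT.le))
    have := Fintype.ofFinite T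
    have := Fintype.ofFinite (MulAction.orbitRel.Quotient T (P : Subgroup S))
    have := fun g : T => Fintype.ofFinite (MulAction.fixedBy (P : Subgroup S) g)
    have b := MulAction.sum_card_fixedBy_eq_card_orbits_mul_card_group T (P : Subgroup S)
    have b1 : ∀ g ∈ Finset.univ.erase (1 : T), Fintype.card (MulAction.fixedBy (P : Subgroup S) g) = 1 := fun g hg => by
      have : MulAction.fixedBy (P : Subgroup S) g = {1} := Set.eq_singleton_iff_unique_mem.2
        ⟨Subtype.ext (show (g : S) * 1 * (g : S)⁻¹ = 1 by simp), fun x hx => by_contra fun x1 =>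
          k g (Finset.ne_of_mem_erase hg) x x1 (mul_inv_eq_iff_eq_mul.1 (congrArg Subtype.val hx)).symm⟩
      rw [← Nat.card_eq_fintype_card, this, Nat.card_unique]
    rw [← Finset.add_sum_erase _ _ (Finset.mem_univ 1), Finset.sum_congr rfl b1, ← Nat.card_eq_fintype_card,
      MulAction.fixedBy_one_eq_univ, Nat.card_congr (Equiv.Set.univ _), h.cardP, Finset.sum_const,
      Finset.card_erase_of_mem (Finset.mem_univ _), Finset.card_univ, ← Nat.card_eq_fintype_card (α := T), c8] at b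
    simp only [smul_eq_mul] at b
    omega
  have a5 := h.ord5 a.2 fun e => a1 (Subtype.ext e)
  have u2 : orderOf (u : S) = 2 := by
    have k : orderOf (u : S) ∈ Nat.divisors 8 := Nat.mem_divisors.2 ⟨c8 ▸ T.orderOf_dvd_natCard u.2, by norm_num⟩
    rw [show Nat.divisors 8 = {1, 2, 4, 8} by decide] at k
    simp only [Finset.mem_insert, Finset.mem_singleton] at k
    rcases k with k | k | k | k
    · exact absurd (Subtype.ext (orderOf_eq_one_iff.1 k)) u1
    · exact k
    · exact (h.no20 ua a5 k).elim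
    · exact (h.no_comm ua a5 k (by norm_num) (by decide)).elim
  obtain ⟨s, hs, su⟩ : ∃ s ∈ T, s ∉ Cz (u : S) := by
    by_contra! k
    exact a1 (Subtype.ext ((card_eq_one.1 (cen u u.2 u2 k)).le (mem_inf.2 ⟨a.2, mem_Cz.2 ua⟩)))
  have nz : (zpowers z).Normal := ⟨fun x hx g => by
    rwa [mem_center_iff.1 (zpowers_le.2 hz hx) g, mul_inv_cancel_right]⟩
  have q4 : Nat.card (T ⧸ zpowers z) = 2 ^ 2 := by
    have := (zpowers z).card_eq_card_quotient_mul_card_subgroup
    rw [c8, Nat.card_zpowers, z2] at this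
    omega
  have k : (⟨s, hs⟩ * u * ⟨s, hs⟩⁻¹ * u⁻¹ : T) ∈ zpowers z := by
    rw [← QuotientGroup.eq_one_iff, QuotientGroup.mk_mul, QuotientGroup.mk_mul, QuotientGroup.mk_mul,
      QuotientGroup.mk_inv, QuotientGroup.mk_inv,
      (IsPGroup.isMulCommutative_of_card_eq_prime_sq q4).is_comm.comm (_ : T ⧸ zpowers z) u]
    simp
  rw [mem_zpowers_iff_mem_range_orderOf, z2, Finset.mem_image] at k
  obtain ⟨i, hi, k⟩ := k
  replace k : (z : S) ^ i * u = s * u * s⁻¹ := mul_eq_of_eq_mul_inv (congrArg Subtype.val k)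
  obtain rfl : i = 1 := by
    rcases i with _ | i
    · exact (su (mem_Cz.2 (mul_inv_eq_iff_eq_mul.1 (by simpa using k.symm)))).elim
    · have := Finset.mem_range.1 hi
      omega
  rw [pow_one] at k
  have e1 : (P : Subgroup S) ⊓ Cz (z * u : S) = cj(s, (P : Subgroup S) ⊓ Cz (u : S)) := by
    ext x
    rw [mem_cj, mem_inf, mem_inf, k, mem_Cz, mem_Cz, mem_normalizer_iff''.1 (hT.le hs) x]
    refine and_congr_right fun _ => ⟨fun c => ?_, fun c => ?_⟩
    · simpa [mul_assoc] using c.map (MulAut.conj s⁻¹)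
    · simpa [mul_assoc] using c.map (MulAut.conj s)
  have e2 : Fx P u * Fx P (z * u) = 125 := by
    rw [← h.cardP, ← Nat.card_prod]
    refine Nat.card_congr (Equiv.ofBijective (fun p => ⟨p.1 * p.2, mul_mem p.1.2.1 p.2.2.1⟩) ⟨?_, fun x => ?_⟩)
    · rintro ⟨b, c⟩ ⟨b', c'⟩ e
      replace e : (b' : S)⁻¹ * b = c' * (c : S)⁻¹ := by
        rw [eq_mul_inv_iff_mul_eq, mul_assoc, inv_mul_eq_iff_eq_mul]
        exact congrArg Subtype.val e
      have m := mul_mem (inv_mem b'.2) b.2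
      have m' := e ▸ mul_mem c'.2 (inv_mem c.2)
      have m1 : (b' : S)⁻¹ * b = 1 := (card_eq_one.1 z1).le (mem_inf.2 ⟨m.1, mem_Cz.2 (by
        simpa using (mem_Cz.1 m'.2).mul_right (mem_Cz.1 m.2).inv_right)⟩)
      exact Prod.ext (Subtype.ext (inv_mul_eq_one.1 m1).symm) (Subtype.ext (mul_inv_eq_one.1 (e ▸ m1)).symm)
    · obtain ⟨b, hb, c, hc, e, k1, k2⟩ := inv_dec h (hT.le u.2) u2 x.2
      refine ⟨(⟨b, hb, mem_Cz.2 k1⟩, ⟨c, hc, mem_Cz.2 (mul_inv_eq_iff_eq_mul.1 ?_).symm⟩), Subtype.ext e.symm⟩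
      have := inv_of_fx1 h (hT.le z.2) z2' z1 (inv_mem hc)
      rw [inv_inv, ← k2] at this
      rw [← this]
      conv_lhs => rw [this]
      group
  rw [Fx, Fx, e1, card_cj] at e2
  rcases fx_cases h u with k | k | k | k <;> rw [Fx] at k <;> rw [k] at e2 <;> omega

end Cfsg.Agent.MCA
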