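import Cfsg.Agent.MCA.T0b

/-!
MCA/T4a.  No element of order 8 with fourth power of type 5.
-/

set_option autoImplicit false

namespace Cfsg.Agent.MCA

open Subgroup Cfsg.Agent.PLocal.Amb

variable {S : Type*} [Group S] [Finite S] {P : Sylow 5 S}

theorem t4a_24 {H : Type*} [Group H] [Finite H] (hc : Nat.card H = 24) {s : H}
    (h8 : orderOf s = 8) : ∃ r : H, orderOf r = 3 ∧ s ^ 4 * r * (s ^ 4)⁻¹ = r := by
  have : Fact (Nat.Prime 2) := ⟨Nat.prime_two⟩
  have : Fact (Nat.Prime 3) := ⟨Nat.prime_three⟩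
  have hf : Nat.factorization (Nat.card H) 2 = 3 := by
    rw [hc, show (24 : ℕ) = 2 ^ 3 * 3 by norm_num,
      Nat.factorization_mul (by norm_num) (by norm_num), Finsupp.add_apply,
      Nat.factorization_eq_zero_of_not_dvd (n := 3) (by norm_num),
      Nat.Prime.factorization_pow (by norm_num)]
    simp
  have hz : Nat.card (zpowers s) = 8 := by rw [Nat.card_zpowers, h8]
  let T : Sylow 2 H := Sylow.ofCard (zpowers s) (by rw [hz, hf]; norm_num)
  have hT : IsCyclic T := inferInstanceAs (IsCyclic (zpowers s))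
  have hm : (Nat.card H).minFac = 2 := by rw [hc]; norm_num
  have hcomp := IsCyclic.isComplement' hm hT
  set M := (MonoidHom.transferSylow T (hT.normalizer_le_centralizer hm)).ker with hM
  have hM3 : Nat.card M = 3 := by
    have h1 := hcomp.card_mul_card
    have h2 : Nat.card (T : Subgroup H) = 8 := hz
    rw [h2, hc] at h1
    omega
  have hcyc : IsCyclic M := isCyclic_of_prime_card hM3
  obtain ⟨r, hr⟩ := exists_prime_orderOf_dvd_card' (G := M) 3 (by rw [hM3])
  have ha : Nat.card (MulAut M) = 2 := by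
    rw [IsCyclic.card_mulAut, hM3]; decide
  have h1 : (MulAut.conjNormal s : MulAut M) ^ 2 = 1 := by
    have h0 : (MulAut.conjNormal s : MulAut M) ^ Nat.card (MulAut M) = 1 := pow_card_eq_one'
    rwa [ha] at h0
  have h2 : (MulAut.conjNormal (s ^ 4) : MulAut M) = 1 := by
    rw [map_pow, show 4 = 2 * 2 by norm_num, pow_mul, h1, one_pow]
  refine ⟨r, by rw [orderOf_coe, hr], ?_⟩
  have h3 := congrArg (fun φ : MulAut M => ((φ r : M) : H)) h2
  exact (MulAut.conjNormal_apply (s ^ 4) r).symm.trans h3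

/-- zpowers s is a cyclic Sylow 2-subgroup of ↥N (|N| = 3000), so N has a normal 2-complement M of order 375 (`IsCyclic.isComplement'`), P ≤ M; r ∈ M of order 3,
M = P ⊔ zpowers r.  In N/P: s r s⁻¹ ≡ r or r⁻¹, so s² and s⁴ commute with r modulo P: `f2'`. -/
theorem t4a (h : Hyp P) (t : TI P) {s : S} (hs : s ∈ 𝐍[(P : Subgroup S)]) (h8 : orderOf s = 8)
    (h5 : Fx P (s ^ 4) = 5) : False := by
  have hz2 : orderOf (s ^ 4) = 2 := by rw [orderOf_pow' s (by norm_num), h8]; norm_num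
  let N : Subgroup S := 𝐍[(P : Subgroup S)]
  let Q : Subgroup N := (P : Subgroup S).subgroupOf N
  have hQ : Q.Normal := normal_in_normalizer
  have hQc : Nat.card Q = 125 := by
    rw [← h.cardP]
    exact Nat.card_congr (subgroupOfEquivOfLe le_normalizer).toEquiv
  have hc : Nat.card (N ⧸ Q) = 24 := by
    have h1 := card_eq_card_quotient_mul_card_subgroup Q
    have h2 : Nat.card N = 3000 := t.card
    rw [h2, hQc] at h1
    omega
  let f : N →* N ⧸ Q := QuotientGroup.mk' Q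
  have hf : ∀ x : N, f x = 1 ↔ (x : S) ∈ (P : Subgroup S) := fun x =>
    QuotientGroup.eq_one_iff x
  have : Fact (Nat.Prime 2) := ⟨Nat.prime_two⟩
  have : Fact (Nat.Prime 3) := ⟨Nat.prime_three⟩
  have hs8 : orderOf (f ⟨s, hs⟩) = 2 ^ (2 + 1) := by
    refine orderOf_eq_prime_pow ?_ ?_
    · rw [← map_pow, hf]
      intro hh
      have h1 : s ^ 4 ∈ (P : Subgroup S) := hh
      have h2 := orderOf_dvd_of_pow_eq_one (h.pow5 h1)
      rw [hz2] at h2
      norm_num at h2
    · rw [← map_pow, hf]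
      show s ^ 8 ∈ (P : Subgroup S)
      rw [← h8, pow_orderOf_eq_one]
      exact one_mem _
  obtain ⟨r, hr3, hr⟩ := t4a_24 hc hs8
  obtain ⟨x, rfl⟩ := QuotientGroup.mk'_surjective Q r
  change orderOf (f x) = 3 at hr3
  change f ⟨s, hs⟩ ^ 4 * f x * (f ⟨s, hs⟩ ^ 4)⁻¹ = f x at hr
  have h3 : f x ^ 3 = 1 := by rw [← hr3]; exact pow_orderOf_eq_one _
  have h10 : f (x ^ 10) = f x := by
    rw [map_pow, show 10 = 3 * 3 + 1 by norm_num, pow_succ, pow_mul, h3, one_pow, one_mul]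
  have hx3 : ((x : S) ^ 3) ^ 5 = 1 := h.pow5 ((hf (x ^ 3)).1 (by rw [map_pow, h3]))
  refine f2' h (pow_mem hs 4) hz2 h5 (r := (x : S) ^ 10) (pow_mem x.2 10) ?_ ?_
  · refine orderOf_eq_prime ?_ fun e => ?_
    · rw [← pow_mul, show 10 * 3 = 3 * 5 * 2 by norm_num, pow_mul, pow_mul, hx3, one_pow]
    · have h1 : x ^ 10 = 1 := Subtype.ext e
      rw [h1, map_one] at h10
      rw [← h10, orderOf_one] at hr3
      norm_num at hr3
  · refine (hf (⟨s, hs⟩ ^ 4 * x ^ 10 * (⟨s, hs⟩ ^ 4)⁻¹ * (x ^ 10)⁻¹)).1 ?_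
    rw [map_mul, map_mul, map_mul, map_inv, map_inv, h10, map_pow, hr, mul_inv_cancel]

end Cfsg.Agent.MCA
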