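import Cfsg.Agent.MCA.T2
import Cfsg.Agent.MCA.T4a

/-!
MCA/T4.  The fixed line of z has centraliser in T larger than ⟨z⟩.
-/

set_option autoImplicit false

namespace Cfsg.Agent.MCA

open Subgroup Cfsg.Agent.PLocal.Amb

variable {S : Type*} [Group S] [Finite S] {P : Sylow 5 S}

/-- ℓ = P ⊓ Cz z = zpowers a₀, normalised by T.  T → Aut ℓ (cyclic of order 4) has kernel {1,z}, |T| = 8: some s ∈ T has s a₀ s⁻¹ = a₀², T = ⟨s,z⟩ is abelian,
w = s² inverts a₀, s⁴ ∈ {1,z}.  s⁴ = z: `t4a`.  s⁴ = 1: w and w z are central involutions, Fx ∈ {1,5} (`t2`, `t1`).  Fx w = 1: w inverts P, so w z fixes every c inverted by z;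
these form a subgroup of order 25 (`inv_dec`; or: P ⊓ Cz (w z) of order ≤ 5 together with ℓ generates P), false.  Fx w = 5: m = P ⊓ Cz w = zpowers b, normalised by s and z;
s b s⁻¹ = b^{±1} (s² fixes b), not b (`no20`); z b z⁻¹ = b^{±1}, not b (else b ∈ ℓ is inverted by w); so s z, of order 4, fixes b: `no20`. -/
theorem t4 (h : Hyp P) (t : TI P) {T : Subgroup S} (hT : IsSyl 2 T 𝐍[(P : Subgroup S)]) {z : S} (hz : z ∈ T)
    (h2 : orderOf z = 2) (hc : T ≤ Cz z) (h5 : Fx P z = 5)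
    (hU : ∀ u ∈ T, u ∈ 𝐂[(P : Subgroup S) ⊓ Cz z] → u = 1 ∨ u = z) : False := by
  obtain ⟨c8, -⟩ := exists_g h t hT
  have nP : ∀ u ∈ T, ∀ x ∈ (P : Subgroup S), u * x * u⁻¹ ∈ (P : Subgroup S) := fun u hu x hx =>
    conj_mem_of_mem_normalizer (hT.le hu) hx
  have zz : z * z = 1 := by rw [← pow_two, ← h2, pow_orderOf_eq_one]
  have cz : ∀ u ∈ T, Commute u z := fun u hu => mem_Cz.1 (hc hu)
  obtain ⟨a, haℓ, a1⟩ : ∃ a ∈ (P : Subgroup S) ⊓ Cz z, a ≠ 1 := by
    by_contra! k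
    have : (P : Subgroup S) ⊓ Cz z = ⊥ := (eq_bot_iff_forall _).2 k
    rw [Fx, this, card_bot] at h5
    omega
  have o5 := h.ord5 haℓ.1 a1
  have a5 := h.pow5 haℓ.1
  have eℓ : zpowers a = (P : Subgroup S) ⊓ Cz z :=
    eq_of_le_of_card_ge (zpowers_le.2 haℓ) (by rw [Nat.card_zpowers, o5]; exact h5.le)
  have pw : ∀ x ∈ (P : Subgroup S) ⊓ Cz z, ∃ i < 5, x = a ^ i := fun x hx => by
    rw [← eℓ, ← mem_powers_iff_mem_zpowers] at hx
    obtain ⟨n, rfl⟩ := hx
    exact ⟨n % 5, Nat.mod_lt _ (by norm_num), by rw [← o5, pow_mod_orderOf]⟩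
  have act : ∀ u ∈ T, ∃ i < 5, u * a * u⁻¹ = a ^ i := fun u hu => pw _ ⟨nP u hu a haℓ.1,
    (Cz z).mul_mem ((Cz z).mul_mem (hc hu) haℓ.2) ((Cz z).inv_mem (hc hu))⟩
  have ker : ∀ u ∈ T, u * a * u⁻¹ = a → u = 1 ∨ u = z := fun u hu e => hU u hu (by
    rw [← eℓ, mem_centralizer_iff]
    rintro _ ⟨n, rfl⟩
    exact ((show Commute u a from mul_inv_eq_iff_eq_mul.1 e).zpow_right n).eq.symm)
  have i4 : a ^ 4 = a⁻¹ := eq_inv_of_mul_eq_one_left (by rw [← pow_succ, a5])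
  obtain ⟨s, hs, j, ej, j4⟩ : ∃ s ∈ T, ∃ j : ℕ, s * a * s⁻¹ = a ^ j ∧ (a ^ j) ^ j = a⁻¹ := by
    by_contra! k
    have k1 : ∀ u ∈ T, u * a * u⁻¹ = a ∨ u * a * u⁻¹ = a⁻¹ := fun u hu => by
      obtain ⟨i, hi, e⟩ := act u hu
      interval_cases i
      · exact absurd (by simpa using e) a1
      · exact .inl (by simpa using e)
      · exact absurd (by rw [← pow_mul, i4]) (k u hu 2 e)
      · exact absurd (by rw [← pow_mul, show 3 * 3 = 5 + 4 by rfl, pow_add, a5, one_mul, i4]) (k u hu 3 e)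
      · exact .inr (e.trans i4)
    obtain ⟨v, hv, k2⟩ : ∃ v ∈ T, ∀ u ∈ T, u * a * u⁻¹ = a ∨ u * a * u⁻¹ = v * a * v⁻¹ := by
      by_cases c : ∃ v ∈ T, v * a * v⁻¹ = a⁻¹
      · obtain ⟨v, hv, e⟩ := c
        exact ⟨v, hv, fun u hu => e ▸ k1 u hu⟩
      · exact ⟨1, one_mem _, fun u hu => (k1 u hu).imp_right fun e => absurd ⟨u, hu, e⟩ c⟩
    have sub : (T : Set S) ⊆ {1, z, v, v * z} := fun u hu => by
      rcases k2 u hu with e | e
      · rcases ker u hu e with rfl | rfl <;> simp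
      · rcases ker (v⁻¹ * u) (mul_mem (inv_mem hv) hu) (by
          rw [show v⁻¹ * u * a * (v⁻¹ * u)⁻¹ = v⁻¹ * (u * a * u⁻¹) * v by group, e]; group) with e' | e'
        · rw [inv_mul_eq_one] at e'
          simp [← e']
        · rw [inv_mul_eq_iff_eq_mul] at e'
          simp [e']
    have := (Set.ncard_le_ncard sub (Set.toFinite _)).trans (Set.ncard_insert_le _ _ |>.trans
      (Nat.succ_le_succ (Set.ncard_insert_le _ _ |>.trans (Nat.succ_le_succ (Set.ncard_insert_le _ _)))))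
    rw [Set.ncard_singleton, ← Nat.card_coe_set_eq] at this
    change Nat.card T ≤ _ at this
    omega
  have hw : s * s ∈ T := mul_mem hs hs
  have wa : s * s * a * (s * s)⁻¹ = a⁻¹ := by
    rw [show s * s * a * (s * s)⁻¹ = s * (s * a * s⁻¹) * s⁻¹ by group, ej, ← conj_pow, ej, j4]
  have na : a ≠ a⁻¹ := fun e => by
    have : a ^ 2 = 1 := by rw [pow_two]; exact mul_eq_one_iff_eq_inv.2 e
    have := orderOf_dvd_of_pow_eq_one this
    rw [o5] at this
    omega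
  have cw : ∀ u ∈ T, Commute u (s * s) := fun u hu => by
    obtain ⟨i, -, e⟩ := act u hu
    have e1 : u * s * a * (u * s)⁻¹ = s * u * a * (s * u)⁻¹ := by
      rw [show u * s * a * (u * s)⁻¹ = u * (s * a * s⁻¹) * u⁻¹ by group,
        show s * u * a * (s * u)⁻¹ = s * (u * a * u⁻¹) * s⁻¹ by group, ej, e, ← conj_pow, ← conj_pow, ej, e,
        ← pow_mul, ← pow_mul, mul_comm]
    rcases ker ((s * u)⁻¹ * (u * s)) (mul_mem (inv_mem (mul_mem hs hu)) (mul_mem hu hs)) (by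
      rw [show (s * u)⁻¹ * (u * s) * a * ((s * u)⁻¹ * (u * s))⁻¹ =
        (s * u)⁻¹ * (u * s * a * (u * s)⁻¹) * (s * u) by group, e1]; group) with e' | e'
    · rw [inv_mul_eq_one] at e'
      exact (show Commute u s from e'.symm).mul_right e'.symm
    · rw [inv_mul_eq_iff_eq_mul] at e'
      calc u * (s * s) = u * s * s := by group
        _ = s * u * (z * s) := by rw [e']; group
        _ = s * (u * s) * z := by rw [← (cz s hs).eq]; group
        _ = s * s * u * (z * z) := by rw [e']; group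
        _ = s * s * u := by rw [zz, mul_one]
  have w1 : s * s ≠ 1 := fun e => na (by rw [← wa, e]; group)
  have := Fact.mk Nat.prime_two
  rcases ker (s * s * (s * s)) (mul_mem hw hw) (by
    rw [show s * s * (s * s) * a * (s * s * (s * s))⁻¹ = s * s * (s * s * a * (s * s)⁻¹) * (s * s)⁻¹ by group,
      wa, ← conj_inv, wa, inv_inv]) with e4 | e4
  swap
  · have e : s ^ 4 = z := by rw [← e4, show 4 = 2 * 2 by rfl, pow_mul, pow_two, pow_two]
    refine t4a h t (hT.le hs) (orderOf_eq_prime_pow (p := 2) (n := 2) (fun c => ?_) ?_) (e ▸ h5)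
    · rw [show 2 ^ 2 = 4 by rfl, e] at c
      rw [c, orderOf_one] at h2
      omega
    · rw [show 2 ^ (2 + 1) = 4 * 2 by rfl, pow_mul, e, pow_two, zz]
  have o4 : ∀ x : S, x * x = s * s → orderOf x = 4 := fun x e =>
    orderOf_eq_prime_pow (p := 2) (n := 1) (by rw [pow_one, pow_two, e]; exact w1)
      (by rw [show 2 ^ (1 + 1) = 2 * 2 by rfl, pow_mul, pow_two, pow_two, e, e4])
  have ow : orderOf (s * s) = 2 := orderOf_eq_prime (by rw [pow_two, e4]) w1
  by_cases f1 : Fx P (s * s) = 1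
  · have inv := fun x hx => inv_of_fx1 h (hT.le hw) ow f1 (a := x) hx
    have wz : s * s * z * a * (s * s * z)⁻¹ = a⁻¹ := by
      rw [show s * s * z * a * (s * s * z)⁻¹ = s * s * (z * a * z⁻¹) * (s * s)⁻¹ by group,
        ← (mem_Cz.1 haℓ.2).eq, mul_inv_cancel_right, wa]
    have hv : s * s * z ∈ T := mul_mem hw hz
    have ov : orderOf (s * s * z) = 2 := orderOf_eq_prime
      (by rw [(cz _ hw).mul_pow, pow_two, pow_two, e4, zz, mul_one]) fun e => na (by rw [← wz, e]; group)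
    have f5 : Fx P (s * s * z) ≤ 5 := by
      rcases fx_cases h (s * s * z) with e | e | e | e
      · omega
      · omega
      · exact absurd e (t2 h t hT hv ov fun u hu => mem_Cz.2 ((cw u hu).mul_right (cz u hu)))
      · have e1 : (P : Subgroup S) ⊓ Cz (s * s * z) = P :=
          eq_of_le_of_card_ge inf_le_left (by rw [h.cardP]; exact e.ge)
        have e2 := mem_Cz.1 (e1.ge haℓ.1).2
        rw [← e2.eq, mul_inv_cancel_right] at wz
        exact absurd wz na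
    have le := Nat.card_le_card_of_surjective
      (fun x : ↥((P : Subgroup S) ⊓ Cz z) × ↥((P : Subgroup S) ⊓ Cz (s * s * z)) =>
        (⟨x.1.1 * x.2.1, mul_mem x.1.2.1 x.2.2.1⟩ : (P : Subgroup S))) fun x => by
      obtain ⟨b, hb, c, hc', e, e1, e2⟩ := inv_dec h (hT.le hz) h2 x.2
      refine ⟨(⟨b, hb, mem_Cz.2 e1⟩, ⟨c, hc', mem_Cz.2 (Commute.symm (mul_inv_eq_iff_eq_mul.1 ?_))⟩),
        Subtype.ext e.symm⟩
      rw [show s * s * z * c * (s * s * z)⁻¹ = s * s * (z * c * z⁻¹) * (s * s)⁻¹ by group, e2,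
        inv _ (inv_mem hc'), inv_inv]
    rw [Nat.card_prod, h.cardP] at le
    change 125 ≤ Fx P z * Fx P (s * s * z) at le
    rw [h5] at le
    omega
  obtain ⟨b, hb, b1⟩ : ∃ b ∈ (P : Subgroup S) ⊓ Cz (s * s), b ≠ 1 := by
    by_contra! k
    exact f1 (by rw [Fx, (eq_bot_iff_forall _).2 k, card_bot])
  have bw := mem_Cz.1 hb.2
  have key : ∀ u ∈ T, Commute b (u * u) → Commute (b * (u * b * u⁻¹)) u := fun u hu e => by
    refine Commute.symm (mul_inv_eq_iff_eq_mul.1 ?_)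
    rw [show u * (b * (u * b * u⁻¹)) * u⁻¹ = u * b * u⁻¹ * (u * u * b * (u * u)⁻¹) by group, ← e.eq,
      mul_inv_cancel_right, (h.commute hb.1 (nP u hu b hb.1)).eq]
  have sb : s * b * s⁻¹ = b⁻¹ := by
    by_contra c
    exact h.no20 (key s hs bw) (h.ord5 (mul_mem hb.1 (nP s hs b hb.1)) fun e =>
      c (eq_inv_of_mul_eq_one_right e)) (o4 s rfl)
  have zb : z * b * z⁻¹ = b⁻¹ := by
    have m := mul_mem hb.1 (nP z hz b hb.1)
    obtain ⟨i, -, e⟩ := pw _ ⟨m, mem_Cz.2 (key z hz (by rw [zz]; exact Commute.one_right b))⟩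
    have c : Commute (b * (z * b * z⁻¹)) (s * s) :=
      bw.mul_left (((cz _ hw).symm.mul_left bw).mul_left (cz _ hw).symm.inv_left)
    have c1 : s * s * (b * (z * b * z⁻¹)) * (s * s)⁻¹ = (b * (z * b * z⁻¹))⁻¹ := by
      rw [e, ← conj_pow, wa, inv_pow]
    rw [← c.eq, mul_inv_cancel_right] at c1
    by_contra c2
    have o := h.ord5 m fun e => c2 (eq_inv_of_mul_eq_one_right e)
    have := orderOf_dvd_of_pow_eq_one (show (b * (z * b * z⁻¹)) ^ 2 = 1 by
      rw [pow_two]; exact mul_eq_one_iff_eq_inv.2 c1)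
    rw [o] at this
    omega
  refine h.no20 (s := s * z) (Commute.symm (mul_inv_eq_iff_eq_mul.1 ?_)) (h.ord5 hb.1 b1) (o4 _ ?_)
  · rw [show s * z * b * (s * z)⁻¹ = s * (z * b * z⁻¹) * s⁻¹ by group, zb, ← conj_inv, sb, inv_inv]
  · rw [(cz s hs).symm.mul_mul_mul_comm, zz, mul_one]

end Cfsg.Agent.MCA
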