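import Cfsg.Agent.MCA.T2

/-!
MCA/T5a.  The dihedral case, first step.
-/

set_option autoImplicit false

namespace Cfsg.Agent.MCA

open Subgroup Cfsg.Agent.PLocal.Amb

variable {S : Type*} [Group S] [Finite S] {P : Sylow 5 S}

/-- U₁ = T ⊓ 𝐂[ℓ], ℓ = P ⊓ Cz z of order 5, is normalised by T and has exponent 2 (`no20`, order 40).  Fx u ≠ 1, ≠ 125 (`t1`); Fx u = 5 gives P ⊓ Cz u = ℓ, `f1`, `t1`: u z ∈ P ⊓ T = ⊥.
So Fx u = 25, u is not central in T (`t2`), so U₁ ≠ T (exponent 2 ⇒ abelian), |U₁| = 4, U₁ = {1,z,u,uz}; s u s⁻¹ ≠ u lies in U₁ and is ≠ 1, z. -/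
theorem t5a (h : Hyp P) (t : TI P) {T : Subgroup S} (hT : IsSyl 2 T 𝐍[(P : Subgroup S)]) {z : S} (hz : z ∈ T)
    (h2 : orderOf z = 2) (hc : T ≤ Cz z) (h5 : Fx P z = 5)
    {u : S} (hu : u ∈ T) (huc : u ∈ 𝐂[(P : Subgroup S) ⊓ Cz z]) (h1 : u ≠ 1) (hne : u ≠ z) :
    orderOf u = 2 ∧ Fx P u = 25 ∧ ∃ s ∈ T, s * u * s⁻¹ = u * z := by
  classical
  have c8 := (exists_g h t hT).1
  have p8 : ∀ w ∈ T, orderOf w ∣ 8 := fun w hw => c8 ▸ T.orderOf_dvd_natCard hw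
  have PT : ∀ x ∈ (P : Subgroup S), x ∈ T → x = 1 := fun x a b =>
    orderOf_eq_one_iff.1 (Nat.eq_one_of_dvd_coprimes (by norm_num : Nat.Coprime 5 8)
      (orderOf_dvd_of_pow_eq_one (h.pow5 a)) (p8 x b))
  obtain ⟨a, ha, a1⟩ : ∃ a ∈ (P : Subgroup S) ⊓ Cz z, a ≠ 1 := by
    by_contra! k
    rw [Fx, (eq_bot_iff_forall _).2 k, card_bot] at h5
    omega
  have ex : ∀ w ∈ T ⊓ 𝐂[(P : Subgroup S) ⊓ Cz z], w ^ 2 = 1 := fun w hw => by
    have k : Commute a w := hw.2 a ha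
    have o := h.ord5 ha.1 a1
    refine orderOf_dvd_iff_pow_eq_one.1 ?_
    obtain ⟨i, hi, e⟩ := (Nat.dvd_prime_pow Nat.prime_two (m := 3)).1 (p8 w hw.1)
    interval_cases i
    · rw [e]; norm_num
    · rw [e]; norm_num
    · exact (h.no20 k o e).elim
    · exact (h.no_comm k o e (by norm_num) (by decide)).elim
  have u2 : orderOf u = 2 := orderOf_eq_prime (ex u ⟨hu, huc⟩) h1
  have z2 : z * z = 1 := by rw [← pow_two, ← h2, pow_orderOf_eq_one]
  have z1 : z ≠ 1 := fun e => by rw [e, orderOf_one] at h2; omega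
  have uz : u * z ≠ 1 := fun e => hne (mul_right_cancel (e.trans z2.symm))
  have le : (P : Subgroup S) ⊓ Cz z ≤ (P : Subgroup S) ⊓ Cz u := fun x hx => ⟨hx.1, mem_Cz.2 (huc x hx)⟩
  have f25 : Fx P u = 25 := by
    rcases fx_cases h u with e | e | e | e
    · have := card_le_of_le le
      rw [show Nat.card ↥((P : Subgroup S) ⊓ Cz u) = 1 from e,
        show Nat.card ↥((P : Subgroup S) ⊓ Cz z) = 5 from h5] at this
      omega
    · exact absurd (PT _ (t1 h t (f1 h (hT.1 hu) (hT.1 hz) u2 h2 (mem_Cz.1 (hc hu))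
        (eq_of_le_of_card_ge le (e.trans h5.symm).le).symm)) (mul_mem hu hz)) uz
    · exact e
    · have := eq_of_le_of_card_ge (inf_le_left : (P : Subgroup S) ⊓ Cz u ≤ P) (h.cardP.trans e.symm).le
      exact absurd (PT u (t1 h t fun x hx => mem_Cz.1 (this.ge hx).2) hu) h1
  refine ⟨u2, f25, ?_⟩
  obtain ⟨s, hs, ns⟩ := SetLike.not_le_iff_exists.1 fun k => t2 h t hT hu u2 k f25
  refine ⟨s, hs, ?_⟩
  have zU : z ∈ T ⊓ 𝐂[(P : Subgroup S) ⊓ Cz z] := ⟨hz, fun x hx => mem_Cz.1 hx.2⟩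
  have uU : u ∈ T ⊓ 𝐂[(P : Subgroup S) ⊓ Cz z] := ⟨hu, huc⟩
  have sU : s * u * s⁻¹ ∈ T ⊓ 𝐂[(P : Subgroup S) ⊓ Cz z] := by
    refine ⟨T.mul_mem (T.mul_mem hs hu) (T.inv_mem hs), fun x hx => ?_⟩
    have k := huc (s⁻¹ * x * s⁻¹⁻¹) ⟨conj_mem_of_mem_normalizer (inv_mem (hT.1 hs)) hx.1,
      (Cz z).mul_mem ((Cz z).mul_mem ((Cz z).inv_mem (hc hs)) hx.2) ((Cz z).inv_mem ((Cz z).inv_mem (hc hs)))⟩
    calc x * (s * u * s⁻¹) = s * (s⁻¹ * x * s⁻¹⁻¹ * u) * s⁻¹ := by group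
      _ = _ := by rw [k]; group
  have c4 : Nat.card ↥(T ⊓ 𝐂[(P : Subgroup S) ⊓ Cz z]) ≤ 4 := by
    have d := card_dvd_of_le (inf_le_left : T ⊓ 𝐂[(P : Subgroup S) ⊓ Cz z] ≤ T)
    rw [c8] at d
    obtain ⟨i, hi, e⟩ := (Nat.dvd_prime_pow Nat.prime_two (m := 3)).1 d
    interval_cases i
    · omega
    · omega
    · omega
    · have s1 := (eq_of_le_of_card_ge inf_le_left (c8.trans e.symm).le).ge hs
      refine absurd (mem_Cz.2 ?_) ns
      have e1 := ex s s1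
      have e2 := ex u uU
      have e3 := ex _ (mul_mem s1 uU)
      rw [pow_two] at e1 e2 e3
      calc s * u = (s * u)⁻¹ := eq_inv_of_mul_eq_one_left e3
        _ = u * s := by rw [mul_inv_rev, inv_eq_of_mul_eq_one_right e1, inv_eq_of_mul_eq_one_right e2]
  by_contra k
  have n1 : s * u * s⁻¹ ≠ 1 := by simpa using h1
  have n2 : s * u * s⁻¹ ≠ z := fun e => hne (by
    rw [mul_inv_eq_iff_eq_mul, ← (mem_Cz.1 (hc hs)).eq] at e
    exact mul_left_cancel e)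
  have n3 : s * u * s⁻¹ ≠ u := fun e => ns (mem_Cz.2 (mul_inv_eq_iff_eq_mul.1 e))
  have n4 : u * z ≠ z := by simpa using h1
  have n5 : u * z ≠ u := by simpa using z1
  have c5 : ({s * u * s⁻¹, u * z, u, z, 1} : Finset S).card = 5 := by
    rw [Finset.card_insert_of_notMem (by simp only [Finset.mem_insert, Finset.mem_singleton]; tauto),
      Finset.card_insert_of_notMem (by simp only [Finset.mem_insert, Finset.mem_singleton]; tauto),
      Finset.card_insert_of_notMem (by simp only [Finset.mem_insert, Finset.mem_singleton]; tauto),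
      Finset.card_pair z1]
  have := Set.ncard_le_ncard (s := (({s * u * s⁻¹, u * z, u, z, 1} : Finset S) : Set S))
    (t := (T ⊓ 𝐂[(P : Subgroup S) ⊓ Cz z] : Subgroup S)) (by
      intro x hx
      simp only [Finset.coe_insert, Finset.coe_singleton, Set.mem_insert_iff, Set.mem_singleton_iff] at hx
      rcases hx with rfl | rfl | rfl | rfl | rfl
      exacts [sU, mul_mem uU zU, uU, zU, one_mem _])
  rw [Set.ncard_coe_finset, c5, ← Nat.card_coe_set_eq] at this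
  exact absurd (this.trans c4) (by norm_num)

end Cfsg.Agent.MCA
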