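import Cfsg.Agent.MCA.T1

/-!
MCA/T5b.  The dihedral case, second step.
-/

set_option autoImplicit false

namespace Cfsg.Agent.MCA

open Subgroup Cfsg.Agent.PLocal.Amb

variable {S : Type*} [Group S] [Finite S] {P : Sylow 5 S}

/-- D = P ⊓ Cz u; {1,u,z,uz} ≤ 𝐍[D] ⊓ Cz u, `g1c` with `isSyl_fx`.  If Cz u ≤ 𝐍[D] ≤ N: u' = g u g⁻¹ ∈ T (`exists_g`) inverts P (`conj0`, `inv_of_fx1`), so for x ∈ T,
x u' x⁻¹ u' centralises P, lies in P ⊓ T = ⊥ (`t1`): u' is central in T, hence so is u = g⁻¹ u' g, contradicting s u s⁻¹ = u z. -/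
theorem t5b (h : Hyp P) (t : TI P) {T : Subgroup S} (hT : IsSyl 2 T 𝐍[(P : Subgroup S)]) {z : S} (hz : z ∈ T)
    (h2 : orderOf z = 2) (hc : T ≤ Cz z) (h5 : Fx P z = 5)
    {u s : S} (hu : u ∈ T) (hu2 : orderOf u = 2) (hne : u ≠ z) (h25 : Fx P u = 25) (hs : s ∈ T)
    (hsu : s * u * s⁻¹ = u * z) :
    (𝐍[(P : Subgroup S) ⊓ Cz u]).relIndex (Cz u) = 7776 := by
  obtain ⟨s1, s2, s3⟩ := isSyl_fx h t (v := u) (by rw [h25]; norm_num)
  obtain ⟨c8, g, g1, g2⟩ := exists_g h t hT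
  have TN : T ≤ 𝐍[(P : Subgroup S)] := hT.1
  have n1 : ∀ x ∈ T, Commute x u → x ∈ (𝐍[(P : Subgroup S) ⊓ Cz u] ⊓ Cz u) ⊓ T := fun x hx e =>
    ⟨⟨mem_normalizer_fintype fun y hy => ⟨(mem_normalizer_iff.1 (TN hx) y).1 hy.1,
      mem_Cz.2 ((e.mul_left (mem_Cz.1 hy.2)).mul_left e.inv_left)⟩, mem_Cz.2 e⟩, hx⟩
  have c4 : 4 ∣ Nat.card ↥(𝐍[(P : Subgroup S) ⊓ Cz u] ⊓ Cz u) := by
    refine dvd_trans ?_ (card_dvd_of_le (inf_le_left (b := T)))
    have q1 := card_dvd_of_le (zpowers_le.2 (n1 u hu (Commute.refl u)))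
    have q2 := card_dvd_of_le (inf_le_right (a := 𝐍[(P : Subgroup S) ⊓ Cz u] ⊓ Cz u) (b := T))
    have q3 : Nat.card ↥((𝐍[(P : Subgroup S) ⊓ Cz u] ⊓ Cz u) ⊓ T) ≠ 2 := fun e => by
      have q4 := eq_of_le_of_card_ge (zpowers_le.2 (n1 u hu (Commute.refl u)))
        (by rw [e, Nat.card_zpowers, hu2])
      have q5 := q4.ge (n1 z hz (mem_Cz.1 (hc hu)).symm)
      obtain ⟨k, e'⟩ := (mem_powers_iff_mem_zpowers.2 q5 : z ∈ Submonoid.powers u)
      dsimp only at e'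
      rw [← pow_mod_orderOf, hu2] at e'
      rcases Nat.mod_two_eq_zero_or_one k with hk | hk <;> rw [hk] at e'
      · rw [← e', pow_zero, orderOf_one] at h2; omega
      · exact hne ((pow_one u).symm.trans e')
    rw [Nat.card_zpowers, hu2] at q1
    rw [c8] at q2
    generalize Nat.card ↥((𝐍[(P : Subgroup S) ⊓ Cz u] ⊓ Cz u) ⊓ T) = n at q1 q2 q3
    have := Nat.le_of_dvd (by norm_num) q2
    interval_cases n <;> omega
  refine (g1c h (.inl hu2) s1 s3 h25 c4).resolve_left fun r => ?_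
  have u1 : g * u * g⁻¹ ∈ T := (mem_normalizer_iff.1 g1 u).1 hu
  have u2 : orderOf (g * u * g⁻¹) = 2 := by
    rw [← hu2]; exact (MulAut.conj g).orderOf_eq u
  have u3 := fun a ha => inv_of_fx1 h (TN u1) u2 (conj0 h t (r.trans s2) g2) (a := a) ha
  generalize hw : g * u * g⁻¹ = w at u1 u2 u3
  have u4 : ∀ x ∈ T, x * w = w * x := fun x hx => by
    have q1 : x * w * x⁻¹ * w⁻¹ ∈ T := mul_mem (mul_mem (mul_mem hx u1) (inv_mem hx)) (inv_mem u1)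
    have q2 : x * w * x⁻¹ * w⁻¹ ∈ (P : Subgroup S) := t1 h t (mem_centralizer_iff.2 fun a ha => by
      have a1 : w⁻¹ * a * w = a⁻¹ := by
        have := u3 _ (inv_mem ha)
        rw [inv_inv] at this
        calc w⁻¹ * a * w = w⁻¹ * (w * a⁻¹ * w⁻¹) * w := by rw [this]
          _ = a⁻¹ := by group
      have a2 := u3 _ ((mem_normalizer_iff.1 (inv_mem (TN hx)) _).1 (inv_mem ha))
      have a3 : x * w * x⁻¹ * w⁻¹ * a * (x * w * x⁻¹ * w⁻¹)⁻¹ = a := by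
        calc _ = x * (w * (x⁻¹ * (w⁻¹ * a * w) * x⁻¹⁻¹) * w⁻¹) * x⁻¹ := by group
          _ = a := by rw [a1, a2]; group
      exact (mul_inv_eq_iff_eq_mul.1 a3).symm)
    have q3 := Nat.dvd_gcd (T.orderOf_dvd_natCard q1) ((P : Subgroup S).orderOf_dvd_natCard q2)
    rw [c8, h.cardP] at q3
    have q4 := orderOf_eq_one_iff.1 (Nat.dvd_one.1 q3)
    calc x * w = x * w * x⁻¹ * w⁻¹ * (w * x) := by group
      _ = w * x := by rw [q4, one_mul]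
  have u5 := u4 _ ((mem_normalizer_iff.1 g1 s).1 hs)
  have u6 : s * u * s⁻¹ = u := by
    calc s * u * s⁻¹ = g⁻¹ * (g * s * g⁻¹ * w) * g * s⁻¹ := by rw [← hw]; group
      _ = u := by rw [u5, ← hw]; group
  rw [u6, left_eq_mul] at hsu
  rw [hsu, orderOf_one] at h2
  omega

end Cfsg.Agent.MCA
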