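import Cfsg.Agent.MCA.Def
import Cfsg.Agent.Transfer.AbelianHall

/-!
MCA/Tr.  Transfer.
-/

set_option autoImplicit false

namespace Cfsg.Agent.MCA

open Subgroup Cfsg.Agent.PLocal.Amb

variable {H : Type*} [Group H] [Finite H]

/-- `Transfer.isComplement'_pResidual_of_comm` (Transfer/AbelianHall): `pResidual 5 H` is a normal complement to `Q ⊓ 𝐂[𝐍[Q]] ∋ a`. -/
theorem tr (Q : Sylow 5 H) (hQ : IsMulCommutative (Q : Subgroup H)) {a : H} (ha : a ∈ (Q : Subgroup H))
    (h1 : a ≠ 1) (hc : 𝐍[(Q : Subgroup H)] ≤ Cz a) :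
    ∃ M : Subgroup H, M.Normal ∧ ∃ k, 1 ≤ k ∧ M.index = 5 ^ k := by
  have h := Transfer.isComplement'_pResidual_of_comm Q hQ
  have hm : a ∈ (Q : Subgroup H) ⊓ 𝐂[𝐍[(Q : Subgroup H)]] :=
    ⟨ha, fun g hg => (mem_Cz.1 (hc hg)).eq⟩
  have hp : IsPGroup 5 ((Q : Subgroup H) ⊓ 𝐂[𝐍[(Q : Subgroup H)]] : Subgroup H) := Q.2.to_inf_left
  obtain ⟨k, hk⟩ := IsPGroup.iff_card.1 hp
  refine ⟨pResidual 5 H, inferInstance, k, ?_, by rw [h.symm.index_eq_card, hk]⟩
  rcases k with _ | k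
  · rw [pow_zero, Subgroup.card_eq_one] at hk
    rw [hk] at hm
    exact absurd hm h1
  · omega

/-- `tr`: M = ⊥ or ⊤ in a simple group of order 898128000. -/
theorem Hyp.not_central {P : Sylow 5 H} (h : Hyp P) {a : H} (ha : a ∈ (P : Subgroup H)) (h1 : a ≠ 1) :
    ¬ 𝐍[(P : Subgroup H)] ≤ Cz a := by
  intro hc
  obtain ⟨M, hM, k, hk, hi⟩ := tr P h.comm ha h1 hc
  haveI := h.simple
  rcases hM.eq_bot_or_eq_top with rfl | rfl
  · rw [index_bot, h.card] at hi
    have : 2 ∣ 5 ^ k := hi ▸ by norm_num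
    exact absurd (Nat.prime_two.dvd_of_dvd_pow this) (by norm_num)
  · rw [index_top] at hi
    have : 5 ∣ 5 ^ k := dvd_pow_self 5 (by omega)
    rw [← hi] at this
    omega

/-- M from `tr`; R Sylow 3 in M has order 3^5; Frattini (`IsSyl.frattini_sup`): M ⊔ 𝐍[R] = ⊤, so 5 ∣ |𝐍[R]|; d ∈ 𝐍[R] of order 5 fixes ≡ 243 ≡ 3 mod 5
elements of R (`IsPGroup.card_modEq_card_fixedPoints`), so some x ≠ 1; a power of x has order 3. -/
theorem tr5 (hH : Nat.card H = 777600) (Q : Sylow 5 H) (hQ : IsMulCommutative (Q : Subgroup H)) {a : H}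
    (ha : a ∈ (Q : Subgroup H)) (h1 : a ≠ 1) (hc : 𝐍[(Q : Subgroup H)] ≤ Cz a) :
    ∃ d r : H, orderOf d = 5 ∧ orderOf r = 3 ∧ Commute d r := by
  obtain ⟨M, hM, k, hk, hi⟩ := tr Q hQ ha h1 hc
  haveI : Fact (Nat.Prime 3) := ⟨Nat.prime_three⟩
  obtain ⟨T, hT⟩ := exists_isSyl 3 M
  have hcard : Nat.card M * 5 ^ k = 3 ^ 5 * 3200 := by
    rw [← hi, Subgroup.card_mul_index, hH]; norm_num
  have hf : (Nat.card M).factorization 3 = 5 := by
    have := congrArg (fun n => Nat.factorization n 3) hcard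
    rw [Nat.factorization_mul Nat.card_pos.ne' (by positivity),
      Nat.factorization_mul (by norm_num) (by norm_num), Finsupp.add_apply, Finsupp.add_apply,
      Nat.factorization_eq_zero_of_not_dvd (n := 3200) (by norm_num),
      Nat.factorization_eq_zero_of_not_dvd (n := 5 ^ k)
        (fun e => absurd (Nat.prime_three.dvd_of_dvd_pow e) (by norm_num)),
      Nat.Prime.factorization_pow Nat.prime_three] at this
    simpa using this
  have hTc : Nat.card T = 243 := by rw [hT.card_eq_pow, hf]; norm_num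
  have hs := hT.frattini_sup (L := ⊤) le_top (by rw [normalizer_eq_top M])
  rw [top_inf_eq, sup_comm] at hs
  have h5 : 5 ∣ Nat.card 𝐍[T] := by
    refine Dvd.dvd.trans ?_ (relIndex_dvd_card M 𝐍[T])
    rw [← relIndex_sup_right, hs, relIndex_top_right, hi]
    exact dvd_pow_self 5 (by omega)
  obtain ⟨d, hd⟩ := exists_prime_orderOf_dvd_card' 5 h5
  have hD : IsPGroup 5 (zpowers d) := IsPGroup.of_card (n := 1) (by rw [Nat.card_zpowers, hd]; norm_num)
  letI : MulAction (zpowers d) T :=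
    MulAction.compHom T (T.normalizerMonoidHom.comp (zpowers d).subtype)
  have hmod := hD.card_modEq_card_fixedPoints T
  have : ∃ x : T, x ≠ 1 ∧ Commute (d : H) x := by
    by_contra hno
    push Not at hno
    have : MulAction.fixedPoints (zpowers d) T = {1} := by
      refine Set.eq_singleton_iff_unique_mem.2 ⟨fun g => map_one (T.normalizerMonoidHom g), fun x hx => ?_⟩
      by_contra hx1
      refine hno x hx1 ?_
      have e : (d : H) * x * (d : H)⁻¹ = x := congrArg Subtype.val (hx ⟨d, mem_zpowers d⟩)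
      exact mul_inv_eq_iff_eq_mul.1 e
    rw [this, hTc] at hmod
    simp only [Nat.card_unique] at hmod
    exact absurd hmod (by decide)
  obtain ⟨x, hx1, hx⟩ := this
  obtain ⟨j, hj⟩ := IsPGroup.iff_orderOf.1 hT.pgrp x
  have h3 : 3 ∣ orderOf (x : H) := by
    rw [Subgroup.orderOf_coe, hj]
    rcases j with _ | j
    · exact absurd (orderOf_eq_one_iff.1 (by simpa using hj)) hx1
    · exact dvd_pow_self 3 (by omega)
  refine ⟨d, (x : H) ^ (orderOf (x : H) / 3), by rw [Subgroup.orderOf_coe, hd],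
    orderOf_pow_orderOf_div (orderOf_pos _).ne' h3, hx.pow_right _⟩

end Cfsg.Agent.MCA
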