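import Cfsg.Agent.MCA.T0b
import Cfsg.Agent.MCA.Tr

/-!
MCA/T5c.  The dihedral case, last step.
-/

set_option autoImplicit false

namespace Cfsg.Agent.MCA

open Subgroup Cfsg.Agent.PLocal.Amb

variable {S : Type*} [Group S] [Finite S] {P : Sylow 5 S}

omit [Finite S] in
theorem t5c_card (H K : Subgroup S) : Nat.card ↥(H ⊓ K) * H.relIndex K = Nat.card K := by
  rw [← (H.subgroupOf K).card_mul_index, ← inf_subgroupOf_right H K,
    Nat.card_congr (subgroupOfEquivOfLe (inf_le_right : H ⊓ K ≤ K)).toEquiv, inf_subgroupOf_right]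
  rfl

theorem t5c_four {T K : Subgroup S} (hT : IsPGroup 2 T) {u z : S} (hu : u ∈ T) (hz : z ∈ T)
    (hu' : u ∈ K) (hz' : z ∈ K) (hu2 : orderOf u = 2) (h2 : orderOf z = 2) (hne : u ≠ z) :
    4 ∣ Nat.card K := by
  classical
  refine Dvd.dvd.trans ?_ (card_dvd_of_le (inf_le_left : K ⊓ T ≤ K))
  obtain ⟨k, hk⟩ := (IsPGroup.iff_card (p := 2)).1 (hT.to_le (inf_le_right : K ⊓ T ≤ T))
  by_contra h4
  have hk1 : k ≤ 1 := by
    by_contra h5
    exact h4 (hk ▸ (pow_dvd_pow 2 (by omega : 2 ≤ k)))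
  have e : zpowers u = K ⊓ T := eq_of_le_of_card_ge (zpowers_le.2 ⟨hu', hu⟩) (by
    rw [Nat.card_zpowers, hu2, hk]
    interval_cases k <;> norm_num)
  have hm : z ∈ zpowers u := e ▸ ⟨hz', hz⟩
  rw [mem_zpowers_iff_mem_range_orderOf, hu2, Finset.mem_image] at hm
  obtain ⟨i, hi, rfl⟩ := hm
  rw [Finset.mem_range] at hi
  interval_cases i
  · simp at h2
  · simp at hne

/-- elements of `𝐍[P]` commuting with `u` modulo `P` -/
def t5cL (P : Subgroup S) (u : S) : Subgroup S where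
  carrier := {n | n ∈ 𝐍[P] ∧ n * u * n⁻¹ * u⁻¹ ∈ P}
  one_mem' := ⟨one_mem _, by simp⟩
  mul_mem' := fun {n m} hn hm => ⟨mul_mem hn.1 hm.1, by
    have := mul_mem (conj_mem_of_mem_normalizer hn.1 hm.2) hn.2
    convert this using 1
    group⟩
  inv_mem' := fun {n} hn => ⟨inv_mem hn.1, by
    have := inv_conj_mem_of_mem_normalizer hn.1 (inv_mem hn.2)
    convert this using 1
    group⟩

theorem t5c (h : Hyp P) (t : TI P) {T : Subgroup S} (hT : IsSyl 2 T 𝐍[(P : Subgroup S)]) {z : S} (hz : z ∈ T)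
    (h2 : orderOf z = 2) (hc : T ≤ Cz z) (h5 : Fx P z = 5)
    {u s : S} (hu : u ∈ T) (huc : u ∈ 𝐂[(P : Subgroup S) ⊓ Cz z]) (hu2 : orderOf u = 2) (hne : u ≠ z)
    (h25 : Fx P u = 25) (hs : s ∈ T) (hsu : s * u * s⁻¹ = u * z)
    (hi : (𝐍[(P : Subgroup S) ⊓ Cz u]).relIndex (Cz u) = 7776) : False := by
  obtain ⟨hD, hN, -⟩ := isSyl_fx h t (v := u) (by omega)
  set D : Subgroup S := (P : Subgroup S) ⊓ Cz u with hDdef
  set A : Subgroup S := 𝐍[D] ⊓ Cz u with hAdef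
  have hAN : A ≤ 𝐍[(P : Subgroup S)] := inf_le_left.trans hN
  have hNA : 𝐍[(P : Subgroup S)] ⊓ Cz u ≤ A :=
    le_inf (le_normalizer_inf inf_le_left (inf_le_right.trans le_normalizer)) inf_le_right
  have huz : Commute u z := mem_Cz.1 (hc hu)
  have huA : u ∈ A := hNA ⟨hT.le hu, mem_Cz.2 (Commute.refl u)⟩
  have hzA : z ∈ A := hNA ⟨hT.le hz, mem_Cz.2 huz.symm⟩
  have hDA : D ≤ A := le_inf le_normalizer inf_le_right
  have hcu : Nat.card A * 7776 = Nat.card (Cz u) := hi ▸ t5c_card _ _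
  by_cases h3 : 3 ∣ Nat.card A
  · have : Fact (Nat.Prime 3) := ⟨by norm_num⟩
    obtain ⟨⟨r, hr⟩, hr3⟩ := exists_prime_orderOf_dvd_card' 3 h3
    rw [← orderOf_coe] at hr3
    have hru : Commute r u := mem_Cz.1 hr.2
    have hLN : t5cL (P : Subgroup S) u ≤ 𝐍[(P : Subgroup S)] := fun _ hx => hx.1
    have hAL : A ≤ t5cL (P : Subgroup S) u := fun x hx => ⟨hAN hx, by
      rw [(mem_Cz.1 hx.2).eq]; simp⟩
    have hPL : (P : Subgroup S) ≤ t5cL (P : Subgroup S) u := fun x hx => ⟨le_normalizer hx, by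
      have := mul_mem hx (conj_mem_of_mem_normalizer (hT.le hu) (inv_mem hx))
      convert this using 1
      group⟩
    have c1 := h3.trans (card_dvd_of_le hAL)
    have c2 := t5c_four hT.pgrp hu hz (hAL huA) (hAL hzA) hu2 h2 hne
    have c3 := h.cardP ▸ card_dvd_of_le hPL
    have c4 := t5c_card (t5cL (P : Subgroup S) u) 𝐍[(P : Subgroup S)]
    rw [inf_eq_left.2 hLN, t.card] at c4
    obtain ⟨m, hm⟩ : 1500 ∣ Nat.card (t5cL (P : Subgroup S) u) := by omega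
    rw [hm] at c4
    have c5 : (t5cL (P : Subgroup S) u).relIndex 𝐍[(P : Subgroup S)] ∣ 2 := ⟨m, by nlinarith⟩
    have hx : s⁻¹ * r * s ∈ 𝐍[(P : Subgroup S)] :=
      mul_mem (mul_mem (inv_mem (hT.le hs)) (hAN hr)) (hT.le hs)
    have hr1 : r ^ 3 = 1 := hr3 ▸ pow_orderOf_eq_one r
    have hxL : s⁻¹ * r * s ∈ t5cL (P : Subgroup S) u := by
      rcases (Nat.dvd_prime Nat.prime_two).1 c5 with e | e
      · exact relIndex_eq_one.1 e hx
      · have h6 := mul_self_mem_of_index_two e ⟨_, hx⟩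
        rw [mem_subgroupOf] at h6
        have h7 := mul_mem h6 h6
        have e2 : s⁻¹ * r * s = s⁻¹ * r * s * (s⁻¹ * r * s) * (s⁻¹ * r * s * (s⁻¹ * r * s)) := by
          have : s⁻¹ * r * s * (s⁻¹ * r * s) * (s⁻¹ * r * s * (s⁻¹ * r * s)) = s⁻¹ * (r ^ 3 * r) * s := by
            simp only [pow_succ, pow_zero, one_mul, mul_assoc, mul_inv_cancel_left]
          rw [this, hr1, one_mul]
        rw [e2]
        exact h7
    have h8 := conj_mem_of_mem_normalizer (hT.le hs) hxL.2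
    have e3 : s * (s⁻¹ * r * s * u * (s⁻¹ * r * s)⁻¹ * u⁻¹) * s⁻¹ =
        r * (s * u * s⁻¹) * r⁻¹ * (s * u * s⁻¹)⁻¹ := by group
    rw [e3, hsu] at h8
    have h9 := inv_mem (inv_conj_mem_of_mem_normalizer (hT.le hu) h8)
    refine f2' h (hT.le hz) h2 h5 (hAN hr) hr3 ?_
    convert h9 using 1
    have e4 : u⁻¹ * (r * (u * z) * r⁻¹ * (u * z)⁻¹) * u = u⁻¹ * (r * u) * z * r⁻¹ * z⁻¹ := by group
    rw [e4, hru.eq]
    group
  · have c1 := t5c_card D A
    rw [inf_eq_left.2 hDA, show Nat.card D = 25 from h25] at c1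
    have c2 := (hD.mono hDA inf_le_right).not_dvd_relIndex
    have c3 := t5c_four hT.pgrp hu hz huA hzA hu2 h2 hne
    have c4 := t.card ▸ card_dvd_of_le hAN
    have c5 : Nat.card A * 7776 ∣ 898128000 := by
      rw [hcu, ← h.card]; exact card_subgroup_dvd_card _
    have c6 : Nat.card A = 100 := by
      generalize D.relIndex A = m at c1 c2
      rw [← c1] at c3 c4 c5 h3 ⊢
      have d1 : m ∣ 120 := Nat.dvd_of_mul_dvd_mul_left (k := 25) (by norm_num) c4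
      have d2 : m ∣ 4620 := Nat.dvd_of_mul_dvd_mul_left (k := 25 * 7776) (by norm_num)
        (by rwa [mul_right_comm] at c5)
      have d3 : m ∣ 60 := Nat.dvd_gcd d1 d2
      have d4 := Nat.le_of_dvd (by norm_num) d3
      interval_cases m <;> omega
    obtain ⟨⟨a, ha⟩, ha1⟩ := ne_bot_iff_exists_ne_one.1
      ((one_lt_card_iff_ne_bot ((P : Subgroup S) ⊓ Cz z)).1 (by rw [show Nat.card _ = 5 from h5]; norm_num))
    have ha2 : a ≠ 1 := fun e => ha1 (Subtype.ext e)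
    have hau : Commute a u := mem_centralizer_iff.1 huc a ha
    have haD : a ∈ D := ⟨ha.1, mem_Cz.2 hau⟩
    have hB : A ⊓ Cz a = A := eq_of_le_of_card_ge inf_le_left (by
      have d1 := card_dvd_of_le (le_inf hDA (inf_le_left.trans (h.le_Cz ha.1)) : D ≤ A ⊓ Cz a)
      rw [show Nat.card D = 25 from h25] at d1
      have d2 := t5c_four (K := A ⊓ Cz a) hT.pgrp hu hz ⟨huA, mem_Cz.2 hau.symm⟩
        ⟨hzA, mem_Cz.2 (mem_Cz.1 ha.2).symm⟩ hu2 h2 hne
      have d3 : 0 < Nat.card ↥(A ⊓ Cz a) := Nat.card_pos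
      omega)
    obtain ⟨Q, hQ⟩ := hD.exists_sylow
    have hm : ∀ x ∈ (Q : Subgroup (Cz u)), (x : S) ∈ (P : Subgroup S) := fun x hx => by
      rw [hQ, mem_subgroupOf] at hx; exact hx.1
    obtain ⟨d, r, hd, hr, hdr⟩ := tr5 (H := Cz u) (by rw [← hcu, c6]) Q
      ⟨⟨fun x y => Subtype.ext (Subtype.ext (h.commute (hm _ x.2) (hm _ y.2)).eq)⟩⟩
      (a := ⟨a, haD.2⟩) (by rw [hQ, mem_subgroupOf]; exact haD) (fun e => ha2 (congrArg Subtype.val e))
      (fun x hx => by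
        rw [normalizer_eq_subgroupOf, hQ, map_subgroupOf_of_le hD.le, mem_subgroupOf] at hx
        have : (x : S) ∈ A ⊓ Cz a := hB.symm ▸ ⟨hx, x.2⟩
        exact mem_Cz.2 (Subtype.ext (mem_Cz.1 this.2).eq))
    exact h.no30 (a := d) (v := u) (r := r) (mem_Cz.1 d.2) (congrArg Subtype.val hdr.eq)
      (mem_Cz.1 r.2).symm (by rwa [orderOf_coe]) hu2 (by rwa [orderOf_coe])

end Cfsg.Agent.MCA
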